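import Cfsg.Agent.R2.T1.Odd.O4
import Cfsg.Agent.R2.T1.Inf.Aut
import Cfsg.Agent.R2.T1.P3.Q3

/-!
# S5771, ODD5: the configuration for `V F`; restriction to `A_8`; the output for the boxes P3 and Q4 (helper11)

* `emb8 hn : A8 →* A_n` (acting on the first 8 points), `emb8_val`, `emb8_P`, `exists_emb8`;
* `cfgU`, `cfgT` : the configuration of `O3`, `O4` for `(V F) ∘ ψ`, `ψ : A_n →* Gh F`, `n ≥ 8`, `2 ≠ 0` (`5 ≠ 0`);
-/

set_option autoImplicit false
set_option maxRecDepth 100000

namespace Cfsg.Agent.R2.T1.Odd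

open Cfsg Cfsg.Lie Module Equiv Equiv.Perm
open Cfsg.Agent.H943.E7V.Block (D1 rho)
open Cfsg.Agent.H952.F4 (ev es)

universe u v

/-! ### the embedding of `A_8` -/

section emb8
variable {n : ℕ} (hn : 8 ≤ n)

def fE : Fin 8 ≃ {i : Fin n // i.val < 8} where
  toFun i := ⟨⟨i.val, i.2.trans_le hn⟩, i.2⟩
  invFun i := ⟨i.1.val, i.2⟩
  left_inv _ := rfl
  right_inv _ := rfl

/-- `A_8` acting on the first 8 points -/
noncomputable def emb8 : A8 →* ↥(alternatingGroup (Fin n)) :=
  ((Perm.extendDomainHom (fE hn)).comp (alternatingGroup (Fin 8)).subtype).codRestrict _ fun g => by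
    rw [mem_alternatingGroup]
    show sign (Perm.extendDomain (g : Perm (Fin 8)) (fE hn)) = 1
    rw [Perm.sign_extendDomain]
    exact mem_alternatingGroup.1 g.2

theorem emb8_coe (g : A8) : ((emb8 hn g : ↥(alternatingGroup (Fin n))) : Perm (Fin n)) =
    Perm.extendDomain (g : Perm (Fin 8)) (fE hn) := rfl

theorem emb8_lt (g : A8) (i : Fin 8) : ((emb8 hn g : ↥(alternatingGroup (Fin n))) : Perm (Fin n)) ⟨i.val, i.2.trans_le hn⟩ =
    ⟨((g : Perm (Fin 8)) i).val, ((g : Perm (Fin 8)) i).2.trans_le hn⟩ := by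
  rw [emb8_coe]
  exact Perm.extendDomain_apply_image (g : Perm (Fin 8)) (fE hn) i

theorem emb8_ge (g : A8) (i : Fin n) (hi : 8 ≤ i.val) : ((emb8 hn g : ↥(alternatingGroup (Fin n))) : Perm (Fin n)) i = i := by
  rw [emb8_coe]
  exact Perm.extendDomain_apply_not_subtype (g : Perm (Fin 8)) (fE hn) (by omega)

theorem emb8_inj : Function.Injective (emb8 hn) := by
  intro a b h
  apply Subtype.ext
  apply Perm.ext
  intro i
  have h1 := emb8_lt hn a i
  rw [h, emb8_lt] at h1
  exact Fin.ext (congrArg Fin.val h1).symm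

theorem emb8_P [NeZero n] {l : List (ℕ × ℕ)} (hl : vl 8 l = true) : emb8 hn (P 8 l) = P n l := by
  apply Subtype.ext
  apply Perm.ext
  intro i
  rw [coe_P hn hl]
  have hE := (vl_iff.1 hl).2
  by_cases hi : i.val < 8
  · have h1 := emb8_lt hn (P 8 l) ⟨i.val, hi⟩
    have h2 : (⟨(⟨i.val, hi⟩ : Fin 8).val, i.2⟩ : Fin n) = i := rfl
    rw [h2] at h1
    rw [h1]
    apply Fin.ext
    show ((P 8 l : Perm (Fin 8)) ⟨i.val, hi⟩).val = _
    rw [coe_P le_rfl hl, pm_apply hE, pm_apply (hE.mono hn)]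
  · rw [emb8_ge hn _ _ (by omega)]
    apply Fin.ext
    rw [pm_apply (hE.mono hn), ap_ge hE (by omega)]

theorem exists_emb8 {g : ↥(alternatingGroup (Fin n))} (hg : ∀ i : Fin n, 8 ≤ i.val → (g : Perm (Fin n)) i = i) :
    ∃ g' : A8, emb8 hn g' = g := by
  have hp : ∀ x : Fin n, (x.val < 8) ↔ ((g : Perm (Fin n)) x).val < 8 := by
    intro x
    constructor
    · intro hx
      by_contra h
      have h1 := hg _ (by omega : 8 ≤ ((g : Perm (Fin n)) x).val)
      have h2 := (g : Perm (Fin n)).injective h1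
      rw [h2] at h
      exact h hx
    · intro hx
      by_contra h
      rw [hg x (by omega)] at hx
      exact h hx
  let σ : Perm (Fin 8) := (fE hn).symm.permCongr ((g : Perm (Fin n)).subtypePerm (p := fun x => x.val < 8) (fun x => (hp x).symm))
  have h1 : Perm.extendDomain σ (fE hn) = (g : Perm (Fin n)) := by
    apply Perm.ext
    intro i
    by_cases hi : i.val < 8
    · rw [Perm.extendDomain_apply_subtype σ (fE hn) hi]
      simp [σ]
    · rw [Perm.extendDomain_apply_not_subtype σ (fE hn) hi, hg i (by omega)]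
  have h2 : σ ∈ alternatingGroup (Fin 8) := by
    rw [mem_alternatingGroup, ← Perm.sign_extendDomain σ (fE hn), h1]
    exact mem_alternatingGroup.1 g.2
  exact ⟨⟨σ, h2⟩, Subtype.ext h1⟩

end emb8

/-! ### the configuration -/

section cfg
variable {F : Type u} [Field F] [Finite F] (h2 : (2 : F) ≠ 0) {n : ℕ} [NeZero n] (hn : 8 ≤ n)
  {ψ : ↥(alternatingGroup (Fin n)) →* Gh F} (hψ : ∀ a, ad F (ψ a) = 1 → a = 1)

include h2 hn hψ

theorem cfgU : CfgU (MonoidHom.comp (V F) ψ : Representation F ↥(alternatingGroup (Fin n)) (D1 → F)) (sf F) where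
  two := h2
  fin := inferInstance
  isom g x y := sf_V (ψ g) x y
  skew x y := sf_swap x y
  nd x h := sf_nondeg' h
  dim := (types hn h2 hψ).2.2.2.2.1
  qs := Submodule.finrank_eq_zero.1 (types hn h2 hψ).2.2.2.2.2.1
  qj := by
    have h1 := (types hn h2 hψ).2.2.2.2.1
    have h3 := (types hn h2 hψ).2.2.2.2.2.2
    exact (Submodule.eq_of_le_of_finrank_eq (inv_mono gQ_le_gQj) (by rw [h3, h1])).ge

theorem cfgT (h5 : (5 : F) ≠ 0) :
    CfgT (MonoidHom.comp (V F) ψ : Representation F ↥(alternatingGroup (Fin n)) (D1 → F)) (sf F) where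
  toCfgU := cfgU h2 hn hψ
  five := h5
  dimW := finrank_V
  evt := (types hn h2 hψ).1
  evs := (types hn h2 hψ).2.1
  ev42 := (types hn h2 hψ).2.2.1
  ev44 := (types hn h2 hψ).2.2.2.1
  ev5 := by
    have h1 : P n l5 ^ 5 = 1 := P_pow_one hn (m := 8) (by decide) (by decide)
    have h3 : P n [(1, 2), (2, 4), (4, 3), (5, 6)] * P n l5 * (P n [(1, 2), (2, 4), (4, 3), (5, 6)])⁻¹ = P n l5 ^ 2 := by
      rw [mul_inv_eq_iff_eq_mul, ← P_pwl hn (m := 8) (by decide), ← P_append hn (m := 8) (by decide) (by decide),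
        ← P_append hn (m := 8) (by decide) (by decide), P_eq_iff hn (by decide) (by decide)]
      decide
    refine five_rat h5 (x := ψ (P n l5)) (g := ψ (P n [(1, 2), (2, 4), (4, 3), (5, 6)])) ?_ ?_ ?_
    · rw [← map_pow, h1, map_one]
    · intro h4
      exact psi_ne hn hψ (l := l5) (by decide) (by decide) (by rw [h4, map_one])
    · rw [← map_inv, ← map_mul, ← map_mul, h3, map_pow]

end cfg

end Cfsg.Agent.R2.T1.Odd
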