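import Cfsg.Agent.R2.T1.Odd.Tab9
import Cfsg.Agent.R2.T1.Odd.Out

/-!
# S5771, ODD5: `n ≥ 9`, `p ≠ 2, 3, 7`: the 3-cycles are not of type 20 (helper11)

* `om_nine`;
* `d33` : `ev = 20` for the elements of type `3²`, `n ≥ 8`, `p ≥ 5`;
* `nine5` : `n ≥ 9`, `p ≠ 2, 3, 7`: `ev ≠ 20` for the 3-cycles.
-/

set_option autoImplicit false
set_option maxRecDepth 100000

namespace Cfsg.Agent.R2.T1.Odd

open Cfsg Cfsg.Lie Module Equiv Equiv.Perm
open Cfsg.Agent.H943.E7V.Block (D1 rho)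
open Cfsg.Agent.H952.F4 (ev es MaxAlt)
open Cfsg.Agent.R2.T1.Art

universe u v

theorem om_nine {K : Type*} [Field K] {W : Type*} [AddCommGroup W] [Module K W] {T : Type*} [Group T]
    (σ : Representation K T W) {x : T} (h : orderOf x = 9) : om σ x = (9 * ev (σ x) 1 - 3 * ev (σ (x ^ 3)) 1) / 6 := by
  unfold om
  have h1 : (9 : ℕ).divisorsAntidiagonal = {(1, 9), (3, 3), (9, 1)} := by decide
  have h2 : (9 : ℕ).totient = 6 := by decide
  have h3 : ArithmeticFunction.moebius 9 = 0 := by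
    have h5 := ArithmeticFunction.moebius_apply_prime_pow Nat.prime_three (k := 2) (by norm_num)
    rw [if_neg (by norm_num)] at h5
    exact h5
  have h4 : ArithmeticFunction.moebius 3 = -1 := ArithmeticFunction.moebius_apply_prime Nat.prime_three
  rw [h, h1, h2, Finset.sum_insert (by decide), Finset.sum_insert (by decide), Finset.sum_singleton, h3, h4]
  simp
  ring

section
variable {F : Type u} [Field F] [Finite F] {n : ℕ} [NeZero n] (h2 : (2 : F) ≠ 0) (h3 : (3 : F) ≠ 0)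
  {ψ : ↥(alternatingGroup (Fin n)) →* Gh F} (hψ : ∀ a, ad F (ψ a) = 1 → a = 1)

omit [NeZero n] in
include h3 in
/-- elements of order 3 -/
theorem three_val {x : Gh F} (hx : x ^ 3 = 1) (hx1 : x ≠ 1) :
    ev (V F x) 1 = 2 ∨ ev (V F x) 1 = 14 ∨ ev (V F x) 1 = 20 ∨ ev (V F x) 1 = 32 := by
  rcases three h3 hx hx1 with ⟨h, -⟩ | ⟨h, -⟩ | ⟨h, -⟩ | ⟨h, -⟩ | ⟨h, -⟩
  · exact Or.inl h
  · exact Or.inr (Or.inr (Or.inr h))
  · exact Or.inr (Or.inr (Or.inl h))
  · exact Or.inr (Or.inl h)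
  · exact Or.inr (Or.inr (Or.inl h))

include hψ in
omit [Finite F] in
theorem psi_ne' {m : ℕ} (hm : m ≤ n) {l : List (ℕ × ℕ)} (h : vl m l = true) (hc : cd m l ≠ cd m []) : ψ (P n l) ≠ 1 := by
  intro h1
  have h4 := hψ (P n l) (by rw [h1, map_one])
  exact P_ne hm h rfl hc (by rw [h4, P_nil])

theorem gQ_le_gQy : Tg n gQ ≤ Tg n gQy := by
  unfold Tg
  refine Subgroup.closure_mono ?_
  rintro x ⟨g, hg, rfl⟩
  refine ⟨g, ?_, rfl⟩
  revert g
  decide

include h2 h3 hψ in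
/-- elements of type `3²` -/
theorem d33 (hn : 8 ≤ n) : ev (V F (ψ (P n l33))) 1 = 20 := by
  set ρ : Representation F ↥(alternatingGroup (Fin n)) (D1 → F) := MonoidHom.comp (V F) ψ with hρ
  obtain ⟨tt, ts, -, -, tq, -, -⟩ := types hn h2 hψ
  have e0 : om ρ 1 = 56 := by rw [om_one, finrank_V]; norm_num
  have et : om ρ (P n lt) = 8 := by
    rw [om_prime ρ Nat.prime_two (orderOf_P hn (by decide +kernel)), finrank_V, show ev (ρ (P n lt)) 1 = 32 from tt]
    norm_num
  have es : om ρ (P n ls) = -8 := by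
    rw [om_prime ρ Nat.prime_two (orderOf_P hn (by decide +kernel)), finrank_V, show ev (ρ (P n ls)) 1 = 24 from ts]
    norm_num
  have e3 : om ρ (P n l33) = (3 * (ev (ρ (P n l33)) 1 : ℚ) - 56) / 2 := by
    rw [om_prime ρ Nat.prime_three (orderOf_P hn (by decide +kernel)), finrank_V]
    norm_num
  have h := dim_Qy hn h2 ρ h3
  have hle : finrank F ↥(inv ρ (Tg n gQy)) ≤ finrank F ↥(inv ρ (Tg n gQ)) := Submodule.finrank_mono (inv_mono gQ_le_gQy)
  have hv := three_val h3 (x := ψ (P n l33)) (by rw [← map_pow, P_pow_one hn (m := 8) (by decide) (by decide), map_one])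
    (psi_ne' hψ hn (by decide) (by decide))
  rw [e0, et, es, e3] at h
  rw [tq] at hle
  show ev (ρ (P n l33)) 1 = 20
  have hv' : ev (ρ (P n l33)) 1 = 2 ∨ ev (ρ (P n l33)) 1 = 14 ∨ ev (ρ (P n l33)) 1 = 20 ∨ ev (ρ (P n l33)) 1 = 32 := hv
  generalize ev (ρ (P n l33)) 1 = d at *
  generalize finrank F ↥(inv ρ (Tg n gQy)) = a at *
  have h' : 48 * (a : ℤ) = 56 + 48 - 72 + 16 * (3 * d - 56) := by
    have : 48 * (a : ℚ) = 56 + 48 - 72 + 16 * (3 * d - 56) := by linarith
    exact_mod_cast this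
  omega

def l333 : List (ℕ × ℕ) := [(0, 1), (1, 2), (3, 4), (4, 5), (6, 7), (7, 8)]
def l9 : List (ℕ × ℕ) := [(0, 1), (1, 2), (2, 3), (3, 4), (4, 5), (5, 6), (6, 7), (7, 8)]
def l9b : List (ℕ × ℕ) := [(0, 2), (2, 3), (3, 4), (4, 5), (5, 6), (6, 7), (7, 8), (8, 1)]
def l7 : List (ℕ × ℕ) := [(0, 1), (1, 2), (2, 3), (3, 4), (4, 5), (5, 6)]

theorem r9t_eq : r9t = [[], ls, l3, l33, l333, l9, l9b, l7] := by decide

theorem le_of_sub {g g' : List (List (ℕ × ℕ))} (h : ∀ x ∈ g, x ∈ g') : Tg n g ≤ Tg n g' := by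
  unfold Tg
  refine Subgroup.closure_mono ?_
  rintro x ⟨y, hy, rfl⟩
  exact ⟨y, h y hy, rfl⟩

/-- conjugate elements -/
theorem ev_cj {m : ℕ} (hm : m ≤ n) {W : Type*} [AddCommGroup W] [Module F W]
    (ρ : Representation F ↥(alternatingGroup (Fin n)) W)
    {x c r : List (ℕ × ℕ)} (hx : vl m x = true) (hc : vl m c = true) (hr : vl m r = true)
    (h : cd m (x ++ c) = cd m (c ++ r)) (μ : F) : ev (ρ (P n x)) μ = ev (ρ (P n r)) μ := by
  have h1 : P n x = P n c * P n r * (P n c)⁻¹ := by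
    rw [← P_append hm hc hr, ← (P_eq_iff hm (vl_append hx hc) (vl_append hc hr)).2 h, P_append hm hx hc, mul_inv_cancel_right]
  rw [h1, Cfsg.Agent.H944.E6T.ev_conj]

include h2 h3 hψ in
/-- elements of type `3³` -/
theorem d333 (hn : 9 ≤ n) (h20 : ev (V F (ψ (P n l3))) 1 = 20) : ev (V F (ψ (P n l333))) 1 = 20 := by
  have hn8 : 8 ≤ n := by omega
  set ρ : Representation F ↥(alternatingGroup (Fin n)) (D1 → F) := MonoidHom.comp (V F) ψ with hρ
  have e0 : om ρ 1 = 56 := by rw [om_one, finrank_V]; norm_num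
  have e3 : om ρ (P n l3) = 2 := by
    rw [om_prime ρ Nat.prime_three (orderOf_P hn8 (by decide +kernel)), finrank_V, show ev (ρ (P n l3)) 1 = 20 from h20]
    norm_num
  have e33 : om ρ (P n l33) = 2 := by
    rw [om_prime ρ Nat.prime_three (orderOf_P hn8 (by decide +kernel)), finrank_V,
      show ev (ρ (P n l33)) 1 = 20 from d33 h2 h3 hψ hn8]
    norm_num
  have e333 : om ρ (P n l333) = (3 * (ev (ρ (P n l333)) 1 : ℚ) - 56) / 2 := by
    rw [om_prime ρ Nat.prime_three (orderOf_P hn (by decide +kernel)), finrank_V]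
    norm_num
  have h27 : ((27 : ℕ) : F) ≠ 0 := by simpa using three_pow_ne h2 h3 0 3
  have h := dimC hn chkG_B27 chkC_B27 len_B27 (K := 8) rfl h27 cnt_B27 ρ
  simp only [r9t_eq, Finset.sum_range_succ, Finset.sum_range_zero, List.getD_cons_zero, List.getD_cons_succ, P_nil,
    e0, e3, e33, e333] at h
  have hv := three_val h3 (x := ψ (P n l333)) (by rw [← map_pow, P_pow_one hn (m := 9) (by decide) (by decide), map_one])
    (psi_ne' hψ hn (by decide) (by decide))
  show ev (ρ (P n l333)) 1 = 20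
  have hv' : ev (ρ (P n l333)) 1 = 2 ∨ ev (ρ (P n l333)) 1 = 14 ∨ ev (ρ (P n l333)) 1 = 20 ∨ ev (ρ (P n l333)) 1 = 32 := hv
  generalize ev (ρ (P n l333)) 1 = d at *
  generalize finrank F ↥(inv ρ (Tg n gB27)) = a at *
  push_cast at h
  have h' : 27 * (a : ℤ) = 56 + 12 + 24 + 4 * (3 * d - 56) := by
    have : 27 * (a : ℚ) = 56 + 12 + 24 + 4 * (3 * d - 56) := by linarith
    exact_mod_cast this
  omega

include h2 h3 hψ in
/-- elements of order 9 of the class of `l9` -/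
theorem d9 (hn : 9 ≤ n) (h7 : (7 : F) ≠ 0) (h20 : ev (V F (ψ (P n l3))) 1 = 20) : ev (V F (ψ (P n l9))) 1 = 8 := by
  have hn8 : 8 ≤ n := by omega
  set ρ : Representation F ↥(alternatingGroup (Fin n)) (D1 → F) := MonoidHom.comp (V F) ψ with hρ
  obtain ⟨-, ts, -⟩ := types hn8 h2 hψ
  have e0 : om ρ 1 = 56 := by rw [om_one, finrank_V]; norm_num
  have es : om ρ (P n ls) = -8 := by
    rw [om_prime ρ Nat.prime_two (orderOf_P hn8 (by decide +kernel)), finrank_V, show ev (ρ (P n ls)) 1 = 24 from ts]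
    norm_num
  have h333 : ev (ρ (P n l333)) 1 = 20 := d333 h2 h3 hψ hn h20
  have e333 : om ρ (P n l333) = 2 := by
    rw [om_prime ρ Nat.prime_three (orderOf_P hn (by decide +kernel)), finrank_V, h333]
    norm_num
  have e7 : om ρ (P n l7) = (7 * (ev (ρ (P n l7)) 1 : ℚ) - 56) / 6 := by
    rw [om_prime ρ (by norm_num : Nat.Prime 7) (orderOf_P hn (by decide +kernel)), finrank_V]
    norm_num
  have e9 : om ρ (P n l9) = (9 * (ev (ρ (P n l9)) 1 : ℚ) - 60) / 6 := by
    rw [om_nine ρ (orderOf_P hn (by decide +kernel)), ← P_pwl hn (m := 9) (by decide),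
      ev_cj hn ρ (x := pwl l9 3) (c := [(0, 3), (3, 2), (1, 6), (4, 5), (5, 8), (8, 7)]) (r := l333) (by decide) (by decide) (by decide)
        (by decide), h333]
    norm_num
  have h8 : ((8 : ℕ) : F) ≠ 0 := by simpa using two_pow_ne h2 3
  have h56 : ((56 : ℕ) : F) ≠ 0 := by
    have h9 : ((56 : ℕ) : F) = ((8 : ℕ) : F) * 7 := by norm_num
    rw [h9]
    exact mul_ne_zero h8 h7
  have h504 : ((504 : ℕ) : F) ≠ 0 := by
    have h9 : ((504 : ℕ) : F) = ((8 : ℕ) : F) * 7 * (3 * 3) := by norm_num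
    rw [h9]
    exact mul_ne_zero (mul_ne_zero h8 h7) (mul_ne_zero h3 h3)
  have dR := dimC hn chkG_R8 chkC_R8 len_R8 (K := 8) rfl h8 cnt_R8 ρ
  have dR56 := dimC hn chkG_R56 chkC_R56 len_R56 (K := 8) rfl h56 cnt_R56 ρ
  have dRL := dimC hn chkG_R8L chkC_R8L len_R8L (K := 8) rfl h8 cnt_R8L ρ
  have dL := dimC hn chkG_L28 chkC_L28 len_L28 (K := 8) rfl h504 cnt_L28 ρ
  simp only [r9t_eq, Finset.sum_range_succ, Finset.sum_range_zero, List.getD_cons_zero, List.getD_cons_succ, P_nil,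
    e0, es, e333, e7, e9] at dR dR56 dRL dL
  have m1 : finrank F ↥(inv ρ (Tg n gR56)) ≤ finrank F ↥(inv ρ (Tg n gR8)) :=
    Submodule.finrank_mono (inv_mono (le_of_sub (by decide)))
  have m2 : finrank F ↥(inv ρ (Tg n gL28)) ≤ finrank F ↥(inv ρ (Tg n gR8L)) :=
    Submodule.finrank_mono (inv_mono (le_of_sub (by decide)))
  show ev (ρ (P n l9)) 1 = 8
  generalize ev (ρ (P n l9)) 1 = d at *
  generalize ev (ρ (P n l7)) 1 = d7 at *
  generalize finrank F ↥(inv ρ (Tg n gR8)) = a at *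
  generalize finrank F ↥(inv ρ (Tg n gR56)) = b at *
  generalize finrank F ↥(inv ρ (Tg n gR8L)) = a' at *
  generalize finrank F ↥(inv ρ (Tg n gL28)) = b' at *
  push_cast at dR dR56 dRL dL
  have k1 : (a : ℤ) = 0 := by
    have : (a : ℚ) = 0 := by linarith
    exact_mod_cast this
  have k2 : (a' : ℤ) = 0 := by
    have : (a' : ℚ) = 0 := by linarith
    exact_mod_cast this
  have k3 : (b : ℤ) = d7 - 8 := by
    have : (b : ℚ) = d7 - 8 := by linarith
    exact_mod_cast this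
  have k4 : 6 * (b' : ℤ) = 3 * d7 - 24 + 3 * d - 24 := by
    have : 6 * (b' : ℚ) = 3 * d7 - 24 + 3 * d - 24 := by linarith
    exact_mod_cast this
  omega

/-- conjugation with the transposition `(01)` -/
noncomputable def cjt (n : ℕ) [NeZero n] : ↥(alternatingGroup (Fin n)) →* ↥(alternatingGroup (Fin n)) :=
  (MulAut.conjNormal (swap (Fin.ofNat n 0) (Fin.ofNat n 1)) : MulAut ↥(alternatingGroup (Fin n))).toMonoidHom

omit [Field F] [Finite F] in
theorem cjt_P {m : ℕ} (hm : m ≤ n) (h2 : 2 ≤ m) {l : List (ℕ × ℕ)} (hl : vl m l = true) :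
    cjt n (P n l) = P n ((0, 1) :: (l ++ [(0, 1)])) := by
  have hv : vl m ((0, 1) :: (l ++ [(0, 1)])) = true := by
    rw [vl_iff] at hl ⊢
    refine ⟨?_, ?_⟩
    · rw [List.length_cons, List.length_append, List.length_singleton]
      omega
    · intro x hx
      rcases List.mem_cons.1 hx with rfl | hx
      · exact ⟨by show 0 < m; omega, by show 1 < m; omega, by decide⟩
      · rcases List.mem_append.1 hx with hx | hx
        · exact hl.2 x hx
        · rw [List.mem_singleton] at hx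
          subst hx
          exact ⟨by show 0 < m; omega, by show 1 < m; omega, by decide⟩
  apply Subtype.ext
  rw [coe_P hm hv]
  show ((MulAut.conjNormal (swap (Fin.ofNat n 0) (Fin.ofNat n 1)) (P n l) : ↥(alternatingGroup (Fin n))) : Perm (Fin n)) = _
  rw [MulAut.conjNormal_apply, coe_P hm hl, pm_cons, pm_append, pm_cons, pm_nil, mul_one, swap_inv, mul_assoc]

omit [Field F] [Finite F] in
theorem cjt_inj {a : ↥(alternatingGroup (Fin n))} (h : cjt n a = 1) : a = 1 :=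
  (MulAut.conjNormal (swap (Fin.ofNat n 0) (Fin.ofNat n 1)) : MulAut ↥(alternatingGroup (Fin n))).injective
    (h.trans (map_one _).symm)

include h2 h3 hψ in
/-- **`n ≥ 9`, `p ≠ 2, 3, 7`** -/
theorem nine5 (hn : 9 ≤ n) (h7 : (7 : F) ≠ 0) : ev (V F (ψ (P n l3))) 1 ≠ 20 := by
  intro h20
  have hn8 : 8 ≤ n := by omega
  set ρ : Representation F ↥(alternatingGroup (Fin n)) (D1 → F) := MonoidHom.comp (V F) ψ with hρ
  have h9a : ev (ρ (P n l9)) 1 = 8 := d9 h2 h3 hψ hn h7 h20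
  have hψ' : ∀ a, ad F ((ψ.comp (cjt n)) a) = 1 → a = 1 := fun a ha => cjt_inj (hψ _ ha)
  have h20' : ev (V F ((ψ.comp (cjt n)) (P n l3))) 1 = 20 := by
    show ev (V F (ψ (cjt n (P n l3)))) 1 = 20
    rw [cjt_P hn8 (by norm_num) (by decide)]
    have h4 := ev_cj hn8 ρ (x := (0, 1) :: (l3 ++ [(0, 1)])) (c := [(0, 1), (3, 6), (4, 5), (5, 7)]) (r := l3) (by decide) (by decide)
      (by decide) (by decide) 1
    exact h4.trans h20
  have h9b : ev (ρ (P n l9b)) 1 = 8 := by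
    have h4 := d9 h2 h3 hψ' hn h7 h20'
    have h5 : cjt n (P n l9) = P n l9b := by
      rw [cjt_P hn (by norm_num) (by decide), P_eq_iff hn (by decide) (by decide)]
      decide
    rw [← h5]
    exact h4
  have e0 : om ρ 1 = 56 := by rw [om_one, finrank_V]; norm_num
  have e3 : om ρ (P n l3) = 2 := by
    rw [om_prime ρ Nat.prime_three (orderOf_P hn8 (by decide +kernel)), finrank_V, show ev (ρ (P n l3)) 1 = 20 from h20]
    norm_num
  have e33 : om ρ (P n l33) = 2 := by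
    rw [om_prime ρ Nat.prime_three (orderOf_P hn8 (by decide +kernel)), finrank_V,
      show ev (ρ (P n l33)) 1 = 20 from d33 h2 h3 hψ hn8]
    norm_num
  have h333 : ev (ρ (P n l333)) 1 = 20 := d333 h2 h3 hψ hn h20
  have e333 : om ρ (P n l333) = 2 := by
    rw [om_prime ρ Nat.prime_three (orderOf_P hn (by decide +kernel)), finrank_V, h333]
    norm_num
  have e9 : om ρ (P n l9) = 2 := by
    rw [om_nine ρ (orderOf_P hn (by decide +kernel)), ← P_pwl hn (m := 9) (by decide),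
      ev_cj hn ρ (x := pwl l9 3) (c := [(0, 3), (3, 2), (1, 6), (4, 5), (5, 8), (8, 7)]) (r := l333) (by decide) (by decide) (by decide)
        (by decide), h333, h9a]
    norm_num
  have e9b : om ρ (P n l9b) = 2 := by
    rw [om_nine ρ (orderOf_P hn (by decide +kernel)), ← P_pwl hn (m := 9) (by decide),
      ev_cj hn ρ (x := pwl l9b 3) (c := [(1, 4), (4, 2), (2, 7), (7, 6), (6, 3), (3, 8)]) (r := l333) (by decide) (by decide) (by decide)
        (by decide), h333, h9b]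
    norm_num
  have h81 : ((81 : ℕ) : F) ≠ 0 := by simpa using three_pow_ne h2 h3 0 4
  have dW := dimC hn chkG_W81 chkC_W81 len_W81 (K := 8) rfl h81 cnt_W81 ρ
  simp only [r9t_eq, Finset.sum_range_succ, Finset.sum_range_zero, List.getD_cons_zero, List.getD_cons_succ, P_nil,
    e0, e3, e33, e333, e9, e9b] at dW
  generalize finrank F ↥(inv ρ (Tg n gW81)) = a at *
  push_cast at dW
  have k1 : 3 * (a : ℤ) = 8 := by
    have : 3 * (a : ℚ) = 8 := by linarith
    exact_mod_cast this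
  omega

end

end Cfsg.Agent.R2.T1.Odd
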