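import Cfsg.Agent.R2.T1.Odd.Nrm
import Cfsg.Agent.R2.T1.Inf.Tor

/-!
# S5771, ODD5 (O6): no proper `ψ(A_n)`-stable subspaces if the 3-cycles are of type 32 (helper11)

`no_red32` : as `no32`, but `W` need only be stable under `ψ(A_n)` (not under the preimage of `H`).
-/

set_option autoImplicit false

namespace Cfsg.Agent.R2.T1.Odd

open Cfsg Cfsg.Lie Module Equiv Equiv.Perm
open Cfsg.Agent.H943.E7V.Block (D1 rho)
open Cfsg.Agent.H952.F4 (ev es MaxAlt)

universe u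

variable {F : Type u} [Field F] [Finite F] {n : ℕ} {H : Subgroup ↥(chevE7.group F)}
  {φ : ↥(alternatingGroup (Fin n)) →* ↥(chevE7.group F)} {ψ : ↥(alternatingGroup (Fin n)) →* Gh F}

/-- `W` is stable under `ψ(A_n)` -/
def PsSt (ψ : ↥(alternatingGroup (Fin n)) →* Gh F) (W : Submodule F (D1 → F)) : Prop := ∀ a, ∀ w ∈ W, V F (ψ a) w ∈ W

/-- the elements stabilizing all `ψ(A_n)`-stable subspaces -/
def Jg (ψ : ↥(alternatingGroup (Fin n)) →* Gh F) : Subgroup (Gh F) where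
  carrier := {g | ∀ W, PsSt ψ W → g ∈ St (V F) W}
  one_mem' := fun W _ => one_mem _
  mul_mem' := fun ha hb W hW => mul_mem (ha W hW) (hb W hW)
  inv_mem' := fun ha W hW => inv_mem (ha W hW)

theorem mem_Jg {g : Gh F} : g ∈ Jg ψ ↔ ∀ W, PsSt ψ W → g ∈ St (V F) W := Iff.rfl

theorem ψ_mem (a : ↥(alternatingGroup (Fin n))) : ψ a ∈ Jg ψ := fun _ hW => mem_St_of (hW a)

theorem conj_Jg (hn : 7 ≤ n) (hM : MaxAlt H n φ) (hψ : Lift φ ψ) {h j : Gh F} (hh : ad F h ∈ H) (hj : j ∈ Jg ψ) :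
    h * j * h⁻¹ ∈ Jg ψ := by
  obtain ⟨σ, hσ⟩ := norm_lift hn hM hψ hh
  intro W hW
  let W' : Submodule F (D1 → F) := W.comap (V F h)
  have hW' : PsSt ψ W' := by
    intro a w hw
    have hmem : σ * (a : Perm (Fin n)) * σ⁻¹ ∈ alternatingGroup (Fin n) := by
      rw [mem_alternatingGroup, Perm.sign_mul, Perm.sign_mul, Perm.sign_inv, mem_alternatingGroup.1 a.2, mul_one]
      exact Int.units_mul_self _
    have h1 := hσ a ⟨_, hmem⟩ rfl
    rw [Submodule.mem_comap] at hw ⊢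
    have h2 := hW ⟨_, hmem⟩ _ hw
    rw [← h1] at h2
    have h3 : V F (h * ψ a * h⁻¹) (V F h w) = V F h (V F (ψ a) w) := by
      rw [map_mul, map_mul, Module.End.mul_apply, Module.End.mul_apply, Cfsg.Agent.R2.T1.ρ_inv (V F)]
    rwa [h3] at h2
  have h4 := hj W' hW'
  rw [mem_St] at h4 ⊢
  intro w
  have h5 := h4 (V F h⁻¹ w)
  rw [Submodule.mem_comap, Submodule.mem_comap, Cfsg.Agent.R2.T1.ρ_inv' (V F)] at h5
  rw [← h5, map_mul, map_mul]
  rfl

/-- **`ad (Jg ψ) ≤ H`** if there is a proper non-zero stable subspace -/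
theorem ad_Jg_le (hs : IsSimpleGroup ↥(chevE7.group F)) (hn : 7 ≤ n) (hM : MaxAlt H n φ) (hψ : Lift φ ψ)
    {W : Submodule F (D1 → F)} (hW : PsSt ψ W) (h0 : W ≠ ⊥) (h1 : W ≠ ⊤) : (Jg ψ).map (ad F) ≤ H := by
  by_contra hle
  set A := (Jg ψ).map (ad F) with hA
  have hHn : H ≤ Subgroup.normalizer (A : Set ↥(chevE7.group F)) := by
    intro h hh
    obtain ⟨g, rfl⟩ := ad_surjective h
    have key : ∀ g : Gh F, ad F g ∈ H → ∀ x ∈ A, ad F g * x * (ad F g)⁻¹ ∈ A := by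
      rintro g hg _ ⟨j, hj, rfl⟩
      exact ⟨g * j * g⁻¹, conj_Jg hn hM hψ hg hj, by rw [map_mul, map_mul, map_inv]⟩
    rw [Subgroup.mem_normalizer_iff]
    intro x
    refine ⟨fun hx => key g hh x hx, fun hx => ?_⟩
    have h2 := key g⁻¹ (by rw [map_inv]; exact inv_mem hh) _ hx
    rw [map_inv, inv_inv] at h2
    have h3 : (ad F g)⁻¹ * (ad F g * x * (ad F g)⁻¹) * ad F g = x := by group
    rwa [h3] at h2
  have hlt : H < H ⊔ A := lt_of_le_of_ne le_sup_left fun h => hle (by rw [h]; exact le_sup_right)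
  have htop : H ⊔ A = ⊤ := hM.coatom.2 _ hlt
  have hnorm : Subgroup.normalizer (A : Set ↥(chevE7.group F)) = ⊤ := by
    rw [eq_top_iff, ← htop]
    exact sup_le hHn Subgroup.le_normalizer
  have hAn : A.Normal := Subgroup.normalizer_eq_top_iff.1 hnorm
  rcases hAn.eq_bot_or_eq_top with h | h
  · have hne : ∃ a : ↥(alternatingGroup (Fin n)), a ≠ 1 := by
      have h2 : Nontrivial ↥(alternatingGroup (Fin n)) := by
        have h3 : Fact (3 ≤ n) := ⟨by omega⟩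
        apply alternatingGroup.nontrivial_of_three_le_card
        rw [Nat.card_eq_fintype_card, Fintype.card_fin]
        omega
      exact exists_ne 1
    obtain ⟨a, ha⟩ := hne
    have h2 : φ a ∈ A := ⟨ψ a, ψ_mem a, hψ a⟩
    rw [h, Subgroup.mem_bot] at h2
    exact ha (hM.inj (by rw [h2, map_one]))
  · apply h1
    apply irrV W _ h0
    intro g w hw
    have h2 : ad F g ∈ A := by rw [h]; trivial
    obtain ⟨j, hj, hjg⟩ := h2
    have h3 : ad F (j⁻¹ * g) = 1 := by rw [map_mul, map_inv, hjg, inv_mul_cancel]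
    have h4 : g = j * (j⁻¹ * g) := by rw [mul_inv_cancel_left]
    rw [h4, map_mul, Module.End.mul_apply]
    have h5 : V F (j⁻¹ * g) w ∈ W := by
      rcases ad_eq_one_iff.1 h3 with h6 | h6
      · rw [h6]
        exact hw
      · rw [neg_apply h6]
        exact neg_mem hw
    exact ((hj W hW) _).2 h5

/-- **no proper stable subspaces for 3-cycles of type 32** -/
theorem no_red32 (hs : IsSimpleGroup ↥(chevE7.group F)) (h3 : (3 : F) ≠ 0) (hq2 : Nat.card F ≠ 2) (hq4 : Nat.card F ≠ 4)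
    (hn : 7 ≤ n) (hM : MaxAlt H n φ) (hψ : Lift φ ψ)
    {c : ↥(alternatingGroup (Fin n))} (hc : (c : Perm (Fin n)).IsThreeCycle)
    {W : Submodule F (D1 → F)} (hW : PsSt ψ W) (h0 : W ≠ ⊥) (h1 : W ≠ ⊤) :
    ev (V F (ψ c)) 1 ≠ 32 := by
  intro h32
  have hx : ψ c ^ 3 = 1 := by
    rw [← map_pow]
    have h5 : c ^ 3 = 1 := by
      apply Subtype.ext
      have h6 := hc.orderOf
      have h7 : (c : Perm (Fin n)) ^ 3 = 1 := by rw [← h6]; exact pow_orderOf_eq_one _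
      rw [SubmonoidClass.coe_pow, h7]
      rfl
    rw [h5, map_one]
  obtain ⟨y, a, b, c', m, ⟨e1, e2⟩, e3, e4, e5, -⟩ := tor32 h3 hx h32
  have hyJ : y ∈ Jg ψ := fun W' hW' => mem_St_of (stable_of_poly e1 (hW' c))
  have hyH : ad F y ∈ H := ad_Jg_le hs hn hM hψ hW h0 h1 ⟨y, hyJ, rfl⟩
  have h4 := no_tor hn hM hc hx (hψ c) (fun g hg => commute_of_poly e1 hg) hyH
  obtain ⟨v, hv0, hv⟩ : ∃ v : D1 → F, v ≠ 0 ∧ V F (ψ c) v = v := by
    have h5 : Module.End.eigenspace (V F (ψ c)) 1 ≠ ⊥ := by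
      intro h6
      rw [ev, h6, finrank_bot] at h32
      exact absurd h32 (by norm_num)
    obtain ⟨v, hv, hv0⟩ := Submodule.exists_mem_ne_zero_of_ne_bot h5
    rw [Module.End.mem_eigenspace_iff, one_smul] at hv
    exact ⟨v, hv0, hv⟩
  rw [orderOf_ad hv0 (fixed_of_poly e1 e2 hv), e4] at h4
  have h5 := Nat.le_of_dvd (by norm_num) h4
  have hq1 : 1 < Nat.card F := Finite.one_lt_card
  omega

end Cfsg.Agent.R2.T1.Odd
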