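import Cfsg.Agent.R2.T1.Odd.Ten
import Cfsg.Agent.R2.T1.Odd.Red

/-!
# S5771, ODD5 (O6): 3-cycles are not of type 32, `p ≥ 5`, `8 ≤ n ≤ 10` (helper11)
-/

set_option autoImplicit false
set_option maxRecDepth 100000

namespace Cfsg.Agent.R2.T1.Odd

open Cfsg Cfsg.Lie Module Equiv Equiv.Perm
open Cfsg.Agent.H943.E7V.Block (D1 rho)
open Cfsg.Agent.H952.F4 (ev es MaxAlt)

universe u v

theorem l3_three {n : ℕ} [NeZero n] (hn : 8 ≤ n) : (P n l3 : Perm (Fin n)).IsThreeCycle := by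
  rw [coe_P hn (by decide)]
  have h1 : pm n l3 = swap (Fin.ofNat n 1) (Fin.ofNat n 0) * swap (Fin.ofNat n 1) (Fin.ofNat n 2) := by
    unfold l3
    rw [pm_cons, pm_cons, pm_nil, mul_one, swap_comm (Fin.ofNat n 0)]
  rw [h1]
  have hne : ∀ {a b : ℕ}, a < 8 → b < 8 → a ≠ b → Fin.ofNat n a ≠ Fin.ofNat n b := fun ha hb h h' =>
    h (ofNat_inj (ha.trans_le hn) (hb.trans_le hn) h')
  exact isThreeCycle_swap_mul_swap_same (hne (by norm_num) (by norm_num) (by norm_num))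
    (hne (by norm_num) (by norm_num) (by norm_num)) (hne (by norm_num) (by norm_num) (by norm_num))

theorem card_ne {F : Type u} [Field F] [Finite F] (h2 : (2 : F) ≠ 0) : Nat.card F ≠ 2 ∧ Nat.card F ≠ 4 := by
  have := Fintype.ofFinite F
  have h1 : ((Nat.card F : ℕ) : F) = 0 := by
    rw [Nat.card_eq_fintype_card]
    exact Nat.cast_card_eq_zero F
  constructor
  · intro h
    rw [h] at h1
    exact h2 (by exact_mod_cast h1)
  · intro h
    rw [h] at h1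
    have h3 : (2 : F) * 2 = 0 := by
      have : (2 : F) * 2 = ((4 : ℕ) : F) := by norm_num
      rw [this, h1]
    rcases mul_eq_zero.1 h3 with h4 | h4 <;> exact h2 h4

section
variable {F : Type u} [Field F] [Finite F] {n : ℕ} [NeZero n] {H : Subgroup ↥(chevE7.group F)}
  {φ : ↥(alternatingGroup (Fin n)) →* ↥(chevE7.group F)} {ψ : ↥(alternatingGroup (Fin n)) →* Gh F}

omit [Finite F] [NeZero n] in
theorem lift_inj' (hM : MaxAlt H n φ) (hψ : Lift φ ψ) : ∀ a, ad F (ψ a) = 1 → a = 1 := by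
  intro a ha
  rw [hψ] at ha
  exact hM.inj (by rw [ha, map_one])

/-- **`V` is reducible under `ψ(A_n)`**, `8 ≤ n ≤ 10` -/
theorem reducible (h2 : (2 : F) ≠ 0) (hn : 8 ≤ n) (hn' : n ≤ 10) (hψ : ∀ a, ad F (ψ a) = 1 → a = 1) :
    ∃ W : Submodule F (D1 → F), PsSt ψ W ∧ W ≠ ⊥ ∧ W ≠ ⊤ := by
  have hC := cfgU h2 hn hψ
  have hn3 : n = 8 ∨ n = 9 ∨ n = 10 := by omega
  rcases hn3 with rfl | rfl | rfl
  · exact exists_sub hn hC (all_scal8 hC)
  · exact exists_sub hn hC (all_scal9 hC)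
  · exact exists_sub hn hC (all_scal10 hC fun u hu => act_q h2 hψ hu)

/-- **3-cycles are not of type 32**, `8 ≤ n ≤ 10` -/
theorem no_32 (hs : IsSimpleGroup ↥(chevE7.group F)) (h2 : (2 : F) ≠ 0) (h3 : (3 : F) ≠ 0) (hn : 8 ≤ n) (hn' : n ≤ 10)
    (hM : MaxAlt H n φ) (hψ : Lift φ ψ) : ev (V F (ψ (P n l3))) 1 ≠ 32 := by
  obtain ⟨W, hW, h0, h1⟩ := reducible h2 hn hn' (lift_inj' hM hψ)
  exact no_red32 hs h3 (card_ne h2).1 (card_ne h2).2 (by omega) hM hψ (l3_three hn) hW h0 h1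

end

end Cfsg.Agent.R2.T1.Odd
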