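import Cfsg.Agent.R2.T1.Odd.Typ
import Cfsg.Agent.R2.T1.Inf.Form

/-!
# S5771, ODD5: the 2-dimensional space `U` of the fixed points of `Q` (helper11)

* `CfgU ρ B` : the configuration;
* `swap_neg` : `s' = (04)(15)(26)(37)` acts as `-1` on `U = inv ρ Q`;
* `triv` : the even permutations which stabilize `{0,1,2,3}`, `{4,5,6,7}` and fix the other points act trivially on `U`.
-/

set_option autoImplicit false
set_option maxRecDepth 100000

namespace Cfsg.Agent.R2.T1.Odd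

open Cfsg Cfsg.Lie Module Equiv Equiv.Perm

universe u v

/-- the configuration -/
structure CfgU {F : Type*} [Field F] {W : Type*} [AddCommGroup W] [Module F W] {n : ℕ} [NeZero n]
    (ρ : Representation F ↥(alternatingGroup (Fin n)) W) (B : W →ₗ[F] W →ₗ[F] F) : Prop where
  two : (2 : F) ≠ 0
  fin : FiniteDimensional F W
  isom : ∀ g x y, B (ρ g x) (ρ g y) = B x y
  skew : ∀ x y, B x y = - B y x
  nd : ∀ x, (∀ y, B x y = 0) → x = 0
  dim : finrank F ↥(inv ρ (Tg n gQ)) = 2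
  qs : inv ρ (Tg n gQs) = ⊥
  qj : inv ρ (Tg n gQ) ≤ inv ρ (Tg n gQj)

def ls' : List (ℕ × ℕ) := [(0, 4), (1, 5), (2, 6), (3, 7)]
def lj : List (ℕ × ℕ) := [(0, 1), (4, 5)]

/-- `l` normalizes `Q` -/
def nrm (l : List (ℕ × ℕ)) : Bool := vl 8 l && gQ.all fun g => eQ.any fun w => cd 8 (g ++ l) == cd 8 (l ++ wd gQ w)

theorem nrm_spec {l : List (ℕ × ℕ)} (h : nrm l = true) : vl 8 l = true ∧ ∀ g ∈ gQ, ∃ w ∈ eQ, cd 8 (g ++ l) = cd 8 (l ++ wd gQ w) := by
  unfold nrm at h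
  rw [Bool.and_eq_true, List.all_eq_true] at h
  refine ⟨h.1, fun g hg => ?_⟩
  obtain ⟨w, hw, h1⟩ := List.any_eq_true.1 (h.2 g hg)
  exact ⟨w, hw, eq_of_beq h1⟩

theorem gQ_vl : gQ.all (vl 8) = true := by decide

section
variable {F : Type u} [Field F] {W : Type v} [AddCommGroup W] [Module F W] {n : ℕ} [NeZero n] (hn : 8 ≤ n)
  {ρ : Representation F ↥(alternatingGroup (Fin n)) W} {B : W →ₗ[F] W →ₗ[F] F}

theorem mem_U {gens : List (List (ℕ × ℕ))} {v : W} : v ∈ inv ρ (Tg n gens) ↔ ∀ g ∈ gens, ρ (P n g) v = v := by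
  unfold Tg
  rw [mem_inv_closure]
  constructor
  · exact fun h g hg => h _ ⟨g, hg, rfl⟩
  · rintro h _ ⟨g, hg, rfl⟩
    exact h g hg

theorem ρ_mul (a b : ↥(alternatingGroup (Fin n))) (v : W) : ρ (a * b) v = ρ a (ρ b v) := by
  rw [map_mul]; rfl

theorem ρ_one (v : W) : ρ 1 v = v := by rw [map_one]; rfl

theorem ρ_inv (a : ↥(alternatingGroup (Fin n))) (v : W) : ρ a⁻¹ (ρ a v) = v := by
  rw [← ρ_mul, inv_mul_cancel, ρ_one]

theorem ρ_inv' (a : ↥(alternatingGroup (Fin n))) (v : W) : ρ a (ρ a⁻¹ v) = v := by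
  rw [← ρ_mul, mul_inv_cancel, ρ_one]

include hn

/-- elements which normalize `Q` stabilize `U` -/
theorem nrm_mem {l : List (ℕ × ℕ)} (h : nrm l = true) {v : W} (hv : v ∈ inv ρ (Tg n gQ)) :
    ρ (P n l) v ∈ inv ρ (Tg n gQ) := by
  obtain ⟨h1, h2⟩ := nrm_spec h
  rw [mem_U]
  intro g hg
  obtain ⟨w, hw, h3⟩ := h2 g hg
  have hg' : vl 8 g = true := List.all_eq_true.1 gQ_vl g hg
  have h4 := (P_eq_iff hn (vl_append hg' h1) (vl_append h1 (vl_wd gQ_vl w))).2 h3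
  rw [P_append hn hg' h1, P_append hn h1 (vl_wd gQ_vl w)] at h4
  rw [← ρ_mul, h4, ρ_mul, hv _ (P_wd_mem hn gQ_vl w)]

theorem nrm_inv (hf : FiniteDimensional F W) {l : List (ℕ × ℕ)} (h : nrm l = true) {v : W} (hv : v ∈ inv ρ (Tg n gQ)) :
    ρ (P n l)⁻¹ v ∈ inv ρ (Tg n gQ) := by
  have h1 : (inv ρ (Tg n gQ)).map (ρ (P n l)) = inv ρ (Tg n gQ) := by
    apply Submodule.eq_of_le_of_finrank_eq
    · rintro _ ⟨x, hx, rfl⟩
      exact nrm_mem hn h hx
    · refine (LinearEquiv.finrank_eq (Submodule.equivMapOfInjective (ρ (P n l)) (fun x y hxy => ?_) _)).symm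
      have h2 := congrArg (ρ (P n l)⁻¹) hxy
      rwa [ρ_inv, ρ_inv] at h2
  rw [← h1] at hv
  obtain ⟨x, hx, rfl⟩ := hv
  rw [ρ_inv]
  exact hx

/-- `s'` acts as `-1` -/
theorem swap_neg (hC : CfgU ρ B) {u : W} (hu : u ∈ inv ρ (Tg n gQ)) : ρ (P n ls') u = -u := by
  have h1 : u + ρ (P n ls') u ∈ inv ρ (Tg n gQs) := by
    rw [mem_U]
    intro g hg
    have h2 : g ∈ gQ ∨ g = ls' := by revert g; decide
    rw [map_add]
    rcases h2 with h2 | rfl
    · have h3 := nrm_mem hn (l := ls') (by decide +kernel) hu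
      rw [mem_U] at hu h3
      rw [hu g h2, h3 g h2]
    · rw [← ρ_mul, ← pow_two, P_pow_one hn (m := 8) (by decide) (by decide), ρ_one, add_comm]
  rw [hC.qs, Submodule.mem_bot] at h1
  exact (neg_eq_of_add_eq_zero_right h1).symm

/-- the involutions `(ab)(cd)` with `a, b < 4 ≤ c, d < 8` -/
def tJ : List (List (ℕ × ℕ) × List (ℕ × ℕ)) :=
  [([(0, 1), (4, 5)], []), ([(0, 1), (4, 6)], [(5, 6), (6, 7)]), ([(0, 1), (4, 7)], [(5, 7), (7, 6)]), ([(0, 1),
   (5, 6)], [(4, 5), (5, 6)]), ([(0, 1), (5, 7)], [(4, 5), (5, 7)]), ([(0, 1), (6, 7)], [(4, 6), (5, 7)]), ([(0,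
   2), (4, 5)], [(1, 2), (6, 7)]), ([(0, 3), (4, 5)], [(1, 3), (3, 2)]), ([(1, 2), (4, 5)], [(0, 1), (1, 2)]),
   ([(1, 3), (4, 5)], [(0, 1), (1, 3)]), ([(2, 3), (4, 5)], [(0, 2), (1, 3)])]

theorem tJ_triv (hC : CfgU ρ B) {x : List (ℕ × ℕ) × List (ℕ × ℕ)} (hx : x ∈ tJ) {u : W} (hu : u ∈ inv ρ (Tg n gQ)) :
    ρ (P n x.1) u = u := by
  have key : ∀ x ∈ tJ, vl 8 x.1 = true ∧ nrm x.2 = true ∧ cd 8 (x.1 ++ x.2) = cd 8 (x.2 ++ lj) := by decide +kernel
  obtain ⟨h1, h2, h3⟩ := key x hx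
  have h4 := P_conj hn h1 (nrm_spec h2).1 (by decide) h3
  rw [h4, ρ_mul, ρ_mul]
  have h5 := nrm_inv hn hC.fin h2 hu
  have h6 := hC.qj h5
  rw [mem_U] at h6
  rw [h6 lj (by decide), ρ_inv']

/-- certificate: `[(i,j),(0,1)]` is a product of two elements of `tJ` -/
def tB : List (List (ℕ × ℕ) × List (ℕ × ℕ)) := ([], []) :: tJ

def chkB (i j : ℕ) : Bool :=
  Nat.beq i j || !(Nat.beq (i / 4) (j / 4)) || tB.any fun x => tB.any fun y =>
    vl 8 x.1 && vl 8 y.1 && cd 8 [(i, j), (0, 1)] == cd 8 (x.1 ++ y.1)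

omit hn in
theorem chkB_all : ((List.range 8).all fun i => (List.range 8).all fun j => chkB i j) = true := by decide +kernel

omit hn in
theorem vl_pair {x y : ℕ × ℕ} (hx : x.1 < 8 ∧ x.2 < 8 ∧ x.1 ≠ x.2) (hy : y.1 < 8 ∧ y.2 < 8 ∧ y.1 ≠ y.2) :
    vl 8 [x, y] = true := by
  rw [vl_iff]
  refine ⟨by simp, ?_⟩
  intro z hz
  simp only [List.mem_cons, List.not_mem_nil, or_false] at hz
  rcases hz with rfl | rfl
  · exact hx
  · exact hy

/-- in-block transpositions times `(01)` -/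
theorem base_triv (hC : CfgU ρ B) {i j : ℕ} (hi : i < 8) (hj : j < 8) (hij : i ≠ j) (hb : i / 4 = j / 4) {u : W}
    (hu : u ∈ inv ρ (Tg n gQ)) : ρ (P n [(i, j), (0, 1)]) u = u := by
  have key := List.all_eq_true.1 (List.all_eq_true.1 chkB_all i (List.mem_range.2 hi)) j (List.mem_range.2 hj)
  unfold chkB at key
  rw [Bool.or_eq_true, Bool.or_eq_true, Bool.not_eq_true', nb, ← Bool.not_eq_true, nb] at key
  have key' := (key.resolve_left (by rintro (h | h); exacts [hij h, h hb]))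
  obtain ⟨x, hx, key'⟩ := List.any_eq_true.1 key'
  obtain ⟨y, hy, key'⟩ := List.any_eq_true.1 key'
  rw [Bool.and_eq_true, Bool.and_eq_true, beq_iff_eq] at key'
  obtain ⟨⟨h1, h2⟩, h3⟩ := key'
  have hv : vl 8 [(i, j), (0, 1)] = true := vl_pair ⟨hi, hj, hij⟩ (by norm_num)
  have ht : ∀ z ∈ tB, ρ (P n z.1) u = u := by
    intro z hz
    rcases List.mem_cons.1 hz with rfl | hz
    · rw [P_nil, ρ_one]
    · exact tJ_triv hn hC hz hu
  rw [(P_eq_iff hn hv (vl_append h1 h2)).2 h3, P_append hn h1 h2, ρ_mul, ht y hy, ht x hx]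

omit hn in
/-- in-block lists -/
def IB (l : List (ℕ × ℕ)) : Prop := ∀ x ∈ l, x.1 < 8 ∧ x.2 < 8 ∧ x.1 ≠ x.2 ∧ x.1 / 4 = x.2 / 4

theorem pair_triv (hC : CfgU ρ B) {x y : ℕ × ℕ} (hx : x.1 < 8 ∧ x.2 < 8 ∧ x.1 ≠ x.2 ∧ x.1 / 4 = x.2 / 4)
    (hy : y.1 < 8 ∧ y.2 < 8 ∧ y.1 ≠ y.2 ∧ y.1 / 4 = y.2 / 4) {u : W}
    (hu : u ∈ inv ρ (Tg n gQ)) : ρ (P n [x, y]) u = u := by
  have h1 : P n [x, y] = P n [x, (0, 1)] * (P n [y, (0, 1)])⁻¹ := by
    have hx' : vl 8 [x, (0, 1)] = true := vl_pair ⟨hx.1, hx.2.1, hx.2.2.1⟩ (by norm_num)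
    have hy' : vl 8 [y, (0, 1)] = true := vl_pair ⟨hy.1, hy.2.1, hy.2.2.1⟩ (by norm_num)
    have hxy : vl 8 [x, y] = true := vl_pair ⟨hx.1, hx.2.1, hx.2.2.1⟩ ⟨hy.1, hy.2.1, hy.2.2.1⟩
    rw [eq_mul_inv_iff_mul_eq]
    apply Subtype.ext
    rw [Subgroup.coe_mul, coe_P hn hxy, coe_P hn hx', coe_P hn hy']
    simp only [pm_cons, pm_nil, mul_one, mul_assoc, swap_mul_self_mul]
  rw [h1, ρ_mul]
  have h2 : ρ (P n [y, (0, 1)])⁻¹ u = u := by
    have h3 := base_triv hn hC hy.1 hy.2.1 hy.2.2.1 hy.2.2.2 hu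
    conv_lhs => rw [← h3]
    rw [ρ_inv]
  rw [h2, base_triv hn hC hx.1 hx.2.1 hx.2.2.1 hx.2.2.2 hu]

/-- in-block lists of even length act trivially -/
theorem list_triv (hC : CfgU ρ B) {u : W} (hu : u ∈ inv ρ (Tg n gQ)) : ∀ (k : ℕ) (l : List (ℕ × ℕ)), l.length = 2 * k →
    IB l → ρ (P n l) u = u := by
  intro k
  induction k with
  | zero =>
    intro l hl _
    have h1 : l = [] := List.length_eq_zero_iff.1 hl
    rw [h1, P_nil, ρ_one]
  | succ k ih =>
    intro l hl hI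
    match l, hl, hI with
    | x :: y :: l, hl, hI =>
      have hl' : l.length = 2 * k := by
        rw [List.length_cons, List.length_cons] at hl
        omega
      have hx := hI x (by simp)
      have hy := hI y (by simp)
      have hI' : IB l := fun z hz => hI z (by simp [hz])
      have hv : vl 8 [x, y] = true := vl_pair ⟨hx.1, hx.2.1, hx.2.2.1⟩ ⟨hy.1, hy.2.1, hy.2.2.1⟩
      have hvl : vl 8 l = true := by
        rw [vl_iff]
        exact ⟨by omega, fun z hz => ⟨(hI' z hz).1, (hI' z hz).2.1, (hI' z hz).2.2.1⟩⟩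
      have h1 : P n (x :: y :: l) = P n [x, y] * P n l := P_append hn hv hvl
      rw [h1, ρ_mul, ih l hl' hI', pair_triv hn hC hx hy hu]

end

/-! ### general even permutations -/

section gen
variable {n : ℕ} [NeZero n]

/-- the block function -/
def bl (i : ℕ) : ℕ := if i < 8 then i / 4 else i

/-- permutations preserving the blocks are products of in-block transpositions -/
theorem exists_list (hn : 8 ≤ n) : ∀ (k : ℕ) (σ : Perm (Fin n)), σ.support.card ≤ k → (∀ i, bl (σ i).val = bl i.val) →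
    ∃ l, IB l ∧ pm n l = σ := by
  intro k
  induction k with
  | zero =>
    intro σ h _
    have h1 : σ = 1 := by rw [← Perm.card_support_eq_zero]; omega
    exact ⟨[], fun x hx => by simp at hx, by rw [h1, pm_nil]⟩
  | succ k ih =>
    intro σ h hb
    by_cases h1 : σ = 1
    · exact ⟨[], fun x hx => by simp at hx, by rw [h1, pm_nil]⟩
    · obtain ⟨i, hi⟩ : ∃ i, σ i ≠ i := by
        by_contra h2
        push Not at h2
        exact h1 (Perm.ext h2)
      have h3 := Perm.card_support_swap_mul hi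
      have hbi := hb i
      have hne : (σ i).val ≠ i.val := fun h => hi (Fin.ext h)
      have hi8 : i.val < 8 ∧ (σ i).val < 8 ∧ i.val / 4 = (σ i).val / 4 := by
        unfold bl at hbi
        split_ifs at hbi <;> omega
      obtain ⟨l, hl, hl'⟩ := ih (swap i (σ i) * σ) (by omega) (by
        intro j
        rw [Perm.mul_apply, swap_apply_def]
        split_ifs with h4 h5
        · rw [← hb j, h4, hbi]
        · rw [← hb j, h5, hbi]
        · exact hb j)
      refine ⟨(i.val, (σ i).val) :: l, ?_, ?_⟩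
      · intro x hx
        rcases List.mem_cons.1 hx with rfl | hx
        · exact ⟨hi8.1, hi8.2.1, fun h => hne h.symm, hi8.2.2⟩
        · exact hl x hx
      · rw [pm_cons, hl']
        have e1 : Fin.ofNat n i.val = i := Fin.ext (val_ofNat' i.2)
        have e2 : Fin.ofNat n (σ i).val = σ i := Fin.ext (val_ofNat' (σ i).2)
        rw [e1, e2, swap_mul_self_mul]

variable {F : Type u} [Field F] {W : Type v} [AddCommGroup W] [Module F W]
  {ρ : Representation F ↥(alternatingGroup (Fin n)) W} {B : W →ₗ[F] W →ₗ[F] F}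

/-- **even permutations preserving the blocks act trivially on `U`** -/
theorem triv (hn : 8 ≤ n) (hC : CfgU ρ B) {g : ↥(alternatingGroup (Fin n))} (hg : ∀ i, bl ((g : Perm (Fin n)) i).val = bl i.val)
    {u : W} (hu : u ∈ inv ρ (Tg n gQ)) : ρ g u = u := by
  obtain ⟨l, hl, hl'⟩ := exists_list hn _ (g : Perm (Fin n)) le_rfl hg
  have hE : En 8 l := fun x hx => ⟨(hl x hx).1, (hl x hx).2.1, (hl x hx).2.2.1⟩
  have h1 : l.length % 2 = 0 := by
    have h2 := mem_alternatingGroup.1 g.2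
    rw [← hl', sign_pm (hE.mono hn)] at h2
    by_contra h3
    rw [Odd.neg_one_pow (Nat.odd_iff.2 (by omega))] at h2
    exact absurd h2 (by decide)
  have hv : vl 8 l = true := vl_iff.2 ⟨h1, hE⟩
  have h2 : g = P n l := Subtype.ext (by rw [coe_P hn hv, hl'])
  rw [h2]
  exact list_triv hn hC hu (l.length / 2) l (by omega) hl

/-- **even permutations exchanging the blocks act as `-1` on `U`** -/
theorem triv_neg (hn : 8 ≤ n) (hC : CfgU ρ B) {g : ↥(alternatingGroup (Fin n))}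
    (hg : ∀ i, bl ((g : Perm (Fin n)) i).val = if i.val < 8 then 1 - bl i.val else i.val)
    {u : W} (hu : u ∈ inv ρ (Tg n gQ)) : ρ g u = -u := by
  have h1 : ρ (g * P n ls') u = u := by
    apply triv hn hC _ hu
    intro i
    rw [Subgroup.coe_mul, Perm.mul_apply, coe_P hn (m := 8) (by decide), hg, pm_apply ((vl_iff.1 (show vl 8 ls' = true by decide)).2.mono hn)]
    by_cases hi : i.val < 8
    · have key : ∀ i < 8, ap ls' i < 8 ∧ 1 - bl (ap ls' i) = bl i := by decide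
      rw [if_pos (key _ hi).1, (key _ hi).2]
    · have hi' : 8 ≤ i.val := by omega
      rw [ap_ge (m := 8) (vl_iff.1 (show vl 8 ls' = true by decide)).2 hi', if_neg hi]
      unfold bl
      rw [if_neg hi]
  rw [ρ_mul, swap_neg hn hC hu, map_neg] at h1
  rw [← h1, neg_neg, h1]

end gen

end Cfsg.Agent.R2.T1.Odd
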