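import Cfsg.Agent.R2.T1.Odd.Eo

/-!
# S5771, ODD5 (O6): colourings of `n ≤ 10` points (helper11)

The cosets `g D` of the stabilizer `D` of the colouring `col` (four points of colour 0, four of colour 1, the others of
colour 2) are described by the colourings `c = col ∘ g⁻¹`. `all8`, `all9`, `all10` : each of them contains an involution
(also after exchanging the colours 0 and 1), or (`n = 10`) there is an element which shows `E ρ(g) = 0`.
-/

set_option autoImplicit false
set_option maxRecDepth 100000
namespace Cfsg.Agent.R2.T1.Odd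

/-- the colours -/
def col (i : ℕ) : ℕ := if Nat.blt i 4 then 0 else if Nat.blt i 8 then 1 else 2

/-- exchange of the colours 0 and 1 -/
def cs (a : ℕ) : ℕ := if Nat.beq a 0 then 1 else if Nat.beq a 1 then 0 else a

/-- all words with given numbers of letters -/
def enum : ℕ → ℕ → ℕ → ℕ → List (List ℕ)
  | 0, _, _, _ => [[]]
  | k + 1, a, b, c =>
    (match a with | 0 => [] | a + 1 => (enum k a b c).map (0 :: ·)) ++
    ((match b with | 0 => [] | b + 1 => (enum k a b c).map (1 :: ·)) ++
    (match c with | 0 => [] | c + 1 => (enum k a b c).map (2 :: ·)))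

/-- the cell of the points of colour `a` with the entry `b` -/
def cell (n : ℕ) (c : List ℕ) (a b : ℕ) : List ℕ :=
  (List.range n).filter fun i => Nat.beq (col i) a && Nat.beq (c.getD i 3) b

/-- the transposition of the first two entries -/
def fst2 : List ℕ → List (ℕ × ℕ)
  | x :: y :: _ => [(x, y)]
  | _ => []

/-- the involution mapping the colouring `col` to `c` -/
def mk (n : ℕ) (c : List ℕ) : List (ℕ × ℕ) :=
  let h := (cell n c 0 1).zip (cell n c 1 0) ++ ((cell n c 0 2).zip (cell n c 2 0) ++ (cell n c 1 2).zip (cell n c 2 1))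
  if Nat.beq (h.length % 2) 0 then h else
    (match fst2 (cell n c 0 0) with
      | x :: _ => [x]
      | [] => match fst2 (cell n c 1 1) with
        | x :: _ => [x]
        | [] => fst2 (cell n c 2 2)) ++ h

/-- check of an involution -/
def chk1 (n : ℕ) (f : ℕ → ℕ) (c : List ℕ) (h : List (ℕ × ℕ)) : Bool :=
  vl n h && (List.range n).all fun i => Nat.beq (ap h (ap h i)) i && Nat.beq (c.getD (ap h i) 3) (f (col i))

def chkA (n : ℕ) (c : List ℕ) : Bool := chk1 n (fun x => x) c (mk n c) || chk1 n cs c (mk n (c.map cs))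

/-- the first pair in a cell `(a, b)`, `a, b < 2` -/
def prs (n : ℕ) (c : List ℕ) : List (ℕ × ℕ) :=
  (fst2 (cell n c 0 0) ++ (fst2 (cell n c 0 1) ++ (fst2 (cell n c 1 0) ++ fst2 (cell n c 1 1)))).take 1

/-- the element which kills -/
def mkK (c : List ℕ) : List (ℕ × ℕ) :=
  (fst2 (cell 10 c 0 2) ++ (fst2 (cell 10 c 1 2) ++ [(8, 9)])).take 1 ++ prs 10 c

/-- check of the element which kills -/
def chkK (c : List ℕ) (d : List (ℕ × ℕ)) : Bool :=
  vl 10 d && ((List.range 10).all fun i => Nat.beq (col (ap d i)) (col i) && Nat.beq (c.getD (ap d i) 3) (c.getD i 3)) &&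
    ((Nat.beq (ap d 8) 8 && (List.range 10).all fun i => !(Nat.beq (c.getD i 3) 2) || !(Nat.beq (ap d i) i)) ||
     (Nat.beq (ap d 8) 9 && (List.range 10).all fun i => !(Nat.beq (c.getD i 3) 2) || Nat.beq (ap d i) i))

theorem all8 : ((enum 8 4 4 0).all fun c => chkA 8 c) = true := by decide +kernel
theorem all9 : ((enum 9 4 4 1).all fun c => chkA 9 c) = true := by decide +kernel
theorem all10 : ((enum 10 4 4 2).all fun c => chkA 10 c || chkK c (mkK c)) = true := by decide +kernel
end Cfsg.Agent.R2.T1.Odd
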