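import Cfsg.Agent.R2.T1.Odd.Eo

/-!
# S5771, ODD5 (O3): `Σ_{k ∈ Q} ρ(k (01)(34)) u = 8 u` for `u ∈ U` (helper11)
-/

set_option autoImplicit false
set_option maxRecDepth 100000

namespace Cfsg.Agent.R2.T1.Odd

open Cfsg Cfsg.Lie Module Equiv Equiv.Perm
open Cfsg.Agent.H952.F4 (ev es)

universe u v

def l322 : List (ℕ × ℕ) := [(0, 1), (1, 2), (3, 4), (5, 6)]
def l62 : List (ℕ × ℕ) := [(0, 1), (1, 2), (2, 3), (3, 4), (4, 5), (6, 7)]
def l5 : List (ℕ × ℕ) := [(0, 1), (1, 2), (2, 3), (3, 4)]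
def lg1 : List (ℕ × ℕ) := [(0, 1), (3, 4)]
def lg2 : List (ℕ × ℕ) := [(2, 4), (3, 5)]

theorem r10_eq : r10 = [[], lt, ls, l42, l44, l3, l33, l322, l62, l5] := by decide

/-- the configuration with the types of the elements, `p ≠ 5` -/
structure CfgT {F : Type*} [Field F] {W : Type*} [AddCommGroup W] [Module F W] {n : ℕ} [NeZero n]
    (ρ : Representation F ↥(alternatingGroup (Fin n)) W) (B : W →ₗ[F] W →ₗ[F] F) : Prop extends CfgU ρ B where
  five : (5 : F) ≠ 0
  dimW : finrank F W = 56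
  evt : ev (ρ (P n lt)) 1 = 32
  evs : ev (ρ (P n ls)) 1 = 24
  ev42 : ev (ρ (P n l42)) 1 = 16
  ev44 : ev (ρ (P n l44)) 1 = 12
  ev5 : ev (ρ (P n l5)) 1 = 16

section
variable {n : ℕ} [NeZero n] {F : Type u} [Field F] {W : Type v} [AddCommGroup W] [Module F W]
  {ρ : Representation F ↥(alternatingGroup (Fin n)) W} {B : W →ₗ[F] W →ₗ[F] F}

theorem tr_nil (ρ : Representation F ↥(alternatingGroup (Fin n)) W) [FiniteDimensional F W] :
    LinearMap.trace F W (ρ (P n [])) = (finrank F W : F) := by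
  rw [P_nil, map_one ρ, LinearMap.trace_one]

variable (hn : 8 ≤ n) (hC : CfgT ρ B)
include hn hC

theorem tr_t [FiniteDimensional F W] : LinearMap.trace F W (ρ (P n lt)) = 8 := by
  have h := trT hn chkG_Ct chkC_Ct len_Ct (K := 10) rfl (by exact_mod_cast hC.two) cnt_Ct ρ
  have h1 : finrank F ↥(inv ρ (Tg n gCt)) = 32 := (inv1 ρ lt).trans hC.evt
  simp only [r10_eq, Finset.sum_range_succ, Finset.sum_range_zero, List.getD_cons_zero, List.getD_cons_succ, tr_nil, h1,
    hC.dimW] at h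
  push_cast at h
  linear_combination -h

theorem tr_s [FiniteDimensional F W] : LinearMap.trace F W (ρ (P n ls)) = -8 := by
  have h := trT hn chkG_Cs chkC_Cs len_Cs (K := 10) rfl (by exact_mod_cast hC.two) cnt_Cs ρ
  have h1 : finrank F ↥(inv ρ (Tg n gCs)) = 24 := (inv1 ρ ls).trans hC.evs
  simp only [r10_eq, Finset.sum_range_succ, Finset.sum_range_zero, List.getD_cons_zero, List.getD_cons_succ, tr_nil, h1,
    hC.dimW] at h
  push_cast at h
  linear_combination -h

theorem four_ne : ((4 : ℕ) : F) ≠ 0 := by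
  have : ((4 : ℕ) : F) = 2 * 2 := by norm_num
  rw [this]
  exact mul_ne_zero hC.two hC.two

theorem tr_42 [FiniteDimensional F W] : LinearMap.trace F W (ρ (P n l42)) = 0 := by
  have h := trT hn chkG_C42 chkC_C42 len_C42 (K := 10) rfl (four_ne hn hC) cnt_C42 ρ
  have h1 : finrank F ↥(inv ρ (Tg n gC42)) = 16 := (inv1 ρ l42).trans hC.ev42
  simp only [r10_eq, Finset.sum_range_succ, Finset.sum_range_zero, List.getD_cons_zero, List.getD_cons_succ, tr_nil, h1,
    hC.dimW, tr_t hn hC] at h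
  push_cast at h
  have h3 : (2 : F) * LinearMap.trace F W (ρ (P n l42)) = 0 := by linear_combination -h
  exact (mul_eq_zero.1 h3).resolve_left hC.two

theorem tr_44 [FiniteDimensional F W] : LinearMap.trace F W (ρ (P n l44)) = 0 := by
  have h := trT hn chkG_C44 chkC_C44 len_C44 (K := 10) rfl (four_ne hn hC) cnt_C44 ρ
  have h1 : finrank F ↥(inv ρ (Tg n gC44)) = 12 := (inv1 ρ l44).trans hC.ev44
  simp only [r10_eq, Finset.sum_range_succ, Finset.sum_range_zero, List.getD_cons_zero, List.getD_cons_succ, tr_nil, h1,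
    hC.dimW, tr_s hn hC] at h
  push_cast at h
  have h3 : (2 : F) * LinearMap.trace F W (ρ (P n l44)) = 0 := by linear_combination -h
  exact (mul_eq_zero.1 h3).resolve_left hC.two

theorem tr_5 [FiniteDimensional F W] : LinearMap.trace F W (ρ (P n l5)) = 6 := by
  have h := trT hn chkG_C5 chkC_C5 len_C5 (K := 10) rfl (by exact_mod_cast hC.five) cnt_C5 ρ
  have h1 : finrank F ↥(inv ρ (Tg n gC5)) = 16 := (inv1 ρ l5).trans hC.ev5
  simp only [r10_eq, Finset.sum_range_succ, Finset.sum_range_zero, List.getD_cons_zero, List.getD_cons_succ, tr_nil, h1,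
    hC.dimW] at h
  push_cast at h
  have h3 : (2 : F) * (2 * (LinearMap.trace F W (ρ (P n l5)) - 6)) = 0 := by linear_combination -h
  exact sub_eq_zero.1 ((mul_eq_zero.1 ((mul_eq_zero.1 h3).resolve_left hC.two)).resolve_left hC.two)

/-- `4 τ₃ + 12 τ₃₂₂ = 32` -/
theorem tr_y [FiniteDimensional F W] : 4 * LinearMap.trace F W (ρ (P n l3)) + 12 * LinearMap.trace F W (ρ (P n l322)) = 32 := by
  have h := tr_EE (ρ := ρ) hn chkC_QY (K := 10) rfl cnt_QY
  have h1 : ∀ u ∈ inv ρ (Tg n gQ), EE ρ (ρ (P n l3) u) = (16 : F) • u := by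
    intro u hu
    rw [list_triv hn hC.toCfgU hu 1 l3 rfl (by unfold IB l3; decide), EE_U hn hu]
  have h3 : LinearMap.trace F W (EE ρ * ρ (P n [(0, 1), (1, 2)])) = 2 * 16 := tr_scal hn hC.toCfgU h1
  rw [h3] at h
  simp only [r10_eq, Finset.sum_range_succ, Finset.sum_range_zero, List.getD_cons_zero, List.getD_cons_succ] at h
  push_cast at h
  linear_combination -h

/-- `16 τ₃₃ = 32` -/
theorem tr_33 [FiniteDimensional F W] : LinearMap.trace F W (ρ (P n l33)) = 2 := by
  have h := tr_EE (ρ := ρ) hn chkC_QYY (K := 10) rfl cnt_QYY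
  have h1 : ∀ u ∈ inv ρ (Tg n gQ), EE ρ (ρ (P n l33) u) = (16 : F) • u := by
    intro u hu
    rw [list_triv hn hC.toCfgU hu 2 l33 rfl (by unfold IB l33; decide), EE_U hn hu]
  have h3 : LinearMap.trace F W (EE ρ * ρ (P n [(0, 1), (1, 2), (4, 5), (5, 6)])) = 2 * 16 := tr_scal hn hC.toCfgU h1
  rw [h3] at h
  simp only [r10_eq, Finset.sum_range_succ, Finset.sum_range_zero, List.getD_cons_zero, List.getD_cons_succ] at h
  push_cast at h
  have h4 : (16 : F) * (LinearMap.trace F W (ρ (P n l33)) - 2) = 0 := by linear_combination -h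
  exact sub_eq_zero.1 ((mul_eq_zero.1 h4).resolve_left (sixteen_ne hC.two))

/-- `E ρ(g₂) = 0` on `U` -/
theorem E_g2 (u : W) (hu : u ∈ inv ρ (Tg n gQ)) : EE ρ (ρ (P n lg2) u) = 0 := by
  have h1 : P n [(0, 2), (1, 3), (4, 6), (5, 7)] * P n lg2 = P n lg2 * P n ls' := by
    rw [← P_append hn (m := 8) (by decide) (by decide), ← P_append hn (m := 8) (by decide) (by decide),
      P_eq_iff hn (by decide) (by decide)]
    decide
  have h2 : P n [(0, 2), (1, 3), (4, 6), (5, 7)] ∈ Tg n gQ := by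
    have h3 := P_wd_mem (n := n) hn (gens := gQ) gQ_vl [1, 3]
    exact h3
  have h3 := EE_right (ρ := ρ) h2 (ρ (P n lg2) u)
  rw [← ρ_mul, h1, ρ_mul, swap_neg hn hC.toCfgU hu, map_neg, map_neg] at h3
  have h4 : (2 : F) • EE ρ (ρ (P n lg2) u) = 0 := by
    rw [two_smul]
    nth_rewrite 1 [← h3]
    exact neg_add_cancel _
  exact (smul_eq_zero.1 h4).resolve_left hC.two

theorem tr_62 [FiniteDimensional F W] : LinearMap.trace F W (ρ (P n l62)) = -2 := by
  have h := tr_EE (ρ := ρ) hn chkC_QG2 (K := 10) rfl cnt_QG2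
  have h3 : LinearMap.trace F W (EE ρ * ρ (P n [(2, 4), (3, 5)])) = 2 * 0 :=
    tr_scal hn hC.toCfgU fun u hu => by rw [zero_smul]; exact E_g2 hn hC u hu
  rw [h3] at h
  simp only [r10_eq, Finset.sum_range_succ, Finset.sum_range_zero, List.getD_cons_zero, List.getD_cons_succ, tr_t hn hC,
    tr_s hn hC, tr_42 hn hC, tr_44 hn hC, tr_33 hn hC] at h
  push_cast at h
  have h4 : ((4 : ℕ) : F) * (LinearMap.trace F W (ρ (P n l62)) + 2) = 0 := by push_cast; linear_combination -h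
  exact eq_neg_of_add_eq_zero_left ((mul_eq_zero.1 h4).resolve_left (four_ne hn hC))

/-- **O3** -/
theorem E_g1 : ∀ u ∈ inv ρ (Tg n gQ), EE ρ (ρ (P n lg1) u) = (8 : F) • u := by
  have := hC.fin
  obtain ⟨c, hc⟩ := scal hn hC.toCfgU (h := P n lg1) (by
    rw [inv_eq_iff_mul_eq_one, ← pow_two]
    exact P_pow_one hn (m := 8) (by decide) (by decide))
  have h := tr_EE (ρ := ρ) hn chkC_QG1 (K := 10) rfl cnt_QG1
  have h3 : LinearMap.trace F W (EE ρ * ρ (P n [(0, 1), (3, 4)])) = 2 * c := tr_scal hn hC.toCfgU hc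
  rw [h3] at h
  simp only [r10_eq, Finset.sum_range_succ, Finset.sum_range_zero, List.getD_cons_zero, List.getD_cons_succ, tr_t hn hC,
    tr_42 hn hC, tr_5 hn hC, tr_62 hn hC] at h
  push_cast at h
  have h5 := tr_y hn hC
  have h6 : (2 : F) * (2 * (2 * (c - 8))) = 0 := by linear_combination 4 * h + h5
  have h7 : c = 8 := sub_eq_zero.1 ((mul_eq_zero.1 ((mul_eq_zero.1 ((mul_eq_zero.1 h6).resolve_left hC.two)).resolve_left
    hC.two)).resolve_left hC.two)
  rw [← h7]
  exact hc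

end

end Cfsg.Agent.R2.T1.Odd
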