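import Cfsg.Agent.R2.T1.Odd.O3

/-!
# S5771, ODD5 (O4): the vectors `w_A` and `v_i`, `n = 8`, `p ≠ 2, 5` (helper11)

`ρ` a representation of `A_8` on `W` with `CfgT ρ B`; `U = inv ρ (Tg 8 gQ)`.

* `wA ρ A : W →ₗ[F] W` for `A : Finset (Fin 8)`, `|A| = 4`: on `U` it is `ρ(g)`, `g{0,1,2,3} = A`;
* `vi ρ i : W →ₗ[F] W` : `v_i = (1/20) Σ_{A ∋ i} w_A`;
* `vi_equi`, `vi_sum`, `vi_four`, `wA_sum`, `gram`, `fix_pt`.
-/

set_option autoImplicit false
set_option maxRecDepth 100000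

namespace Cfsg.Agent.R2.T1.Odd

open Cfsg Cfsg.Lie Module Equiv Equiv.Perm
open Cfsg.Agent.H952.F4 (ev es)

universe u v

/-- the group `A_8` -/
abbrev A8 := ↥(alternatingGroup (Fin 8))

/-- `{0,1,2,3}` -/
def A0 : Finset (Fin 8) := {0, 1, 2, 3}

/-- the 4-subsets -/
def S4 : Finset (Finset (Fin 8)) := Finset.powersetCard 4 Finset.univ

theorem mem_S4 {A : Finset (Fin 8)} : A ∈ S4 ↔ A.card = 4 := by
  unfold S4
  rw [Finset.mem_powersetCard, and_iff_right (Finset.subset_univ A)]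

theorem mem_A0 {i : Fin 8} : i ∈ A0 ↔ i.val < 4 := by revert i; decide

/-- `g{0,1,2,3} = A` -/
def sends (g : A8) (A : Finset (Fin 8)) : Prop := ∀ i, (g : Perm (Fin 8)) i ∈ A ↔ i.val < 4

theorem exists_sends {A : Finset (Fin 8)} (hA : A.card = 4) : ∃ g, sends g A := by
  classical
  have h1 : Fintype.card {i : Fin 8 // i.val < 4} = Fintype.card {i : Fin 8 // i ∈ A} := by
    rw [Fintype.card_coe, hA]
    decide
  let e := Fintype.equivOfCardEq h1
  let σ : Perm (Fin 8) := e.extendSubtype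
  have hσ : ∀ i, σ i ∈ A ↔ i.val < 4 := by
    intro i
    constructor
    · intro h
      by_contra h2
      exact e.extendSubtype_not_mem i h2 h
    · exact fun h => e.extendSubtype_mem i h
  by_cases hs : sign σ = 1
  · exact ⟨⟨σ, mem_alternatingGroup.2 hs⟩, hσ⟩
  · have h3 : sign (σ * swap 0 1) = 1 := by
      rw [Perm.sign_mul, sign_swap (by decide), (Int.units_eq_one_or _).resolve_left hs]
      decide
    refine ⟨⟨σ * swap 0 1, mem_alternatingGroup.2 h3⟩, fun i => ?_⟩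
    show (σ * swap 0 1 : Perm (Fin 8)) i ∈ A ↔ _
    rw [Perm.mul_apply, hσ]
    revert i
    decide

section
variable {F : Type u} [Field F] {W : Type v} [AddCommGroup W] [Module F W]
  (ρ : Representation F A8 W) {B : W →ₗ[F] W →ₗ[F] F}

open Classical in
/-- the maps `w_A` -/
noncomputable def wA (A : Finset (Fin 8)) : W →ₗ[F] W := if h : ∃ g, sends g A then ρ (Classical.choose h) else 0

/-- the maps `v_i` -/
noncomputable def vi (i : Fin 8) : W →ₗ[F] W := (20⁻¹ : F) • ∑ A ∈ S4.filter (i ∈ ·), wA ρ A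

variable {ρ}

theorem wA_eq (hC : CfgU ρ B) {A : Finset (Fin 8)} {g : A8} (hg : sends g A) {u : W} (hu : u ∈ inv ρ (Tg 8 gQ)) :
    wA ρ A u = ρ g u := by
  have h : ∃ g, sends g A := ⟨g, hg⟩
  rw [wA, dif_pos h]
  have h1 := Classical.choose_spec h
  generalize Classical.choose h = k at h1
  have h2 : ρ (k⁻¹ * g) u = u := by
    apply triv le_rfl hC _ hu
    intro i
    have h3 := h1 ((((k⁻¹ * g : A8) : Perm (Fin 8))) i)
    have h4 : (k : Perm (Fin 8)) (((k⁻¹ * g : A8) : Perm (Fin 8)) i) = (g : Perm (Fin 8)) i := by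
      rw [← Perm.mul_apply, ← Subgroup.coe_mul, mul_inv_cancel_left]
    rw [h4, hg i] at h3
    generalize ((k⁻¹ * g : A8) : Perm (Fin 8)) i = j at *
    unfold bl
    have h5 := i.2
    have h6 := j.2
    rw [if_pos h5, if_pos h6]
    omega
  have h3 : ρ g u = ρ k (ρ (k⁻¹ * g) u) := by rw [← ρ_mul, mul_inv_cancel_left]
  rw [h3, h2]

theorem wA_map (hC : CfgU ρ B) {A : Finset (Fin 8)} (hA : A.card = 4) (g : A8) {u : W} (hu : u ∈ inv ρ (Tg 8 gQ)) :
    ρ g (wA ρ A u) = wA ρ (A.map (g : Perm (Fin 8)).toEmbedding) u := by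
  obtain ⟨k, hk⟩ := exists_sends hA
  rw [wA_eq hC hk hu, ← ρ_mul]
  refine (wA_eq hC (fun i => ?_) hu).symm
  rw [Subgroup.coe_mul, Perm.mul_apply, Finset.mem_map_equiv, Equiv.symm_apply_apply, hk i]

theorem wA_compl (hC : CfgU ρ B) {A : Finset (Fin 8)} (hA : A.card = 4) {u : W} (hu : u ∈ inv ρ (Tg 8 gQ)) :
    wA ρ Aᶜ u = - wA ρ A u := by
  obtain ⟨k, hk⟩ := exists_sends hA
  rw [wA_eq hC hk hu, wA_eq (g := k * P 8 ls') hC (fun i => ?_) hu, ρ_mul, swap_neg le_rfl hC hu, map_neg]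
  rw [Finset.mem_compl, Subgroup.coe_mul, Perm.mul_apply, hk, coe_P le_rfl (m := 8) (by decide),
    pm_apply (vl_iff.1 (show vl 8 ls' = true by decide)).2]
  have key : ∀ i < 8, (¬ ap ls' i < 4 ↔ i < 4) := by decide
  exact key _ i.2

theorem wA_zero (hC : CfgU ρ B) {u : W} (hu : u ∈ inv ρ (Tg 8 gQ)) : wA ρ A0 u = u := by
  rw [wA_eq (g := 1) hC (fun i => mem_A0) hu, ρ_one]

theorem vi_apply (i : Fin 8) (u : W) : vi ρ i u = (20⁻¹ : F) • ∑ A ∈ S4.filter (i ∈ ·), wA ρ A u := by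
  rw [vi, LinearMap.smul_apply, LinearMap.sum_apply]

/-- **equivariance** -/
theorem vi_equi (hC : CfgU ρ B) (g : A8) (i : Fin 8) {u : W} (hu : u ∈ inv ρ (Tg 8 gQ)) :
    ρ g (vi ρ i u) = vi ρ ((g : Perm (Fin 8)) i) u := by
  rw [vi_apply, vi_apply, map_smul, map_sum]
  congr 1
  refine Finset.sum_bij' (fun A _ => A.map (g : Perm (Fin 8)).toEmbedding)
    (fun A _ => A.map (g : Perm (Fin 8)).symm.toEmbedding) ?_ ?_ ?_ ?_ ?_
  · intro A hA
    rw [Finset.mem_filter, mem_S4] at hA ⊢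
    exact ⟨by rw [Finset.card_map]; exact hA.1, by rw [Finset.mem_map_equiv, Equiv.symm_apply_apply]; exact hA.2⟩
  · intro A hA
    rw [Finset.mem_filter, mem_S4] at hA ⊢
    exact ⟨by rw [Finset.card_map]; exact hA.1, by rw [Finset.mem_map_equiv, Equiv.symm_symm]; exact hA.2⟩
  · intro A _
    ext i
    rw [Finset.mem_map_equiv, Finset.mem_map_equiv, Equiv.symm_symm, Equiv.symm_apply_apply]
  · intro A _
    ext i
    rw [Finset.mem_map_equiv, Finset.mem_map_equiv, Equiv.symm_symm, Equiv.apply_symm_apply]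
  · intro A hA
    rw [Finset.mem_filter, mem_S4] at hA
    exact wA_map hC hA.1 g hu

/-- the sums `X_j` -/
noncomputable def Xj (ρ : Representation F A8 W) (j : ℕ) (u : W) : W :=
  ∑ A ∈ S4.filter (fun A => (A ∩ A0).card = j), wA ρ A u

theorem sum_Xj (c : ℕ → F) (u : W) : ∑ A ∈ S4, c (A ∩ A0).card • wA ρ A u = ∑ j ∈ Finset.range 5, c j • Xj ρ j u := by
  have h1 : ∀ A ∈ S4, (A ∩ A0).card ∈ Finset.range 5 := by decide +kernel
  rw [← Finset.sum_fiberwise_of_maps_to h1]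
  refine Finset.sum_congr rfl fun j _ => ?_
  rw [Xj, Finset.smul_sum]
  refine Finset.sum_congr rfl fun A hA => ?_
  rw [(Finset.mem_filter.1 hA).2]

theorem Xj_neg (hC : CfgU ρ B) {j : ℕ} (hj : j ≤ 4) {u : W} (hu : u ∈ inv ρ (Tg 8 gQ)) : Xj ρ (4 - j) u = - Xj ρ j u := by
  have key : ∀ A ∈ S4, (Aᶜ ∩ A0).card = 4 - (A ∩ A0).card ∧ (A ∩ A0).card ≤ 4 := by decide +kernel
  rw [Xj, Xj, ← Finset.sum_neg_distrib]
  refine Finset.sum_bij' (fun A _ => Aᶜ) (fun A _ => Aᶜ) ?_ ?_ ?_ ?_ ?_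
  · intro A hA
    rw [Finset.mem_filter] at hA ⊢
    refine ⟨by rw [mem_S4, Finset.card_compl, Fintype.card_fin, mem_S4.1 hA.1], ?_⟩
    have h1 := key A hA.1
    rw [h1.1, hA.2]
    omega
  · intro A hA
    rw [Finset.mem_filter] at hA ⊢
    refine ⟨by rw [mem_S4, Finset.card_compl, Fintype.card_fin, mem_S4.1 hA.1], ?_⟩
    have h1 := key A hA.1
    rw [h1.1, hA.2]
  · intro A _; exact compl_compl A
  · intro A _; exact compl_compl A
  · intro A hA
    rw [Finset.mem_filter] at hA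
    rw [wA_compl hC (mem_S4.1 hA.1) hu, neg_neg]

theorem Xj_four (hC : CfgU ρ B) {u : W} (hu : u ∈ inv ρ (Tg 8 gQ)) : Xj ρ 4 u = u := by
  have h1 : S4.filter (fun A => (A ∩ A0).card = 4) = {A0} := by decide +kernel
  rw [Xj, h1, Finset.sum_singleton, wA_zero hC hu]

/-- the set `k{0,1,2,4}` for `k` the word `w` in `Q` -/
def Bw (w : List ℕ) : Finset (Fin 8) := Finset.univ.filter fun i => (ap (wd gQ w) i.val) ∈ [0, 1, 2, 4]

theorem Xj_three (hC : CfgT ρ B) {u : W} (hu : u ∈ inv ρ (Tg 8 gQ)) : Xj ρ 3 u = (8 : F) • u := by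
  have h1 : S4.filter (fun A => (A ∩ A0).card = 3) = (eQ.map Bw).toFinset := by decide +kernel
  have h2 : (eQ.map Bw).Nodup := by decide +kernel
  rw [Xj, h1, List.sum_toFinset _ h2, ← E_g1 le_rfl hC u hu, EE_apply, sum_Tg le_rfl chkG_Q (fun k => ρ k (ρ (P 8 lg1) u)),
    List.map_map]
  congr 1
  apply List.map_congr_left
  intro w hw
  have hv := vl_wd gQ_vl w
  have hv' : vl 8 (wd gQ w ++ lg1) = true := vl_append hv (by decide)
  rw [← ρ_mul, ← P_append le_rfl hv (by decide)]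
  refine wA_eq hC.toCfgU (fun i => ?_) hu
  rw [coe_P le_rfl hv']
  unfold Bw
  rw [Finset.mem_filter, and_iff_right (Finset.mem_univ _), pm_apply (vl_iff.1 hv').2]
  have key : ∀ w ∈ eQ, ∀ i < 8, (ap (wd gQ w) (ap (wd gQ w ++ lg1) i) ∈ [0, 1, 2, 4] ↔ i < 4) := by decide +kernel
  exact key w hw _ i.2

theorem twenty_ne (hC : CfgT ρ B) : (20 : F) ≠ 0 := by
  have : (20 : F) = 2 * 2 * 5 := by norm_num
  rw [this]
  exact mul_ne_zero (mul_ne_zero hC.two hC.two) hC.five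

/-- `v_0 + v_1 + v_2 + v_3 = w_{0123}` -/
theorem vi_four (hC : CfgT ρ B) {u : W} (hu : u ∈ inv ρ (Tg 8 gQ)) : ∑ i ∈ A0, vi ρ i u = u := by
  have h1 : ∑ i ∈ A0, vi ρ i u = (20⁻¹ : F) • ∑ A ∈ S4, ((A ∩ A0).card : F) • wA ρ A u := by
    rw [Finset.sum_congr rfl fun i _ => vi_apply i u, ← Finset.smul_sum]
    congr 1
    rw [Finset.sum_congr rfl fun i _ => Finset.sum_filter _ _, Finset.sum_comm]
    refine Finset.sum_congr rfl fun A _ => ?_
    rw [← Finset.sum_filter, Finset.sum_const, Nat.cast_smul_eq_nsmul, Finset.inter_comm, Finset.filter_mem_eq_inter]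
  have h2 : ∑ A ∈ S4, ((A ∩ A0).card : F) • wA ρ A u = (20 : F) • u := by
    rw [sum_Xj (fun k => (k : F)) u]
    simp only [Finset.sum_range_succ, Finset.sum_range_zero]
    have e4 := Xj_four hC.toCfgU hu
    have e3 := Xj_three hC hu
    have e1 : Xj ρ 1 u = -((8 : F) • u) := by rw [← e3]; exact Xj_neg hC.toCfgU (j := 3) (by norm_num) hu
    have e2 : Xj ρ 2 u = 0 := by
      have h3 : Xj ρ 2 u = - Xj ρ 2 u := Xj_neg hC.toCfgU (j := 2) (by norm_num) hu
      have h4 : (2 : F) • Xj ρ 2 u = 0 := by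
        rw [two_smul]
        nth_rewrite 1 [h3]
        exact neg_add_cancel _
      exact (smul_eq_zero.1 h4).resolve_left hC.two
    rw [e4, e3, e2, e1]
    push_cast
    module
  rw [h1, h2, smul_smul, inv_mul_cancel₀ (twenty_ne hC), one_smul]

/-- `w_A = Σ_{i ∈ A} v_i` -/
theorem wA_sum (hC : CfgT ρ B) {A : Finset (Fin 8)} (hA : A.card = 4) {u : W} (hu : u ∈ inv ρ (Tg 8 gQ)) :
    wA ρ A u = ∑ i ∈ A, vi ρ i u := by
  obtain ⟨g, hg⟩ := exists_sends hA
  rw [wA_eq hC.toCfgU hg hu]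
  conv_lhs => rw [← vi_four hC hu]
  rw [map_sum, Finset.sum_congr rfl fun i _ => vi_equi hC.toCfgU g i hu]
  have h1 : A = A0.map (g : Perm (Fin 8)).toEmbedding := by
    ext j
    rw [Finset.mem_map_equiv, mem_A0, ← hg, Equiv.apply_symm_apply]
  conv_rhs => rw [h1]
  rw [Finset.sum_map]
  rfl

/-- `Σ v_i = 0` -/
theorem vi_sum (hC : CfgT ρ B) {u : W} (hu : u ∈ inv ρ (Tg 8 gQ)) : ∑ i, vi ρ i u = 0 := by
  have h1 := wA_sum hC (A := A0ᶜ) (by decide) hu
  rw [wA_compl hC.toCfgU (by decide) hu, wA_zero hC.toCfgU hu] at h1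
  rw [← Finset.sum_add_sum_compl A0, vi_four hC hu, ← h1, add_neg_cancel]

theorem two_trans {i j : Fin 8} (h : i ≠ j) : ∃ g : A8, (g : Perm (Fin 8)) 0 = i ∧ (g : Perm (Fin 8)) 1 = j := by
  have h0 : swap 0 i j ≠ 0 := by
    intro h1
    have h2 := congrArg (swap 0 i) h1
    rw [swap_apply_self, swap_apply_left] at h2
    exact h h2.symm
  have e0 : (swap 0 i * swap 1 (swap 0 i j)) 0 = i := by
    rw [Perm.mul_apply, swap_apply_of_ne_of_ne (by decide) h0.symm, swap_apply_left]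
  have e1 : (swap 0 i * swap 1 (swap 0 i j)) 1 = j := by
    rw [Perm.mul_apply, swap_apply_left, swap_apply_self]
  generalize swap 0 i * swap 1 (swap 0 i j) = σ at e0 e1
  by_cases hs : sign σ = 1
  · exact ⟨⟨σ, mem_alternatingGroup.2 hs⟩, e0, e1⟩
  · have h3 : sign (σ * swap 2 3) = 1 := by
      rw [Perm.sign_mul, sign_swap (by decide), (Int.units_eq_one_or _).resolve_left hs]
      decide
    refine ⟨⟨σ * swap 2 3, mem_alternatingGroup.2 h3⟩, ?_, ?_⟩
    · show (σ * swap 2 3 : Perm (Fin 8)) 0 = i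
      rw [Perm.mul_apply, swap_apply_of_ne_of_ne (by decide) (by decide), e0]
    · show (σ * swap 2 3 : Perm (Fin 8)) 1 = j
      rw [Perm.mul_apply, swap_apply_of_ne_of_ne (by decide) (by decide), e1]

/-- **the Gram matrix** -/
theorem gram (hC : CfgT ρ B) {u u' : W} (hu : u ∈ inv ρ (Tg 8 gQ)) (hu' : u' ∈ inv ρ (Tg 8 gQ)) (i j : Fin 8) :
    16 * B (vi ρ i u) (vi ρ j u') = (if i = j then 7 else -1) * B u u' := by
  have hne : ∀ i j : Fin 8, i ≠ j → B (vi ρ i u) (vi ρ j u') = B (vi ρ 0 u) (vi ρ 1 u') := by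
    intro i j h
    obtain ⟨g, h0, h1⟩ := two_trans h
    rw [← hC.isom g (vi ρ 0 u), vi_equi hC.toCfgU g 0 hu, vi_equi hC.toCfgU g 1 hu', h0, h1]
  have heq : ∀ i : Fin 8, B (vi ρ i u) (vi ρ i u') = -7 * B (vi ρ 0 u) (vi ρ 1 u') := by
    intro i
    have h1 : ∑ j, B (vi ρ i u) (vi ρ j u') = 0 := by rw [← map_sum, vi_sum hC hu', map_zero]
    rw [← Finset.sum_erase_add _ _ (Finset.mem_univ i), Finset.sum_congr rfl fun j hj => hne i j (Finset.ne_of_mem_erase hj).symm,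
      Finset.sum_const, Finset.card_erase_of_mem (Finset.mem_univ i), Finset.card_univ, Fintype.card_fin, nsmul_eq_mul] at h1
    push_cast at h1
    linear_combination h1
  have h3 : B u u' = -16 * B (vi ρ 0 u) (vi ρ 1 u') := by
    conv_lhs => rw [← vi_four hC hu, ← vi_four hC hu']
    have h4 : ∀ f : Fin 8 → W, ∑ i ∈ A0, f i = f 0 + f 1 + f 2 + f 3 := by
      intro f
      unfold A0
      rw [Finset.sum_insert (by decide), Finset.sum_insert (by decide), Finset.sum_insert (by decide),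
        Finset.sum_singleton]
      abel
    rw [h4, h4]
    simp only [map_add, LinearMap.add_apply]
    rw [heq 0, heq 1, heq 2, heq 3, hne 0 1 (by decide), hne 0 2 (by decide), hne 0 3 (by decide), hne 1 0 (by decide),
      hne 1 2 (by decide), hne 1 3 (by decide), hne 2 0 (by decide), hne 2 1 (by decide), hne 2 3 (by decide),
      hne 3 0 (by decide), hne 3 1 (by decide), hne 3 2 (by decide)]
    ring
  split_ifs with h
  · subst h
    rw [heq i, h3]
    ring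
  · rw [hne i j h, h3]
    ring

/-- **fixed points of a point stabilizer** -/
theorem fix_pt (hC : CfgT ρ B) {w : W} (hw : ∀ g : A8, (g : Perm (Fin 8)) 7 = 7 → ρ g w = w) :
    ∃ u ∈ inv ρ (Tg 8 gQ), w = vi ρ 7 u := by
  have htr : ∀ i : Fin 8, ∃ g : A8, (g : Perm (Fin 8)) 7 = i := by
    intro i
    obtain ⟨a, ha⟩ : ∃ a : Fin 8, a ≠ i := by
      by_cases h : i = 0
      · exact ⟨1, by rw [h]; decide⟩
      · exact ⟨0, fun h' => h h'.symm⟩
    obtain ⟨g, hg, -⟩ := two_trans (i := i) (j := a) ha.symm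
    obtain ⟨k, hk, -⟩ := two_trans (i := 7) (j := 6) (by decide)
    refine ⟨g * k⁻¹, ?_⟩
    have h1 : ((k⁻¹ : A8) : Perm (Fin 8)) 7 = 0 := by
      rw [Subgroup.coe_inv, Perm.inv_eq_iff_eq, hk]
    rw [Subgroup.coe_mul, Perm.mul_apply, h1, hg]
  choose g hg using htr
  let x : Fin 8 → W := fun i => ρ (g i) w
  have hx : ∀ k : A8, ρ k w = x ((k : Perm (Fin 8)) 7) := by
    intro k
    have h1 : ρ ((g ((k : Perm (Fin 8)) 7))⁻¹ * k) w = w := by
      apply hw
      rw [Subgroup.coe_mul, Perm.mul_apply, Subgroup.coe_inv, Perm.inv_eq_iff_eq, hg]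
    show _ = ρ (g _) w
    conv_rhs => rw [← h1]
    rw [← ρ_mul, mul_inv_cancel_left]
  have hxe : ∀ (k : A8) i, ρ k (x i) = x ((k : Perm (Fin 8)) i) := by
    intro k i
    show ρ k (ρ (g i) w) = _
    rw [← ρ_mul, hx, Subgroup.coe_mul, Perm.mul_apply, hg]
  have hxA : ∀ (k : A8) (A : Finset (Fin 8)), sends k A → ρ k (∑ i ∈ A0, x i) = ∑ i ∈ A, x i := by
    intro k A hk
    have h1 : A = A0.map (k : Perm (Fin 8)).toEmbedding := by
      ext j
      rw [Finset.mem_map_equiv, mem_A0, ← hk, Equiv.apply_symm_apply]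
    rw [map_sum, Finset.sum_congr rfl fun i _ => hxe k i]
    conv_rhs => rw [h1]
    rw [Finset.sum_map]
    rfl
  have hu : (∑ i ∈ A0, x i) ∈ inv ρ (Tg 8 gQ) := by
    rw [mem_U]
    intro l hl
    have hv : vl 8 l = true := List.all_eq_true.1 gQ_vl l hl
    apply hxA
    intro i
    rw [coe_P le_rfl hv, mem_A0, pm_apply (vl_iff.1 hv).2]
    have key : ∀ l ∈ gQ, ∀ i < 8, (ap l i < 4 ↔ i < 4) := by decide
    exact key l hl _ i.2
  refine ⟨_, hu, ?_⟩
  have hcompl : ∑ i ∈ A0ᶜ, x i = - ∑ i ∈ A0, x i := by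
    obtain ⟨k, hk⟩ := exists_sends (A := A0ᶜ) (by decide)
    rw [← hxA k _ hk, ← wA_eq hC.toCfgU hk hu, wA_compl hC.toCfgU (by decide) hu, wA_zero hC.toCfgU hu]
  have hsum : ∑ i, x i = 0 := by
    rw [← Finset.sum_add_sum_compl A0, hcompl, add_neg_cancel]
  have hwA : ∀ A ∈ S4, wA ρ A (∑ i ∈ A0, x i) = ∑ i ∈ A, x i := by
    intro A hA
    obtain ⟨k, hk⟩ := exists_sends (mem_S4.1 hA)
    rw [wA_eq hC.toCfgU hk hu, hxA k A hk]
  rw [vi_apply, Finset.sum_congr rfl fun A hA => hwA A (Finset.mem_filter.1 hA).1]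
  have h2 : ∑ A ∈ S4.filter ((7 : Fin 8) ∈ ·), ∑ i ∈ A, x i =
      ∑ i, ((S4.filter (fun A => (7 : Fin 8) ∈ A ∧ i ∈ A)).card : F) • x i := by
    have h3 : ∀ A : Finset (Fin 8), ∑ i ∈ A, x i = ∑ i, if i ∈ A then x i else 0 := by
      intro A
      rw [← Finset.sum_filter, Finset.filter_mem_eq_inter, Finset.univ_inter]
    rw [Finset.sum_congr rfl fun A _ => h3 A, Finset.sum_comm]
    refine Finset.sum_congr rfl fun i _ => ?_
    rw [← Finset.sum_filter, Finset.filter_filter, Finset.sum_const, Nat.cast_smul_eq_nsmul]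
  have hcard : ∀ i : Fin 8, (S4.filter (fun A => (7 : Fin 8) ∈ A ∧ i ∈ A)).card = if i = 7 then 35 else 15 := by
    decide +kernel
  have h4 : ∑ i, ((S4.filter (fun A => (7 : Fin 8) ∈ A ∧ i ∈ A)).card : F) • x i = (20 : F) • x 7 := by
    have h5 : ∀ i : Fin 8, ((S4.filter (fun A => (7 : Fin 8) ∈ A ∧ i ∈ A)).card : F) • x i =
        (15 : F) • x i + if i = 7 then (20 : F) • x i else 0 := by
      intro i
      rw [hcard]
      split_ifs
      · push_cast
        module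
      · push_cast
        module
    rw [Finset.sum_congr rfl fun i _ => h5 i, Finset.sum_add_distrib, ← Finset.smul_sum, hsum, smul_zero, zero_add,
      Finset.sum_ite_eq' Finset.univ (7 : Fin 8), if_pos (Finset.mem_univ _)]
  rw [h2, h4, smul_smul, inv_mul_cancel₀ (twenty_ne hC), one_smul]
  have h6 := hx 1
  rw [ρ_one] at h6
  exact h6

end

end Cfsg.Agent.R2.T1.Odd
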