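import Cfsg.Agent.R2.T1.Odd.Out
import Cfsg.Agent.R2.T1.Odd.Nrm

/-!
# S5771, ODD5: the output for `n = 8`, `p ≠ 2, 5` (helper11)

* `fix_pt'` : fixed points of the stabilizer of a point `j` are the `v_j(u)`;
* `exists_sev` : the vectors `a_i = v_i(x)`, `b_i = v_i(y)`.
-/

set_option autoImplicit false
set_option maxRecDepth 100000

namespace Cfsg.Agent.R2.T1.Odd

open Cfsg Cfsg.Lie Module Equiv Equiv.Perm
open Cfsg.Agent.H943.E7V.Block (D1 rho)
open Cfsg.Agent.H952.F4 (ev es MaxAlt)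

universe u v

section
variable {F : Type u} [Field F] {W : Type v} [AddCommGroup W] [Module F W]
  {ρ : Representation F A8 W} {B : W →ₗ[F] W →ₗ[F] F}

theorem trans1 (i j : Fin 8) : ∃ g : A8, (g : Perm (Fin 8)) i = j := by
  have h : ∀ i : Fin 8, ∃ g : A8, (g : Perm (Fin 8)) 0 = i := by
    intro i
    obtain ⟨a, ha⟩ : ∃ a : Fin 8, a ≠ i := by
      by_cases h : i = 0
      · exact ⟨1, by rw [h]; decide⟩
      · exact ⟨0, fun h' => h h'.symm⟩
    obtain ⟨g, hg, -⟩ := two_trans (i := i) (j := a) ha.symm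
    exact ⟨g, hg⟩
  obtain ⟨g, hg⟩ := h i
  obtain ⟨k, hk⟩ := h j
  refine ⟨k * g⁻¹, ?_⟩
  have h1 : ((g⁻¹ : A8) : Perm (Fin 8)) i = 0 := by rw [Subgroup.coe_inv, Perm.inv_eq_iff_eq, hg]
  rw [Subgroup.coe_mul, Perm.mul_apply, h1, hk]

theorem fix_pt' (hC : CfgT ρ B) {j : Fin 8} {w : W} (hw : ∀ g : A8, (g : Perm (Fin 8)) j = j → ρ g w = w) :
    ∃ u ∈ inv ρ (Tg 8 gQ), w = vi ρ j u := by
  obtain ⟨k, hk⟩ := trans1 j 7
  have hk' : ((k⁻¹ : A8) : Perm (Fin 8)) 7 = j := by rw [Subgroup.coe_inv, Perm.inv_eq_iff_eq, hk]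
  obtain ⟨u, hu, h1⟩ := fix_pt hC (w := ρ k w) (by
    intro g hg
    have h2 : ρ (k⁻¹ * (g * k)) w = w := by
      apply hw
      rw [Subgroup.coe_mul, Subgroup.coe_mul, Perm.mul_apply, Perm.mul_apply, hk, hg, hk']
    conv_rhs => rw [← h2]
    rw [← ρ_mul, ← ρ_mul, mul_inv_cancel_left])
  refine ⟨u, hu, ?_⟩
  rw [← ρ_inv (ρ := ρ) k w, h1, vi_equi hC.toCfgU _ _ hu, hk']

/-- `v_j` is injective on `U` -/
theorem vi_inj (hC : CfgT ρ B) {j : Fin 8} {u : W} (hu : u ∈ inv ρ (Tg 8 gQ)) (h : vi ρ j u = 0) : u = 0 := by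
  have h1 : ∀ i, vi ρ i u = 0 := by
    intro i
    obtain ⟨k, hk⟩ := trans1 j i
    rw [← hk, ← vi_equi hC.toCfgU k j hu, h, map_zero]
  rw [← vi_four hC hu]
  exact Finset.sum_eq_zero fun i _ => h1 i

/-- no fixed vectors of `A_8` -/
theorem fix_zero (hn : 8 ≤ 8) (hC : CfgU ρ B) {w : W} (hw : ∀ g : A8, ρ g w = w) : w = 0 := by
  have h1 : w ∈ inv ρ (Tg 8 gQ) := fun g _ => hw g
  have h2 := swap_neg hn hC h1
  rw [hw] at h2
  have h3 : (2 : F) • w = 0 := by
    rw [two_smul]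
    nth_rewrite 1 [h2]
    exact neg_add_cancel _
  exact (smul_eq_zero.1 h3).resolve_left hC.two

/-- a basis of `U` -/
theorem exists_basis (hC : CfgT ρ B) : ∃ x y : W, x ∈ inv ρ (Tg 8 gQ) ∧ y ∈ inv ρ (Tg 8 gQ) ∧ B x y ≠ 0 ∧
    ∀ u ∈ inv ρ (Tg 8 gQ), ∃ s t : F, u = s • x + t • y := by
  have hfd : FiniteDimensional F ↥(inv ρ (Tg 8 gQ)) := Module.finite_of_finrank_pos (by rw [hC.dim]; norm_num)
  let b := Module.finBasisOfFinrankEq F ↥(inv ρ (Tg 8 gQ)) hC.dim
  have hspan : ∀ u ∈ inv ρ (Tg 8 gQ), ∃ x y : F, u = x • (b 0 : W) + y • (b 1 : W) := by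
    intro u hu
    refine ⟨b.repr ⟨u, hu⟩ 0, b.repr ⟨u, hu⟩ 1, ?_⟩
    have h1 := congrArg (Subtype.val) (b.sum_repr ⟨u, hu⟩)
    rw [Fin.sum_univ_two] at h1
    exact h1.symm
  refine ⟨b 0, b 1, (b 0).2, (b 1).2, ?_, hspan⟩
  intro h
  have hb0 : (b 0 : W) ≠ 0 := fun h => b.ne_zero 0 (Subtype.ext h)
  apply hb0
  apply nd_U le_rfl hC.toCfgU _ (b 0).2
  intro v hv
  obtain ⟨x, y, rfl⟩ := hspan v hv
  have hBB : B (b 0) (b 0) = 0 := by
    have h1 := hC.skew (b 0) (b 0)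
    have h3 : (2 : F) * B (b 0) (b 0) = 0 := by linear_combination h1
    exact (mul_eq_zero.1 h3).resolve_left hC.two
  rw [map_add, map_smul, map_smul, hBB, h, smul_zero, smul_zero, add_zero]

end

section out
variable {F : Type u} [Field F] [Finite F] {H : Subgroup ↥(chevE7.group F)} {φ : A8 →* ↥(chevE7.group F)}
  {ψ : A8 →* Gh F}

theorem lift_inj {n : ℕ} {φ : ↥(alternatingGroup (Fin n)) →* ↥(chevE7.group F)} {ψ : ↥(alternatingGroup (Fin n)) →* Gh F}
    (hM : MaxAlt H n φ) (hψ : Lift φ ψ) : ∀ a, ad F (ψ a) = 1 → a = 1 := by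
  intro a ha
  rw [hψ] at ha
  exact hM.inj (by rw [ha, map_one])

/-- **the output for P3** -/
theorem exists_sev (h2 : (2 : F) ≠ 0) (h5 : (5 : F) ≠ 0) (hM : MaxAlt H 8 φ) (hψ : Lift φ ψ) :
    ∃ (a b : Fin 8 → D1 → F) (c : F), P3.Sev ψ a b c ∧ 
      Stab (V F) H (Submodule.span F (Set.range a ∪ Set.range b)) ∧
      ∀ w, w ∈ inv (MonoidHom.comp (V F) ψ : Representation F A8 (D1 → F)) (Tg 8 gQ) ↔
        ∃ s t : F, w = s • (a 0 + a 1 + a 2 + a 3) + t • (b 0 + b 1 + b 2 + b 3) := by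
  have hC := cfgT h2 le_rfl (lift_inj hM hψ) h5
  set ρ : Representation F A8 (D1 → F) := MonoidHom.comp (V F) ψ with hρ
  obtain ⟨x, y, hx, hy, hxy, hspan⟩ := exists_basis hC
  have hfour : ∀ u ∈ inv ρ (Tg 8 gQ), vi ρ 0 u + vi ρ 1 u + vi ρ 2 u + vi ρ 3 u = u := by
    intro u hu
    have h1 := vi_four hC hu
    unfold A0 at h1
    rw [Finset.sum_insert (by decide), Finset.sum_insert (by decide), Finset.sum_insert (by decide),
      Finset.sum_singleton] at h1
    rw [← add_assoc, ← add_assoc] at h1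
    exact h1
  have h16 : (16 : F) ≠ 0 := sixteen_ne h2
  have hgr : ∀ i j, sf F (vi ρ i x) (vi ρ j y) = if i = j then 7 * (sf F x y / 16) else -(sf F x y / 16) := by
    intro i j
    have h1 := gram hC hx hy i j
    split_ifs at h1 ⊢ with h
    · field_simp
      linear_combination h1
    · field_simp
      linear_combination h1
  have hmem : ∀ u ∈ inv ρ (Tg 8 gQ), ∀ i, vi ρ i u ∈ Submodule.span F (Set.range (fun i => vi ρ i x) ∪ Set.range fun i => vi ρ i y) := by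
    intro u hu i
    obtain ⟨s, t, rfl⟩ := hspan u hu
    rw [map_add, map_smul, map_smul]
    exact add_mem (Submodule.smul_mem _ _ (Submodule.subset_span (Or.inl ⟨i, rfl⟩)))
      (Submodule.smul_mem _ _ (Submodule.subset_span (Or.inr ⟨i, rfl⟩)))
  have hself : ∀ {u : D1 → F}, u ∈ inv ρ (Tg 8 gQ) → ∀ i j, sf F (vi ρ i u) (vi ρ j u) = 0 := by
    intro u hu i j
    have h1 := gram hC hu hu i j
    rw [sf_self, mul_zero] at h1
    exact (mul_eq_zero.1 h1).resolve_left h16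
  refine ⟨fun i => vi ρ i x, fun i => vi ρ i y, sf F x y / 16, ?_, ?_, ?_⟩
  · exact { actA := fun g i => vi_equi hC.toCfgU g i hx
            actB := fun g i => vi_equi hC.toCfgU g i hy
            sumA := vi_sum hC hx
            sumB := vi_sum hC hy
            isoA := hself hx
            isoB := hself hy
            ab := hgr
            ne := div_ne_zero hxy h16 }
  · intro g hg
    obtain ⟨σ, hσ⟩ := norm_lift (by norm_num) hM hψ hg
    have key : ∀ u ∈ inv ρ (Tg 8 gQ), ∀ i, V F g (vi ρ i u) ∈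
        Submodule.span F (Set.range (fun i => vi ρ i x) ∪ Set.range fun i => vi ρ i y) := by
      intro u hu i
      obtain ⟨u', hu', h1⟩ := fix_pt' hC (j := σ i) (w := V F g (vi ρ i u)) (by
        intro b hb
        have hmem : σ⁻¹ * (b : Perm (Fin 8)) * σ ∈ alternatingGroup (Fin 8) := by
          rw [mem_alternatingGroup, Perm.sign_mul, Perm.sign_mul, Perm.sign_inv, mem_alternatingGroup.1 b.2, mul_one]
          exact Int.units_mul_self _
        have h1 := hσ ⟨_, hmem⟩ b (by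
          show (b : Perm (Fin 8)) = σ * (σ⁻¹ * (b : Perm (Fin 8)) * σ) * σ⁻¹
          group)
        have h2 : ρ ⟨_, hmem⟩ (vi ρ i u) = vi ρ i u := by
          have h3 : (σ⁻¹ * (b : Perm (Fin 8)) * σ) i = i := by
            rw [Perm.mul_apply, Perm.mul_apply, hb, Perm.inv_eq_iff_eq]
          have h4 := vi_equi hC.toCfgU (⟨_, hmem⟩ : A8) i hu
          rw [h4]
          show vi ρ ((σ⁻¹ * (b : Perm (Fin 8)) * σ) i) u = _
          rw [h3]
        show V F (ψ b) (V F g (vi ρ i u)) = _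
        rw [← h1]
        show V F (g * ψ ⟨_, hmem⟩ * g⁻¹) (V F g (vi ρ i u)) = _
        rw [map_mul, map_mul, Module.End.mul_apply, Module.End.mul_apply, Cfsg.Agent.R2.T1.ρ_inv (V F)]
        congr 1)
      rw [h1]
      exact hmem u' hu' _
    intro w hw
    refine Submodule.span_induction ?_ ?_ ?_ ?_ hw
    · rintro w (⟨i, rfl⟩ | ⟨i, rfl⟩)
      · exact key x hx i
      · exact key y hy i
    · rw [map_zero]; exact zero_mem _
    · intro a b _ _ ha hb; rw [map_add]; exact add_mem ha hb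
    · intro c a _ ha; rw [map_smul]; exact Submodule.smul_mem _ _ ha
  · intro w
    rw [hfour x hx, hfour y hy]
    constructor
    · exact hspan w
    · rintro ⟨s, t, rfl⟩
      exact add_mem (Submodule.smul_mem _ _ hx) (Submodule.smul_mem _ _ hy)

end out

end Cfsg.Agent.R2.T1.Odd
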