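import Cfsg.Agent.R2.T1.Odd.Out8

/-!
# S5771, ODD5: the output for `n = 9`, `p ≠ 2, 5` (helper11)

`ρ` a representation of `A_9`, `CfgT (ρ ∘ emb8) B`:
* `fx7 ρ` : the fixed points of the stabilizer of the points 7, 8; `fx7_finrank`, `fx7_nd`;
* `fx8_zero` : no fixed points of the stabilizer of the point 8;
* `cfgT9` : the configuration for `(V F) ∘ ψ`.
-/

set_option autoImplicit false
set_option maxRecDepth 100000

namespace Cfsg.Agent.R2.T1.Odd

open Cfsg Cfsg.Lie Module Equiv Equiv.Perm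
open Cfsg.Agent.H943.E7V.Block (D1 rho)
open Cfsg.Agent.H952.F4 (ev es MaxAlt)

universe u v

abbrev A9 := ↥(alternatingGroup (Fin 9))

/-- `A_8` in `A_9` -/
noncomputable abbrev emb89 : A8 →* A9 := emb8 (n := 9) (by norm_num)

section
variable {F : Type u} [Field F] {W : Type v} [AddCommGroup W] [Module F W]
  (ρ : Representation F A9 W) {B : W →ₗ[F] W →ₗ[F] F}

/-- fixed points of the stabilizer of 7 and 8 -/
def fx7 : Submodule F W where
  carrier := {w | ∀ g : A9, (g : Perm (Fin 9)) 7 = 7 → (g : Perm (Fin 9)) 8 = 8 → ρ g w = w}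
  add_mem' := fun ha hb g h7 h8 => by rw [map_add, ha g h7 h8, hb g h7 h8]
  zero_mem' := fun _ _ _ => map_zero _
  smul_mem' := fun c w hw g h7 h8 => by rw [map_smul, hw g h7 h8]

variable {ρ}

theorem mem_fx7 {w : W} : w ∈ fx7 ρ ↔ ∀ g : A9, (g : Perm (Fin 9)) 7 = 7 → (g : Perm (Fin 9)) 8 = 8 → ρ g w = w := Iff.rfl

theorem fix8_iff {g : A9} : (g : Perm (Fin 9)) 8 = 8 ↔ ∃ g' : A8, emb89 g' = g := by
  constructor
  · intro h
    apply exists_emb8
    intro i hi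
    have h1 : i = 8 := Fin.ext (by have := i.2; show i.val = 8; omega)
    rw [h1, h]
  · rintro ⟨g', rfl⟩
    exact emb8_ge (n := 9) (by norm_num) g' 8 le_rfl

theorem fix7_iff {g' : A8} : ((emb89 g' : A9) : Perm (Fin 9)) 7 = 7 ↔ (g' : Perm (Fin 8)) 7 = 7 := by
  have h1 := emb8_lt (n := 9) (by norm_num) g' 7
  have h2 : (⟨(7 : Fin 8).val, (7 : Fin 8).2.trans_le (by norm_num)⟩ : Fin 9) = 7 := rfl
  rw [h2] at h1
  constructor
  · intro h
    rw [h] at h1
    exact Fin.ext (congrArg Fin.val h1).symm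
  · intro h
    rw [h1, h]
    rfl

theorem mem_fx7' {w : W} : w ∈ fx7 ρ ↔ ∀ g : A8, (g : Perm (Fin 8)) 7 = 7 → (MonoidHom.comp ρ emb89 : Representation F A8 W) g w = w := by
  rw [mem_fx7]
  constructor
  · intro h g hg
    exact h (emb89 g) (fix7_iff.2 hg) (fix8_iff.2 ⟨g, rfl⟩)
  · intro h g h7 h8
    obtain ⟨g', rfl⟩ := fix8_iff.1 h8
    exact h g' (fix7_iff.1 h7)

variable (hC : CfgT (MonoidHom.comp ρ emb89 : Representation F A8 W) B)
include hC

theorem fx7_eq : fx7 ρ = (inv (MonoidHom.comp ρ emb89 : Representation F A8 W) (Tg 8 gQ)).map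
    (vi (MonoidHom.comp ρ emb89 : Representation F A8 W) 7) := by
  apply le_antisymm
  · intro w hw
    obtain ⟨u, hu, rfl⟩ := fix_pt hC (mem_fx7'.1 hw)
    exact ⟨u, hu, rfl⟩
  · rintro _ ⟨u, hu, rfl⟩
    rw [mem_fx7']
    intro g hg
    rw [vi_equi hC.toCfgU g 7 hu, hg]

theorem fx7_finrank : finrank F ↥(fx7 ρ) = 2 := by
  rw [fx7_eq hC, ← hC.dim]
  refine (LinearEquiv.finrank_eq (LinearEquiv.ofBijective
    ((vi (MonoidHom.comp ρ emb89 : Representation F A8 W) 7).restrict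
      (p := inv (MonoidHom.comp ρ emb89 : Representation F A8 W) (Tg 8 gQ))
      (q := (inv (MonoidHom.comp ρ emb89 : Representation F A8 W) (Tg 8 gQ)).map
        (vi (MonoidHom.comp ρ emb89 : Representation F A8 W) 7))
      (fun u hu => Submodule.mem_map_of_mem hu)) ⟨?_, ?_⟩)).symm
  · rw [← LinearMap.ker_eq_bot, LinearMap.ker_eq_bot']
    intro u hu
    exact Subtype.ext (vi_inj hC u.2 (congrArg Subtype.val hu))
  · rintro ⟨_, u, hu, rfl⟩
    exact ⟨⟨u, hu⟩, rfl⟩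

theorem fx7_nd (h7 : (7 : F) ≠ 0) {y : W} (hy : y ∈ fx7 ρ) (h : ∀ z ∈ fx7 ρ, B y z = 0) : y = 0 := by
  rw [fx7_eq hC] at hy h
  obtain ⟨u, hu, rfl⟩ := hy
  have h1 : u = 0 := by
    apply nd_U le_rfl hC.toCfgU u hu
    intro v hv
    have h2 := gram hC hu hv 7 7
    rw [h _ ⟨v, hv, rfl⟩, mul_zero, if_pos rfl] at h2
    exact (mul_eq_zero.1 h2.symm).resolve_left h7
  rw [h1, map_zero]

theorem fx8_zero {w : W} (hw : ∀ g : A9, (g : Perm (Fin 9)) 8 = 8 → ρ g w = w) : w = 0 :=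
  fix_zero (ρ := (MonoidHom.comp ρ emb89 : Representation F A8 W)) le_rfl hC.toCfgU fun g => hw _ (fix8_iff.2 ⟨g, rfl⟩)

end

/-- the configuration for `n = 9` -/
theorem cfgT9 {F : Type u} [Field F] [Finite F] (h2 : (2 : F) ≠ 0) (h5 : (5 : F) ≠ 0) {ψ : A9 →* Gh F}
    (hψ : ∀ a, ad F (ψ a) = 1 → a = 1) :
    CfgT (MonoidHom.comp (MonoidHom.comp (V F) ψ : Representation F A9 (D1 → F)) emb89 :
      Representation F A8 (D1 → F)) (sf F) := by
  have h := cfgT h2 (n := 8) le_rfl (ψ := ψ.comp emb89) (by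
    intro a ha
    exact emb8_inj (n := 9) (by norm_num) (by rw [hψ _ ha, map_one])) h5
  exact h

end Cfsg.Agent.R2.T1.Odd
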