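import Mathlib
import Cfsg.Agent.R2.T1.Inf.Art
import Cfsg.Agent.H944.E6Tab

/-!
# S5771, ODD5: permutations given by lists of transpositions; Artin's formula for explicit subgroups (helper11)

* `ap l i`, `cd m l` : the action and the code of a list of transpositions;
* `pm n l : Perm (Fin n)`, `P n l : alternatingGroup (Fin n)` (for every `n ≥ m`, if the entries are `< m`);
* `Tg n gens` : the subgroup generated by the `P n g`;
* `inv ρ T` : the fixed points;
* `chkT` : the check of the table of a subgroup (elements as words in the generators, labels of the classes, conjugating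
  elements); `dimT` : the dimension of the fixed points.
-/

set_option autoImplicit false

namespace Cfsg.Agent.R2.T1.Odd

open Equiv Equiv.Perm Module
open Cfsg.Agent.R2.T1.Art
open Cfsg.Agent.H952.F4 (ev es)

/-- the action of a list of transpositions -/
def ap : List (ℕ × ℕ) → ℕ → ℕ
  | [], i => i
  | x :: l, i => (fun j => if Nat.beq j x.1 then x.2 else if Nat.beq j x.2 then x.1 else j) (ap l i)

/-- the code -/
def cd (m : ℕ) (l : List (ℕ × ℕ)) : List ℕ := (List.range m).map (ap l)

/-- a list of an even number of transpositions of points `< m` -/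
def vl (m : ℕ) (l : List (ℕ × ℕ)) : Bool :=
  Nat.beq (l.length % 2) 0 && l.all fun x => Nat.blt x.1 m && Nat.blt x.2 m && !(Nat.beq x.1 x.2)

theorem nb {a b : ℕ} : Nat.beq a b = true ↔ a = b := ⟨Nat.eq_of_beq_eq_true, fun h => h ▸ Nat.beq_refl _⟩

theorem nb' {a b : ℕ} (h : a ≠ b) : ¬ Nat.beq a b = true := fun h' => h (nb.1 h')

section pm
variable (n : ℕ) [NeZero n]

/-- the permutation -/
def pm (l : List (ℕ × ℕ)) : Perm (Fin n) := (l.map fun x => swap (Fin.ofNat n x.1) (Fin.ofNat n x.2)).prod

theorem pm_nil : pm n [] = 1 := rfl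

theorem pm_cons (x : ℕ × ℕ) (l : List (ℕ × ℕ)) : pm n (x :: l) = swap (Fin.ofNat n x.1) (Fin.ofNat n x.2) * pm n l := by
  rw [pm, List.map_cons, List.prod_cons]; rfl

theorem pm_append (l l' : List (ℕ × ℕ)) : pm n (l ++ l') = pm n l * pm n l' := by
  rw [pm, List.map_append, List.prod_append]; rfl

variable {n}

theorem ofNat_inj {a b : ℕ} (ha : a < n) (hb : b < n) (h : Fin.ofNat n a = Fin.ofNat n b) : a = b := by
  have h1 := congrArg Fin.val h
  rwa [Fin.val_ofNat, Fin.val_ofNat, Nat.mod_eq_of_lt ha, Nat.mod_eq_of_lt hb] at h1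

theorem val_ofNat' {a : ℕ} (ha : a < n) : (Fin.ofNat n a).val = a := by
  rw [Fin.val_ofNat, Nat.mod_eq_of_lt ha]

/-- all entries `< m` -/
def En (m : ℕ) (l : List (ℕ × ℕ)) : Prop := ∀ x ∈ l, x.1 < m ∧ x.2 < m ∧ x.1 ≠ x.2

theorem vl_iff {m : ℕ} {l : List (ℕ × ℕ)} : vl m l = true ↔ l.length % 2 = 0 ∧ En m l := by
  unfold vl En
  rw [Bool.and_eq_true, List.all_eq_true, nb]
  refine and_congr_right fun _ => forall_congr' fun x => imp_congr_right fun _ => ?_
  rw [Bool.and_eq_true, Bool.and_eq_true, Nat.blt_eq, Nat.blt_eq, Bool.not_eq_true', and_assoc]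
  refine and_congr_right fun _ => and_congr_right fun _ => ?_
  rw [← Bool.not_eq_true, nb]

theorem En.mono {m k : ℕ} (h : m ≤ k) {l : List (ℕ × ℕ)} (hl : En m l) : En k l := fun x hx =>
  ⟨(hl x hx).1.trans_le h, (hl x hx).2.1.trans_le h, (hl x hx).2.2⟩

theorem En.cons {m : ℕ} {x : ℕ × ℕ} {l : List (ℕ × ℕ)} (h : En m (x :: l)) : x.1 < m ∧ x.2 < m ∧ x.1 ≠ x.2 :=
  h x List.mem_cons_self

theorem En.tail {m : ℕ} {x : ℕ × ℕ} {l : List (ℕ × ℕ)} (h : En m (x :: l)) : En m l := fun y hy =>
  h y (List.mem_cons_of_mem x hy)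

theorem En.append {m : ℕ} {l l' : List (ℕ × ℕ)} (h : En m l) (h' : En m l') : En m (l ++ l') := fun x hx => by
  rcases List.mem_append.1 hx with hx | hx
  · exact h x hx
  · exact h' x hx

theorem ap_lt {m : ℕ} {l : List (ℕ × ℕ)} (hl : En m l) {i : ℕ} (hi : i < m) : ap l i < m := by
  induction l with
  | nil => exact hi
  | cons x l ih =>
    have h1 := ih hl.tail
    have h2 := hl.cons
    show (if Nat.beq (ap l i) x.1 then x.2 else if Nat.beq (ap l i) x.2 then x.1 else ap l i) < m
    split_ifs
    · exact h2.2.1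
    · exact h2.1
    · exact h1

theorem ap_ge {m : ℕ} {l : List (ℕ × ℕ)} (hl : En m l) {i : ℕ} (hi : m ≤ i) : ap l i = i := by
  induction l with
  | nil => rfl
  | cons x l ih =>
    have h1 := ih hl.tail
    have h2 := hl.cons
    show (if Nat.beq (ap l i) x.1 then x.2 else if Nat.beq (ap l i) x.2 then x.1 else ap l i) = i
    have h3 : i ≠ x.1 := by omega
    have h4 : i ≠ x.2 := by omega
    rw [h1, if_neg (nb' h3), if_neg (nb' h4)]

theorem pm_apply {l : List (ℕ × ℕ)} (hl : En n l) (i : Fin n) : (pm n l i).val = ap l i.val := by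
  induction l with
  | nil => rfl
  | cons x l ih =>
    have h1 := ih hl.tail
    have h2 := hl.cons
    rw [pm_cons, Perm.mul_apply]
    show _ = (if Nat.beq (ap l i) x.1 then x.2 else if Nat.beq (ap l i) x.2 then x.1 else ap l i)
    rw [← h1, swap_apply_def]
    by_cases h3 : pm n l i = Fin.ofNat n x.1
    · have h4 : (pm n l i).val = x.1 := by rw [h3, val_ofNat' h2.1]
      rw [if_pos h3, if_pos (nb.2 h4), val_ofNat' h2.2.1]
    · have h4 : (pm n l i).val ≠ x.1 := fun h5 => h3 (Fin.ext (by rw [h5, val_ofNat' h2.1]))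
      rw [if_neg h3, if_neg (nb' h4)]
      by_cases h5 : pm n l i = Fin.ofNat n x.2
      · have h6 : (pm n l i).val = x.2 := by rw [h5, val_ofNat' h2.2.1]
        rw [if_pos h5, if_pos (nb.2 h6), val_ofNat' h2.1]
      · have h6 : (pm n l i).val ≠ x.2 := fun h7 => h5 (Fin.ext (by rw [h7, val_ofNat' h2.2.1]))
        rw [if_neg h5, if_neg (nb' h6)]

theorem pm_eq {m : ℕ} (hm : m ≤ n) {l l' : List (ℕ × ℕ)} (hl : En m l) (hl' : En m l') (h : cd m l = cd m l') :
    pm n l = pm n l' := by
  refine Perm.ext fun i => Fin.ext ?_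
  rw [pm_apply (hl.mono hm), pm_apply (hl'.mono hm)]
  by_cases hi : i.val < m
  · have h1 : (cd m l)[i.val]? = (cd m l')[i.val]? := by rw [h]
    unfold cd at h1
    rw [List.getElem?_map, List.getElem?_map, List.getElem?_range hi] at h1
    exact Option.some.inj h1
  · rw [ap_ge hl (by omega), ap_ge hl' (by omega)]

theorem cd_eq {m : ℕ} (hm : m ≤ n) {l l' : List (ℕ × ℕ)} (hl : En m l) (hl' : En m l') (h : pm n l = pm n l') :
    cd m l = cd m l' := by
  unfold cd
  refine List.map_congr_left fun i hi => ?_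
  have hi' : i < m := List.mem_range.1 hi
  have h1 := pm_apply (hl.mono hm) ⟨i, hi'.trans_le hm⟩
  have h2 := pm_apply (hl'.mono hm) ⟨i, hi'.trans_le hm⟩
  rw [← h1, ← h2, h]

theorem sign_pm {l : List (ℕ × ℕ)} (hl : En n l) : sign (pm n l) = (-1) ^ l.length := by
  induction l with
  | nil => rw [pm_nil, Perm.sign_one]; rfl
  | cons x l ih =>
    have h2 := hl.cons
    rw [pm_cons, Perm.sign_mul, ih hl.tail, sign_swap fun h => h2.2.2 (ofNat_inj h2.1 h2.2.1 h), List.length_cons, pow_succ']

theorem pm_mem {m : ℕ} (hm : m ≤ n) {l : List (ℕ × ℕ)} (h : vl m l = true) : pm n l ∈ alternatingGroup (Fin n) := by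
  rw [vl_iff] at h
  rw [mem_alternatingGroup, sign_pm (h.2.mono hm), Even.neg_one_pow (Nat.even_iff.2 h.1)]

variable (n) in
open Classical in
/-- the even permutation -/
noncomputable def P (l : List (ℕ × ℕ)) : ↥(alternatingGroup (Fin n)) :=
  if h : pm n l ∈ alternatingGroup (Fin n) then ⟨pm n l, h⟩ else 1

theorem coe_P {m : ℕ} (hm : m ≤ n) {l : List (ℕ × ℕ)} (h : vl m l = true) : ((P n l : ↥(alternatingGroup (Fin n))) : Perm (Fin n)) = pm n l := by
  rw [P, dif_pos (pm_mem hm h)]

theorem vl_append {m : ℕ} {l l' : List (ℕ × ℕ)} (h : vl m l = true) (h' : vl m l' = true) : vl m (l ++ l') = true := by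
  rw [vl_iff] at *
  refine ⟨?_, h.2.append h'.2⟩
  rw [List.length_append]
  omega

theorem P_append {m : ℕ} (hm : m ≤ n) {l l' : List (ℕ × ℕ)} (h : vl m l = true) (h' : vl m l' = true) :
    P n (l ++ l') = P n l * P n l' := by
  apply Subtype.ext
  rw [coe_P hm (vl_append h h'), Subgroup.coe_mul, coe_P hm h, coe_P hm h', pm_append]

theorem P_nil : P n [] = 1 := by
  apply Subtype.ext
  rw [coe_P (m := 0) (by omega) (by decide)]
  rfl

theorem P_eq_iff {m : ℕ} (hm : m ≤ n) {l l' : List (ℕ × ℕ)} (h : vl m l = true) (h' : vl m l' = true) :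
    P n l = P n l' ↔ cd m l = cd m l' := by
  constructor
  · intro h1
    apply cd_eq hm (vl_iff.1 h).2 (vl_iff.1 h').2
    rw [← coe_P hm h, ← coe_P hm h', h1]
  · intro h1
    apply Subtype.ext
    rw [coe_P hm h, coe_P hm h']
    exact pm_eq hm (vl_iff.1 h).2 (vl_iff.1 h').2 h1

end pm

/-! ### fixed points -/

section inv
variable {F : Type*} [Field F] {W : Type*} [AddCommGroup W] [Module F W] {X : Type*} [Group X]

/-- the fixed points of a subgroup -/
def inv (ρ : Representation F X W) (T : Subgroup X) : Submodule F W where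
  carrier := {v | ∀ x ∈ T, ρ x v = v}
  add_mem' := fun ha hb x hx => by rw [map_add, ha x hx, hb x hx]
  zero_mem' := fun x _ => map_zero _
  smul_mem' := fun c v hv x hx => by rw [map_smul, hv x hx]

theorem mem_inv {ρ : Representation F X W} {T : Subgroup X} {v : W} : v ∈ inv ρ T ↔ ∀ x ∈ T, ρ x v = v := Iff.rfl

theorem inv_mono {ρ : Representation F X W} {T T' : Subgroup X} (h : T ≤ T') : inv ρ T' ≤ inv ρ T :=
  fun _ hv x hx => hv x (h hx)

theorem inv_eq_invariants (ρ : Representation F X W) (T : Subgroup X) :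
    inv ρ T = Representation.invariants (MonoidHom.comp ρ T.subtype) := by
  ext v
  rw [mem_inv, Representation.mem_invariants]
  exact ⟨fun h x => h x x.2, fun h x hx => h ⟨x, hx⟩⟩

theorem mem_inv_closure {ρ : Representation F X W} {S : Set X} {v : W} :
    v ∈ inv ρ (Subgroup.closure S) ↔ ∀ x ∈ S, ρ x v = v := by
  constructor
  · exact fun h x hx => h x (Subgroup.subset_closure hx)
  · intro h x hx
    let R : Subgroup X :=
      { carrier := {g | ρ g v = v}
        one_mem' := by show ρ 1 v = v; rw [map_one]; rfl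
        mul_mem' := by
          intro a b ha hb
          show ρ (a * b) v = v
          rw [map_mul, Module.End.mul_apply, show ρ b v = v from hb, show ρ a v = v from ha]
        inv_mem' := by
          intro a ha
          show ρ a⁻¹ v = v
          have h1 : ρ a⁻¹ (ρ a v) = v := by rw [← Module.End.mul_apply, ← map_mul, inv_mul_cancel, map_one]; rfl
          rwa [show ρ a v = v from ha] at h1 }
    exact (Subgroup.closure_le R).2 (fun y hy => h y hy) hx

end inv

/-! ### explicit subgroups -/

section tab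
variable (n : ℕ) [NeZero n]

/-- the subgroup generated by a list -/
noncomputable def Tg (gens : List (List (ℕ × ℕ))) : Subgroup ↥(alternatingGroup (Fin n)) :=
  Subgroup.closure {x | ∃ g ∈ gens, P n g = x}

/-- the word in the generators -/
def wd (gens : List (List (ℕ × ℕ))) (w : List ℕ) : List (ℕ × ℕ) := (w.map fun i => gens.getD i []).flatten

/-- the check of the elements of a subgroup: `els` are words in the generators -/
def chkG (m : ℕ) (gens : List (List (ℕ × ℕ))) (els : List (List ℕ)) : Bool :=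
  let C := els.map fun w => cd m (wd gens w)
  gens.all (vl m) && decide C.Nodup && els.contains [] &&
    gens.all fun g => els.all fun w => C.contains (cd m (g ++ wd gens w))

/-- the check of the classes of the coset `T r` -/
def chkC (m : ℕ) (gens : List (List (ℕ × ℕ))) (els : List (List ℕ)) (r : List (ℕ × ℕ)) (reps : List (List (ℕ × ℕ)))
    (dat : List (ℕ × List (ℕ × ℕ))) : Bool :=
  Nat.beq els.length dat.length && vl m r && reps.all (vl m) &&
    dat.all (fun d => vl m d.2 && Nat.blt d.1 reps.length) &&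
    (els.zip dat).all fun e => cd m (wd gens e.1 ++ (r ++ e.2.2)) == cd m (e.2.2 ++ reps.getD e.2.1 [])

variable {n}

theorem wd_nil (gens : List (List (ℕ × ℕ))) : wd gens [] = [] := rfl

theorem wd_cons (gens : List (List (ℕ × ℕ))) (i : ℕ) (w : List ℕ) : wd gens (i :: w) = gens.getD i [] ++ wd gens w := rfl

theorem vl_getD {m : ℕ} {gens : List (List (ℕ × ℕ))} (h : gens.all (vl m) = true) (i : ℕ) : vl m (gens.getD i []) = true := by
  by_cases hi : i < gens.length
  · rw [List.getD_eq_getElem _ _ hi]
    exact List.all_eq_true.1 h _ (List.getElem_mem hi)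
  · rw [List.getD_eq_default _ _ (by omega)]
    rfl

theorem vl_wd {m : ℕ} {gens : List (List (ℕ × ℕ))} (h : gens.all (vl m) = true) (w : List ℕ) : vl m (wd gens w) = true := by
  induction w with
  | nil => rfl
  | cons i w ih => rw [wd_cons]; exact vl_append (vl_getD h i) ih

theorem P_getD_mem {gens : List (List (ℕ × ℕ))} (i : ℕ) : P n (gens.getD i []) ∈ Tg n gens := by
  by_cases hi : i < gens.length
  · rw [List.getD_eq_getElem _ _ hi]
    exact Subgroup.subset_closure ⟨_, List.getElem_mem hi, rfl⟩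
  · rw [List.getD_eq_default _ _ (by omega), P_nil]
    exact one_mem _

theorem P_wd_mem {m : ℕ} (hm : m ≤ n) {gens : List (List (ℕ × ℕ))} (h : gens.all (vl m) = true) (w : List ℕ) :
    P n (wd gens w) ∈ Tg n gens := by
  induction w with
  | nil => rw [wd_nil, P_nil]; exact one_mem _
  | cons i w ih =>
    rw [wd_cons, P_append hm (vl_getD h i) (vl_wd h w)]
    exact mul_mem (P_getD_mem i) ih

variable {m : ℕ} {gens : List (List (ℕ × ℕ))} {els : List (List ℕ)}

theorem chkG_spec (h : chkG m gens els = true) : gens.all (vl m) = true ∧ (els.map fun w => cd m (wd gens w)).Nodup ∧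
    [] ∈ els ∧ ∀ g ∈ gens, ∀ w ∈ els, ∃ w' ∈ els, cd m (wd gens w') = cd m (g ++ wd gens w) := by
  unfold chkG at h
  simp only [Bool.and_eq_true, decide_eq_true_eq, List.contains_iff_mem] at h
  obtain ⟨⟨⟨h1, h2⟩, h3⟩, h4⟩ := h
  refine ⟨h1, h2, h3, fun g hg w hw => ?_⟩
  have h5 := List.all_eq_true.1 (List.all_eq_true.1 h4 g hg) w hw
  rw [List.contains_iff_mem] at h5
  obtain ⟨w', hw', h6⟩ := List.mem_map.1 h5
  exact ⟨w', hw', h6⟩

/-- the elements of the subgroup -/
theorem mem_Tg_iff (hm : m ≤ n) (h : chkG m gens els = true) (x : ↥(alternatingGroup (Fin n))) :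
    x ∈ Tg n gens ↔ ∃ w ∈ els, P n (wd gens w) = x := by
  obtain ⟨h1, h2, h3, h4⟩ := chkG_spec h
  constructor
  · let S : Set ↥(alternatingGroup (Fin n)) := {x | ∃ w ∈ els, P n (wd gens w) = x}
    have hS : S.Finite := by
      have h5 : S = (fun w => P n (wd gens w)) '' {w | w ∈ els} := by
        ext x; simp [S]
      rw [h5]
      exact (List.finite_toSet els).image _
    have hcl : ∀ g ∈ gens, ∀ x ∈ S, P n g * x ∈ S := by
      rintro g hg x ⟨w, hw, rfl⟩
      obtain ⟨w', hw', h5⟩ := h4 g hg w hw
      refine ⟨w', hw', ?_⟩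
      have hvg : vl m g = true := List.all_eq_true.1 h1 g hg
      rw [← P_append hm hvg (vl_wd h1 w), P_eq_iff hm (vl_wd h1 w') (vl_append hvg (vl_wd h1 w)), h5]
    let R : Subgroup ↥(alternatingGroup (Fin n)) :=
      { carrier := {g | ∀ x, g * x ∈ S ↔ x ∈ S}
        one_mem' := fun x => by rw [one_mul]
        mul_mem' := fun {a b} ha hb x => by rw [mul_assoc, ha, hb]
        inv_mem' := fun {a} ha x => by rw [← ha, mul_inv_cancel_left] }
    have hR : Tg n gens ≤ R := by
      unfold Tg
      rw [Subgroup.closure_le]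
      rintro _ ⟨g, hg, rfl⟩ x
      have hmaps : Set.MapsTo (fun x => P n g * x) S S := fun x hx => hcl g hg x hx
      constructor
      · intro hx
        have himg : (fun x => P n g * x) '' S = S := by
          have h6 : (fun x => P n g * x) '' S ⊆ S := Set.image_subset_iff.2 hmaps
          have h7 : S.ncard ≤ ((fun x => P n g * x) '' S).ncard := by
            rw [Set.ncard_image_of_injective _ fun a b hab => mul_left_cancel hab]
          exact Set.eq_of_subset_of_ncard_le h6 h7 hS
        have hx' : P n g * x ∈ (fun x => P n g * x) '' S := by rw [himg]; exact hx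
        obtain ⟨y, hy, hyx⟩ := hx'
        rwa [← mul_left_cancel (show P n g * y = P n g * x from hyx)]
      · exact fun hx => hmaps hx
    intro hx
    have h5 := (hR hx 1).2 ⟨[], h3, by rw [wd_nil, P_nil]⟩
    rwa [mul_one] at h5
  · rintro ⟨w, -, rfl⟩
    exact P_wd_mem hm h1 w

/-- sums over the subgroup -/
theorem sum_Tg {M : Type*} [AddCommMonoid M] (hm : m ≤ n) (h : chkG m gens els = true) [Fintype ↥(Tg n gens)]
    (f : ↥(alternatingGroup (Fin n)) → M) : ∑ x : ↥(Tg n gens), f x = (els.map fun w => f (P n (wd gens w))).sum := by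
  classical
  obtain ⟨h1, h2, h3, h4⟩ := chkG_spec h
  have hnd : (els.map fun w => P n (wd gens w)).Nodup := by
    have h5 : Function.Injective fun l : List ℕ => l := fun _ _ h => h
    rw [List.nodup_map_iff_inj_on (List.Nodup.of_map _ h2)]
    intro a ha b hb hab
    rw [P_eq_iff hm (vl_wd h1 a) (vl_wd h1 b)] at hab
    exact (List.inj_on_of_nodup_map h2) ha hb hab
  have h5 : (Finset.univ.filter fun x => x ∈ Tg n gens) = (els.map fun w => P n (wd gens w)).toFinset := by
    ext x
    rw [Finset.mem_filter, List.mem_toFinset, List.mem_map, and_iff_right (Finset.mem_univ x), mem_Tg_iff hm h]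
  rw [← Finset.sum_subtype (Finset.univ.filter fun x => x ∈ Tg n gens) (fun x => by
    rw [Finset.mem_filter, and_iff_right (Finset.mem_univ x)]) f, h5, List.sum_toFinset _ hnd, List.map_map]
  rfl

theorem card_Tg (hm : m ≤ n) (h : chkG m gens els = true) [Fintype ↥(Tg n gens)] :
    Fintype.card ↥(Tg n gens) = els.length := by
  have h1 := sum_Tg hm h (fun _ => (1 : ℕ))
  rw [Finset.sum_const, Finset.card_univ, smul_eq_mul, mul_one] at h1
  rw [h1, List.map_const', List.sum_replicate, smul_eq_mul, mul_one]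

theorem zip_sum {α β M : Type*} [AddCommMonoid M] (f : α → M) (g : β → M) : ∀ (l : List α) (l' : List β),
    l.length = l'.length → (∀ e ∈ l.zip l', f e.1 = g e.2) → (l.map f).sum = (l'.map g).sum := by
  intro l
  induction l with
  | nil =>
    intro l' h _
    have h1 : l' = [] := List.length_eq_zero_iff.1 h.symm
    rw [h1]; rfl
  | cons a l ih =>
    intro l' h h1
    cases l' with
    | nil => simp at h
    | cons b l' =>
      rw [List.map_cons, List.sum_cons, List.map_cons, List.sum_cons, h1 (a, b) (by simp),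
        ih l' (by simpa using h) fun e he => h1 e (by simp [he])]

theorem sum_count {M : Type*} [AddCommMonoid M] (f : ℕ → M) (K : ℕ) (l : List ℕ) (h : ∀ a ∈ l, a < K) :
    (l.map f).sum = ∑ k ∈ Finset.range K, l.count k • f k := by
  induction l with
  | nil => simp
  | cons a l ih =>
    rw [List.map_cons, List.sum_cons, ih fun b hb => h b (List.mem_cons_of_mem a hb)]
    have ha : a < K := h a List.mem_cons_self
    have h1 : ∀ k ∈ Finset.range K, (a :: l).count k • f k = (if k = a then f a else 0) + l.count k • f k := by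
      intro k _
      rw [List.count_cons, add_smul, add_comm]
      congr 1
      by_cases hk : k = a
      · subst hk; simp
      · have h2 : ¬ (a == k) = true := by simpa using fun h => hk h.symm
        rw [if_neg h2, if_neg hk, zero_smul]
    rw [Finset.sum_congr rfl h1, Finset.sum_add_distrib, Finset.sum_ite_eq' (Finset.range K) a,
      if_pos (Finset.mem_range.2 ha)]

/-- sums of class functions over cosets -/
theorem sum_cls {M : Type*} [AddCommMonoid M] (hm : m ≤ n) (h : chkG m gens els = true) {r : List (ℕ × ℕ)}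
    {reps : List (List (ℕ × ℕ))} {dat : List (ℕ × List (ℕ × ℕ))} (hC : chkC m gens els r reps dat = true)
    [Fintype ↥(Tg n gens)] (f : ↥(alternatingGroup (Fin n)) → M) (hf : ∀ g x, f (g * x * g⁻¹) = f x) :
    ∑ x : ↥(Tg n gens), f (x * P n r) =
      ∑ k ∈ Finset.range reps.length, (dat.map Prod.fst).count k • f (P n (reps.getD k [])) := by
  obtain ⟨h1, -, -, -⟩ := chkG_spec h
  unfold chkC at hC
  simp only [Bool.and_eq_true] at hC
  obtain ⟨⟨⟨⟨c1, c2⟩, c3⟩, c4⟩, c5⟩ := hC
  have c1' := nb.1 c1
  have c4' : ∀ d ∈ dat, vl m d.2 = true ∧ d.1 < reps.length := fun d hd => by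
    have h2 := List.all_eq_true.1 c4 d hd
    rw [Bool.and_eq_true, Nat.blt_eq] at h2
    exact h2
  rw [sum_Tg hm h (fun x => f (x * P n r)),
    zip_sum _ (fun d : ℕ × List (ℕ × ℕ) => f (P n (reps.getD d.1 []))) els dat c1' ?_]
  · rw [← sum_count (fun k => f (P n (reps.getD k []))) reps.length (dat.map Prod.fst) ?_, List.map_map]
    · rfl
    · intro a ha
      obtain ⟨d, hd, rfl⟩ := List.mem_map.1 ha
      exact (c4' d hd).2
  · intro e he
    have h2 := List.all_eq_true.1 c5 e he
    have h3 := eq_of_beq h2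
    have he2 := c4' e.2 (List.of_mem_zip he).2
    have hw := vl_wd h1 e.1
    have hr := vl_getD c3 e.2.1
    have h4 := (P_eq_iff (n := n) hm (vl_append hw (vl_append c2 he2.1)) (vl_append he2.1 hr)).2 h3
    rw [P_append hm hw (vl_append c2 he2.1), P_append hm c2 he2.1, P_append hm he2.1 hr, ← mul_assoc] at h4
    show f (P n (wd gens e.1) * P n r) = f (P n (reps.getD e.2.1 []))
    rw [← hf (P n e.2.2) (P n (reps.getD e.2.1 [])), ← h4, mul_inv_cancel_right]

section dim
variable {F : Type*} [Field F] {W : Type*} [AddCommGroup W] [Module F W]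

theorem om_conj {X : Type*} [Group X] (ρ : Representation F X W) (g x : X) : om ρ (g * x * g⁻¹) = om ρ x := by
  unfold om
  have h1 : orderOf (g * x * g⁻¹) = orderOf x := by
    have h2 := MulAut.conj_apply g x
    rw [← h2]
    exact orderOf_injective (MulAut.conj g).toMonoidHom (MulAut.conj g).injective x
  rw [h1]
  congr 1
  refine Finset.sum_congr rfl fun a _ => ?_
  have h3 : (g * x * g⁻¹) ^ a.1 = g * x ^ a.1 * g⁻¹ := by
    rw [← MulAut.conj_apply, ← map_pow, MulAut.conj_apply]
  rw [h3, Cfsg.Agent.H944.E6T.ev_conj]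

/-- **the dimension of the fixed points of an explicit subgroup** -/
theorem dimT [Finite F] [FiniteDimensional F W] (hm : m ≤ n) (h : chkG m gens els = true) {reps : List (List (ℕ × ℕ))}
    {dat : List (ℕ × List (ℕ × ℕ))} (hC : chkC m gens els [] reps dat = true) (hF : ((els.length : ℕ) : F) ≠ 0)
    (ρ : Representation F ↥(alternatingGroup (Fin n)) W) :
    (els.length : ℚ) * (finrank F ↥(inv ρ (Tg n gens)) : ℚ) =
      ∑ k ∈ Finset.range reps.length, ((dat.map Prod.fst).count k : ℚ) * om ρ (P n (reps.getD k [])) := by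
  classical
  have := Fintype.ofFinite ↥(Tg n gens)
  have h1 := artin (T := ↥(Tg n gens)) (by rw [card_Tg hm h]; exact hF) (MonoidHom.comp ρ (Tg n gens).subtype)
  rw [card_Tg hm h, ← inv_eq_invariants] at h1
  rw [h1]
  have h2 : ∀ x : ↥(Tg n gens), om (MonoidHom.comp ρ (Tg n gens).subtype) x =
      (fun y => om ρ y) ((x : ↥(alternatingGroup (Fin n))) * P n []) := by
    intro x
    rw [om_comp ρ (Tg n gens).subtype (Subgroup.subtype_injective _), P_nil, mul_one]
    rfl
  rw [Finset.sum_congr rfl fun x _ => h2 x, sum_cls hm h hC _ (om_conj ρ)]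
  refine Finset.sum_congr rfl fun k _ => ?_
  rw [nsmul_eq_mul]

end dim

end tab

end Cfsg.Agent.R2.T1.Odd
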