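import Cfsg.Agent.R2.T1.Odd.Col

/-!
# S5771, ODD5 (O6): `E ρ(g)` is a scalar on `U` for every `g ∈ A_n`, `8 ≤ n ≤ 10`; reducibility (helper11)

* `all_scal` : `∃ c, ∀ u ∈ U, E (ρ(g) u) = c u`;
* `exists_sub` : a proper non-zero stable subspace.
-/

set_option autoImplicit false
set_option maxRecDepth 100000

namespace Cfsg.Agent.R2.T1.Odd

open Cfsg Cfsg.Lie Module Equiv Equiv.Perm

universe u v

/-! ### words -/

theorem mem_enum : ∀ (k : ℕ) (a b c : ℕ) (l : List ℕ), l.length = k → l.count 0 = a → l.count 1 = b → l.count 2 = c →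
    (∀ x ∈ l, x < 3) → l ∈ enum k a b c := by
  intro k
  induction k with
  | zero =>
    intro a b c l hl _ _ _ _
    have h1 : l = [] := List.length_eq_zero_iff.1 hl
    rw [h1]
    simp [enum]
  | succ k ih =>
    intro a b c l hl ha hb hc hx
    match l, hl with
    | x :: l, hl =>
      have hl' : l.length = k := by rw [List.length_cons] at hl; omega
      have hx' : ∀ y ∈ l, y < 3 := fun y hy => hx y (List.mem_cons_of_mem _ hy)
      have h3 := hx x List.mem_cons_self
      have hx3 : x = 0 ∨ x = 1 ∨ x = 2 := by omega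
      rcases hx3 with rfl | rfl | rfl
      · rw [List.count_cons_self] at ha
        rw [List.count_cons_of_ne (by decide)] at hb hc
        subst ha
        unfold enum
        rw [List.mem_append]
        exact Or.inl (List.mem_map.2 ⟨l, ih _ _ _ l hl' rfl hb hc hx', rfl⟩)
      · rw [List.count_cons_self] at hb
        rw [List.count_cons_of_ne (by decide)] at ha hc
        subst hb
        unfold enum
        rw [List.mem_append, List.mem_append]
        exact Or.inr (Or.inl (List.mem_map.2 ⟨l, ih _ _ _ l hl' ha rfl hc hx', rfl⟩))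
      · rw [List.count_cons_self] at hc
        rw [List.count_cons_of_ne (by decide)] at ha hb
        subst hc
        unfold enum
        rw [List.mem_append, List.mem_append]
        exact Or.inr (Or.inr (List.mem_map.2 ⟨l, ih _ _ _ l hl' ha hb rfl hx', rfl⟩))

/-! ### the colouring of an element -/

section
variable {n : ℕ}

/-- the colouring `col ∘ g⁻¹` -/
def cw (g : Perm (Fin n)) : List ℕ := List.ofFn fun i : Fin n => col (g⁻¹ i).val

theorem cw_getD (g : Perm (Fin n)) (i : Fin n) : (cw g).getD i.val 3 = col (g⁻¹ i).val := by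
  unfold cw
  rw [List.getD_eq_getElem _ _ (by rw [List.length_ofFn]; exact i.2), List.getElem_ofFn]

theorem col_lt (i : ℕ) : col i < 3 := by
  unfold col
  split_ifs <;> norm_num

theorem cw_perm (g : Perm (Fin n)) : (cw g).Perm (List.ofFn fun i : Fin n => col i.val) := by
  have h := Equiv.Perm.ofFn_comp_perm g⁻¹ (fun i : Fin n => col i.val)
  exact h

theorem cw_mem {a b c : ℕ} (ha : (List.ofFn fun i : Fin n => col i.val).count 0 = a)
    (hb : (List.ofFn fun i : Fin n => col i.val).count 1 = b) (hc : (List.ofFn fun i : Fin n => col i.val).count 2 = c)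
    (g : Perm (Fin n)) : cw g ∈ enum n a b c := by
  have h := cw_perm g
  apply mem_enum
  · rw [cw, List.length_ofFn]
  · rw [h.count_eq, ha]
  · rw [h.count_eq, hb]
  · rw [h.count_eq, hc]
  · intro x hx
    obtain ⟨i, rfl⟩ := (List.mem_ofFn' _ _).1 hx
    exact col_lt _

end

/-! ### colour preserving elements -/

section act
variable {n : ℕ} [NeZero n] {F : Type u} [Field F] {W : Type v} [AddCommGroup W] [Module F W]
  {ρ : Representation F ↥(alternatingGroup (Fin n)) W} {B : W →ₗ[F] W →ₗ[F] F}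

theorem col_val (k : ℕ) : (k < 4 → col k = 0) ∧ (4 ≤ k → k < 8 → col k = 1) ∧ (8 ≤ k → col k = 2) := by
  unfold col
  simp only [Nat.blt_eq]
  refine ⟨fun h => ?_, fun h h' => ?_, fun h => ?_⟩
  · rw [if_pos h]
  · rw [if_neg (by omega), if_pos h']
  · rw [if_neg (by omega), if_neg (by omega)]

theorem bl_of_col {i j : ℕ} (h : col i = col j) (hij : 8 ≤ j → i = j) : bl i = bl j := by
  obtain ⟨i0, i1, i2⟩ := col_val i
  obtain ⟨j0, j1, j2⟩ := col_val j
  unfold bl
  rcases Nat.lt_or_ge i 4 with hi | hi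
  · rcases Nat.lt_or_ge j 4 with hj | hj
    · rw [if_pos (by omega), if_pos (by omega)]; omega
    · rcases Nat.lt_or_ge j 8 with hj' | hj'
      · rw [i0 hi, j1 hj hj'] at h; omega
      · rw [i0 hi, j2 hj'] at h; omega
  · rcases Nat.lt_or_ge i 8 with hi' | hi'
    · rcases Nat.lt_or_ge j 4 with hj | hj
      · rw [i1 hi hi', j0 hj] at h; omega
      · rcases Nat.lt_or_ge j 8 with hj' | hj'
        · rw [if_pos (by omega), if_pos (by omega)]; omega
        · rw [i1 hi hi', j2 hj'] at h; omega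
    · rcases Nat.lt_or_ge j 8 with hj | hj
      · rcases Nat.lt_or_ge j 4 with hj' | hj'
        · rw [i2 hi', j0 hj'] at h; omega
        · rw [i2 hi', j1 hj' hj] at h; omega
      · rw [hij hj]

theorem col_eq_two {i : ℕ} : col i = 2 ↔ 8 ≤ i := by
  obtain ⟨i0, i1, i2⟩ := col_val i
  constructor
  · intro h
    by_contra h1
    rcases Nat.lt_or_ge i 4 with hi | hi
    · rw [i0 hi] at h; omega
    · rw [i1 hi (by omega)] at h; omega
  · exact i2

/-- elements fixing the last points -/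
theorem act_fix (hn : 8 ≤ n) (hC : CfgU ρ B) {d : ↥(alternatingGroup (Fin n))}
    (hd : ∀ i, col ((d : Perm (Fin n)) i).val = col i.val) (h8 : ∀ i : Fin n, 8 ≤ i.val → (d : Perm (Fin n)) i = i) {u : W}
    (hu : u ∈ inv ρ (Tg n gQ)) : ρ d u = u :=
  triv hn hC (fun i => bl_of_col (hd i) fun h => by rw [h8 i h]) hu

/-- elements exchanging the last two points, `n = 10` -/
theorem act_swap {ρ : Representation F ↥(alternatingGroup (Fin 10)) W} (hC : CfgU ρ B)
    (hq : ∀ u ∈ inv ρ (Tg 10 gQ), ρ (P 10 [(8, 9), (0, 1)]) u = -u) {d : ↥(alternatingGroup (Fin 10))}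
    (hd : ∀ i, col ((d : Perm (Fin 10)) i).val = col i.val) (h8 : (d : Perm (Fin 10)) 8 = 9) {u : W}
    (hu : u ∈ inv ρ (Tg 10 gQ)) : ρ d u = -u := by
  have hv : vl 10 [(8, 9), (0, 1)] = true := by decide
  have hap : ∀ i : Fin 10, ((P 10 [(8, 9), (0, 1)] : Perm (Fin 10)) i).val = ap [(8, 9), (0, 1)] i.val := fun i => by
    rw [coe_P le_rfl hv, pm_apply (vl_iff.1 hv).2]
  have h9 : (d : Perm (Fin 10)) 9 = 8 := by
    have h1 : 8 ≤ ((d : Perm (Fin 10)) 9).val := col_eq_two.1 ((hd 9).trans (by decide))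
    have h2 : (d : Perm (Fin 10)) 9 ≠ 9 := by
      intro h
      exact absurd ((d : Perm (Fin 10)).injective (h.trans h8.symm)) (by decide)
    apply Fin.ext
    have h3 := ((d : Perm (Fin 10)) 9).2
    have h4 : ((d : Perm (Fin 10)) 9).val ≠ 9 := fun h => h2 (Fin.ext h)
    show ((d : Perm (Fin 10)) 9).val = 8
    omega
  have h1 : ρ (d * P 10 [(8, 9), (0, 1)]) u = u := by
    apply act_fix (by norm_num) hC _ _ hu
    · intro i
      rw [Subgroup.coe_mul, Perm.mul_apply, hd, hap]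
      have key : ∀ i < 10, col (ap [(8, 9), (0, 1)] i) = col i := by decide
      exact key _ i.2
    · intro i hi
      rw [Subgroup.coe_mul, Perm.mul_apply]
      have hi' : i = 8 ∨ i = 9 := by
        have := i.2
        rcases Nat.lt_or_ge i.val 9 with h | h
        · exact Or.inl (Fin.ext (show i.val = 8 by omega))
        · exact Or.inr (Fin.ext (show i.val = 9 by omega))
      rcases hi' with rfl | rfl
      · have h2 : (P 10 [(8, 9), (0, 1)] : Perm (Fin 10)) 8 = 9 := Fin.ext (by rw [hap]; decide)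
        rw [h2, h9]
      · have h2 : (P 10 [(8, 9), (0, 1)] : Perm (Fin 10)) 9 = 8 := Fin.ext (by rw [hap]; decide)
        rw [h2, h8]
  rw [ρ_mul, hq u hu, map_neg] at h1
  rw [← h1, neg_neg, h1]

/-- colour preserving elements act as scalars -/
theorem act_col (hn : 8 ≤ n) (hn' : n ≤ 10) (hC : CfgU ρ B)
    (hq : n = 10 → ∀ u ∈ inv ρ (Tg n gQ), ρ (P n [(8, 9), (0, 1)]) u = -u) {d : ↥(alternatingGroup (Fin n))}
    (hd : ∀ i, col ((d : Perm (Fin n)) i).val = col i.val) : ∃ ε : F, ∀ u ∈ inv ρ (Tg n gQ), ρ d u = ε • u := by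
  by_cases h8 : ∀ i : Fin n, 8 ≤ i.val → (d : Perm (Fin n)) i = i
  · exact ⟨1, fun u hu => by rw [act_fix hn hC hd h8 hu, one_smul]⟩
  · push Not at h8
    obtain ⟨i, hi, hne⟩ := h8
    have h1 : 8 ≤ ((d : Perm (Fin n)) i).val := col_eq_two.1 ((hd i).trans (col_eq_two.2 hi))
    have h2 : ((d : Perm (Fin n)) i).val ≠ i.val := fun h => hne (Fin.ext h)
    have h3 := ((d : Perm (Fin n)) i).2
    have h4 := i.2
    have h10 : n = 10 := by omega
    subst h10
    refine ⟨-1, fun u hu => ?_⟩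
    rw [neg_one_smul]
    apply act_swap hC (hq rfl) hd _ hu
    by_cases h5 : i.val = 8
    · have h6 : i = 8 := Fin.ext h5
      subst h6
      apply Fin.ext
      show ((d : Perm (Fin 10)) 8).val = 9
      omega
    · have h6 : i = 9 := Fin.ext (show i.val = 9 by omega)
      have h7 : ((d : Perm (Fin 10)) 9) = 8 := by
        apply Fin.ext
        show ((d : Perm (Fin 10)) 9).val = 8
        rw [← h6]
        omega
      have h8 : 8 ≤ ((d : Perm (Fin 10)) 8).val := col_eq_two.1 ((hd 8).trans (show col 8 = 2 by decide))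
      have h9 : (d : Perm (Fin 10)) 8 ≠ 8 := by
        intro h
        have h10 := congrArg Fin.val ((d : Perm (Fin 10)).injective (h.trans h7.symm))
        have h11 : (8 : ℕ) = 9 := h10
        omega
      have h11 : ((d : Perm (Fin 10)) 8).val ≠ 8 := fun h => h9 (Fin.ext h)
      have h12 := ((d : Perm (Fin 10)) 8).2
      apply Fin.ext
      show ((d : Perm (Fin 10)) 8).val = 9
      omega

/-- elements exchanging the colours 0 and 1 act as scalars -/
theorem act_cs (hn : 8 ≤ n) (hn' : n ≤ 10) (hC : CfgU ρ B)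
    (hq : n = 10 → ∀ u ∈ inv ρ (Tg n gQ), ρ (P n [(8, 9), (0, 1)]) u = -u) {d : ↥(alternatingGroup (Fin n))}
    (hd : ∀ i, col ((d : Perm (Fin n)) i).val = cs (col i.val)) : ∃ ε : F, ∀ u ∈ inv ρ (Tg n gQ), ρ d u = ε • u := by
  have hv : vl 8 ls' = true := by decide
  have hE := (vl_iff.1 hv).2
  obtain ⟨ε, h1⟩ := act_col hn hn' hC hq (d := d * P n ls') (by
    intro i
    rw [Subgroup.coe_mul, Perm.mul_apply, hd, coe_P hn hv, pm_apply (hE.mono hn)]
    have key : ∀ i < 10, cs (col (ap ls' i)) = col i := by decide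
    exact key _ (i.2.trans_le hn'))
  refine ⟨-ε, fun u hu => ?_⟩
  have h2 := h1 u hu
  rw [ρ_mul, swap_neg hn hC hu, map_neg] at h2
  rw [neg_smul, ← h2, neg_neg]

/-- `E` commutes with elements acting as scalars -/
theorem comm_EE (hn : 8 ≤ n) (hC : CfgU ρ B) {d : ↥(alternatingGroup (Fin n))} {ε : F}
    (hd : ∀ u ∈ inv ρ (Tg n gQ), ρ d u = ε • u) (w : W) : EE ρ (ρ d⁻¹ w) = ε • EE ρ w := by
  have h1 : EE ρ (ρ d⁻¹ w) - ε • EE ρ w = 0 := by
    apply nd_U hn hC _ (sub_mem (EE_mem _) (Submodule.smul_mem _ _ (EE_mem _)))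
    intro v hv
    have h2 : B (EE ρ (ρ d⁻¹ w)) v = 16 * (ε * B w v) := by
      rw [EE_adj hC.isom, EE_U hn hv, map_smul, smul_eq_mul, B_move hC.isom, inv_inv, hd v hv, map_smul, smul_eq_mul]
    have h3 : B (ε • EE ρ w) v = ε * (16 * B w v) := by
      rw [map_smul, LinearMap.smul_apply, smul_eq_mul, EE_adj hC.isom, EE_U hn hv, map_smul, smul_eq_mul]
    rw [map_sub, LinearMap.sub_apply, h2, h3]
    ring
  exact sub_eq_zero.1 h1

end act

/-! ### scalars -/

section scal
variable {n : ℕ} [NeZero n] {F : Type u} [Field F] {W : Type v} [AddCommGroup W] [Module F W]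
  {ρ : Representation F ↥(alternatingGroup (Fin n)) W} {B : W →ₗ[F] W →ₗ[F] F}

theorem chk1_spec {f : ℕ → ℕ} {c : List ℕ} {h : List (ℕ × ℕ)} (hc : chk1 n f c h = true) :
    vl n h = true ∧ ∀ i < n, ap h (ap h i) = i ∧ c.getD (ap h i) 3 = f (col i) := by
  unfold chk1 at hc
  rw [Bool.and_eq_true, List.all_eq_true] at hc
  refine ⟨hc.1, fun i hi => ?_⟩
  have h1 := hc.2 i (List.mem_range.2 hi)
  rw [Bool.and_eq_true, nb, nb] at h1
  exact h1

/-- the case of an involution -/
theorem scal_of_inv (hn : 8 ≤ n) (hC : CfgU ρ B) {f : ℕ → ℕ} {g : ↥(alternatingGroup (Fin n))}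
    (hact' : ∀ d : ↥(alternatingGroup (Fin n)), (∀ i, col ((d : Perm (Fin n)) i).val = f (col i.val)) →
      ∃ ε : F, ∀ u ∈ inv ρ (Tg n gQ), ρ d⁻¹ u = ε • u)
    {h : List (ℕ × ℕ)} (hc : chk1 n f (cw (g : Perm (Fin n))) h = true) :
    ∃ c : F, ∀ u ∈ inv ρ (Tg n gQ), EE ρ (ρ g u) = c • u := by
  obtain ⟨hv, h1⟩ := chk1_spec hc
  have hap : ∀ i : Fin n, ((P n h : Perm (Fin n)) i).val = ap h i.val := fun i => by
    rw [coe_P le_rfl hv, pm_apply (vl_iff.1 hv).2]
  have hinv : (P n h)⁻¹ = P n h := by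
    rw [inv_eq_iff_mul_eq_one]
    apply Subtype.ext
    apply Perm.ext
    intro i
    rw [Subgroup.coe_mul, Perm.mul_apply]
    exact Fin.ext (by rw [hap, hap, (h1 i.val i.2).1]; rfl)
  obtain ⟨c, hcs⟩ := scal hn hC hinv
  have hd : ∀ i, col (((g⁻¹ * P n h : ↥(alternatingGroup (Fin n))) : Perm (Fin n)) i).val = f (col i.val) := by
    intro i
    rw [Subgroup.coe_mul, Perm.mul_apply, Subgroup.coe_inv, ← cw_getD, hap]
    exact (h1 i.val i.2).2
  obtain ⟨ε, hε⟩ := hact' _ hd
  refine ⟨ε * c, fun u hu => ?_⟩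
  have h2 : g = P n h * (g⁻¹ * P n h)⁻¹ := by group
  rw [h2, ρ_mul, hε u hu, map_smul, map_smul, hcs u hu, smul_smul]

/-- the inverse of a colour preserving element -/
theorem inv_id {d : ↥(alternatingGroup (Fin n))} (hd : ∀ i, col ((d : Perm (Fin n)) i).val = col i.val) (i : Fin n) :
    col (((d⁻¹ : ↥(alternatingGroup (Fin n))) : Perm (Fin n)) i).val = col i.val := by
  have h1 := hd (((d⁻¹ : ↥(alternatingGroup (Fin n))) : Perm (Fin n)) i)
  rw [← Perm.mul_apply, ← Subgroup.coe_mul, mul_inv_cancel] at h1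
  exact h1.symm

theorem inv_cs {d : ↥(alternatingGroup (Fin n))} (hd : ∀ i, col ((d : Perm (Fin n)) i).val = cs (col i.val)) (i : Fin n) :
    col (((d⁻¹ : ↥(alternatingGroup (Fin n))) : Perm (Fin n)) i).val = cs (col i.val) := by
  have h1 := hd (((d⁻¹ : ↥(alternatingGroup (Fin n))) : Perm (Fin n)) i)
  rw [← Perm.mul_apply, ← Subgroup.coe_mul, mul_inv_cancel] at h1
  have h2 : col i.val = cs (col (((d⁻¹ : ↥(alternatingGroup (Fin n))) : Perm (Fin n)) i).val) := h1
  have h3 := col_lt (((d⁻¹ : ↥(alternatingGroup (Fin n))) : Perm (Fin n)) i).val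
  rw [h2]
  have key : ∀ y < 3, y = cs (cs y) := by decide
  exact key _ h3

theorem scalA (hn : 8 ≤ n) (hn' : n ≤ 10) (hC : CfgU ρ B)
    (hq : n = 10 → ∀ u ∈ inv ρ (Tg n gQ), ρ (P n [(8, 9), (0, 1)]) u = -u) {g : ↥(alternatingGroup (Fin n))}
    (hc : chkA n (cw (g : Perm (Fin n))) = true) : ∃ c : F, ∀ u ∈ inv ρ (Tg n gQ), EE ρ (ρ g u) = c • u := by
  unfold chkA at hc
  rw [Bool.or_eq_true] at hc
  rcases hc with hc | hc
  · exact scal_of_inv hn hC (f := fun x => x) (fun d hd => act_col hn hn' hC hq (inv_id hd)) hc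
  · exact scal_of_inv hn hC (f := cs) (fun d hd => act_cs hn hn' hC hq (inv_cs hd)) hc

end scal

section ten
variable {F : Type u} [Field F] {W : Type v} [AddCommGroup W] [Module F W]
  {ρ : Representation F ↥(alternatingGroup (Fin 10)) W} {B : W →ₗ[F] W →ₗ[F] F}

/-- the case `E ρ(g) = 0` -/
theorem scalK (hC : CfgU ρ B) (hq : ∀ u ∈ inv ρ (Tg 10 gQ), ρ (P 10 [(8, 9), (0, 1)]) u = -u)
    {g : ↥(alternatingGroup (Fin 10))} {d : List (ℕ × ℕ)} (hc : chkK (cw (g : Perm (Fin 10))) d = true) :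
    ∀ u ∈ inv ρ (Tg 10 gQ), EE ρ (ρ g u) = 0 := by
  unfold chkK at hc
  rw [Bool.and_eq_true, Bool.and_eq_true, List.all_eq_true] at hc
  obtain ⟨⟨hv, h1⟩, h2⟩ := hc
  have hap : ∀ i : Fin 10, ((P 10 d : Perm (Fin 10)) i).val = ap d i.val := fun i => by
    rw [coe_P le_rfl hv, pm_apply (vl_iff.1 hv).2]
  have h3 : ∀ i : Fin 10, col ((P 10 d : Perm (Fin 10)) i).val = col i.val ∧
      col (((g : Perm (Fin 10))⁻¹) ((P 10 d : Perm (Fin 10)) i)).val = col (((g : Perm (Fin 10))⁻¹) i).val := by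
    intro i
    have h4 := h1 i.val (List.mem_range.2 i.2)
    rw [Bool.and_eq_true, nb, nb] at h4
    rw [← cw_getD, ← cw_getD, hap]
    exact h4
  -- the conjugate
  set e : ↥(alternatingGroup (Fin 10)) := g⁻¹ * P 10 d * g with he
  have hei : ∀ i, (e : Perm (Fin 10)) i = ((g : Perm (Fin 10))⁻¹) ((P 10 d : Perm (Fin 10)) ((g : Perm (Fin 10)) i)) := fun i => by
    rw [he, Subgroup.coe_mul, Subgroup.coe_mul, Perm.mul_apply, Perm.mul_apply, Subgroup.coe_inv]
  have hgi : ∀ i, ((g : Perm (Fin 10))⁻¹) ((g : Perm (Fin 10)) i) = i := fun i => by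
    rw [Perm.inv_eq_iff_eq]
  have he1 : ∀ i, col ((e : Perm (Fin 10)) i).val = col i.val := by
    intro i
    rw [hei, (h3 _).2, hgi]
  have hde : P 10 d * g = g * e := by rw [he]; group
  have hmain : ∀ {ε δ : F}, (∀ u ∈ inv ρ (Tg 10 gQ), ρ (P 10 d) u = ε • u) →
      (∀ u ∈ inv ρ (Tg 10 gQ), ρ e u = δ • u) → (ε * δ = -1) → ∀ u ∈ inv ρ (Tg 10 gQ), EE ρ (ρ g u) = 0 := by
    intro ε δ h4 h5 h8 u hu
    have h9 := comm_EE (by norm_num) hC (d := P 10 d) h4 (ρ (P 10 d) (ρ g u))
    rw [ρ_inv, ← ρ_mul, hde, ρ_mul, h5 u hu, map_smul, map_smul, smul_smul, h8, neg_one_smul] at h9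
    have h10 : (2 : F) • EE ρ (ρ g u) = 0 := by
      rw [two_smul]
      nth_rewrite 1 [h9]
      exact neg_add_cancel _
    exact (smul_eq_zero.1 h10).resolve_left hC.two
  have hfix : ∀ i : Fin 10, 8 ≤ i.val → i = 8 ∨ i = 9 := by
    intro i hi
    have := i.2
    rcases Nat.lt_or_ge i.val 9 with h | h
    · exact Or.inl (Fin.ext (show i.val = 8 by omega))
    · exact Or.inr (Fin.ext (show i.val = 9 by omega))
  have hc2 : ∀ i : Fin 10, 8 ≤ i.val → Nat.beq ((cw (g : Perm (Fin 10))).getD ((g : Perm (Fin 10)) i).val 3) 2 = true := by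
    intro i hi
    rw [nb, cw_getD, hgi]
    exact col_eq_two.2 hi
  rw [Bool.or_eq_true, Bool.and_eq_true, Bool.and_eq_true, List.all_eq_true, List.all_eq_true] at h2
  rcases h2 with ⟨h4, h5⟩ | ⟨h4, h5⟩
  · -- `d` fixes 8, 9; `e` exchanges them
    have hd8 : (P 10 d : Perm (Fin 10)) 8 = 8 := Fin.ext (by rw [hap]; exact nb.1 h4)
    have hd9 : ∀ i : Fin 10, 8 ≤ i.val → (P 10 d : Perm (Fin 10)) i = i := by
      intro i hi
      rcases hfix i hi with rfl | rfl
      · exact hd8
      · rcases hfix _ (col_eq_two.1 ((h3 9).1.trans (show col 9 = 2 by decide))) with h | h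
        · exact absurd ((P 10 d : Perm (Fin 10)).injective (h.trans hd8.symm)) (by decide)
        · exact h
    have he8 : (e : Perm (Fin 10)) 8 = 9 := by
      rcases hfix _ (col_eq_two.1 ((he1 8).trans (show col 8 = 2 by decide))) with h | h
      · exfalso
        have h6 := h5 _ (List.mem_range.2 ((g : Perm (Fin 10)) 8).2)
        rw [hc2 8 (by decide)] at h6
        have h7 : ¬ Nat.beq (ap d ((g : Perm (Fin 10)) 8).val) ((g : Perm (Fin 10)) 8).val = true := by
          intro h8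
          rw [h8] at h6
          simp at h6
        apply h7
        rw [nb, ← hap]
        rw [hei, Perm.inv_eq_iff_eq] at h
        rw [h]
      · exact h
    refine hmain (ε := 1) (δ := -1) (fun u hu => ?_) (fun u hu => ?_) (by ring)
    · rw [one_smul]
      exact act_fix (by norm_num) hC (fun i => (h3 i).1) hd9 hu
    · rw [neg_one_smul]
      exact act_swap hC hq he1 he8 hu
  · -- `d` exchanges 8, 9; `e` fixes them
    have hd8 : (P 10 d : Perm (Fin 10)) 8 = 9 := Fin.ext (by rw [hap]; exact nb.1 h4)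
    have he9 : ∀ i : Fin 10, 8 ≤ i.val → (e : Perm (Fin 10)) i = i := by
      intro i hi
      have h6 := h5 _ (List.mem_range.2 ((g : Perm (Fin 10)) i).2)
      rw [hc2 i hi] at h6
      have h7 : Nat.beq (ap d ((g : Perm (Fin 10)) i).val) ((g : Perm (Fin 10)) i).val = true := by simpa using h6
      rw [hei, Perm.inv_eq_iff_eq]
      apply Fin.ext
      rw [hap]
      exact nb.1 h7
    refine hmain (ε := -1) (δ := 1) (fun u hu => ?_) (fun u hu => ?_) (by ring)
    · rw [neg_one_smul]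
      exact act_swap hC hq (fun i => (h3 i).1) hd8 hu
    · rw [one_smul]
      exact act_fix (by norm_num) hC he1 he9 hu

end ten

/-! ### all elements -/

section all
variable {F : Type u} [Field F] {W : Type v} [AddCommGroup W] [Module F W] {B : W →ₗ[F] W →ₗ[F] F}

theorem all_scal8 {ρ : Representation F ↥(alternatingGroup (Fin 8)) W} (hC : CfgU ρ B) (g : ↥(alternatingGroup (Fin 8))) :
    ∃ c : F, ∀ u ∈ inv ρ (Tg 8 gQ), EE ρ (ρ g u) = c • u :=
  scalA le_rfl (by norm_num) hC (fun h => absurd h (by norm_num))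
    (List.all_eq_true.1 all8 _ (cw_mem (n := 8) (a := 4) (b := 4) (c := 0) (by decide) (by decide) (by decide) g))

theorem all_scal9 {ρ : Representation F ↥(alternatingGroup (Fin 9)) W} (hC : CfgU ρ B) (g : ↥(alternatingGroup (Fin 9))) :
    ∃ c : F, ∀ u ∈ inv ρ (Tg 9 gQ), EE ρ (ρ g u) = c • u :=
  scalA (by norm_num) (by norm_num) hC (fun h => absurd h (by norm_num))
    (List.all_eq_true.1 all9 _ (cw_mem (n := 9) (a := 4) (b := 4) (c := 1) (by decide) (by decide) (by decide) g))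

theorem all_scal10 {ρ : Representation F ↥(alternatingGroup (Fin 10)) W} (hC : CfgU ρ B)
    (hq : ∀ u ∈ inv ρ (Tg 10 gQ), ρ (P 10 [(8, 9), (0, 1)]) u = -u) (g : ↥(alternatingGroup (Fin 10))) :
    ∃ c : F, ∀ u ∈ inv ρ (Tg 10 gQ), EE ρ (ρ g u) = c • u := by
  have h := List.all_eq_true.1 all10 _ (cw_mem (n := 10) (a := 4) (b := 4) (c := 2) (by decide) (by decide) (by decide)
    (g : Perm (Fin 10)))
  rw [Bool.or_eq_true] at h
  rcases h with h | h
  · exact scalA (by norm_num) le_rfl hC (fun _ => hq) h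
  · exact ⟨0, fun u hu => by rw [zero_smul]; exact scalK hC hq h u hu⟩

/-- **reducibility** -/
theorem exists_sub {n : ℕ} [NeZero n] (hn : 8 ≤ n) {ρ : Representation F ↥(alternatingGroup (Fin n)) W} (hC : CfgU ρ B)
    (hall : ∀ g : ↥(alternatingGroup (Fin n)), ∃ c : F, ∀ u ∈ inv ρ (Tg n gQ), EE ρ (ρ g u) = c • u) :
    ∃ M : Submodule F W, (∀ g, ∀ w ∈ M, ρ g w ∈ M) ∧ M ≠ ⊥ ∧ M ≠ ⊤ := by
  have hU : inv ρ (Tg n gQ) ≠ ⊥ := by
    intro h
    have h1 := hC.dim
    rw [h, finrank_bot] at h1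
    exact absurd h1 (by norm_num)
  obtain ⟨u, hu, hu0⟩ := Submodule.exists_mem_ne_zero_of_ne_bot hU
  refine ⟨Submodule.span F (Set.range fun g => ρ g u), ?_, ?_, ?_⟩
  · intro g w hw
    refine Submodule.span_induction ?_ ?_ ?_ ?_ hw
    · rintro w ⟨k, rfl⟩
      apply Submodule.subset_span
      exact ⟨g * k, ρ_mul g k u⟩
    · rw [map_zero]; exact zero_mem _
    · intro a b _ _ ha hb; rw [map_add]; exact add_mem ha hb
    · intro c a _ ha; rw [map_smul]; exact Submodule.smul_mem _ _ ha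
  · intro h
    have h1 : u ∈ Submodule.span F (Set.range fun g => ρ g u) := Submodule.subset_span ⟨1, ρ_one u⟩
    rw [h, Submodule.mem_bot] at h1
    exact hu0 h1
  · intro h
    have h1 : ∀ w ∈ Submodule.span F (Set.range fun g => ρ g u), EE ρ w ∈ Submodule.span F {u} := by
      intro w hw
      refine Submodule.span_induction ?_ ?_ ?_ ?_ hw
      · rintro w ⟨k, rfl⟩
        obtain ⟨c, hc⟩ := hall k
        show EE ρ (ρ k u) ∈ _
        rw [hc u hu]
        exact Submodule.smul_mem _ _ (Submodule.mem_span_singleton_self u)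
      · rw [map_zero]; exact zero_mem _
      · intro a b _ _ ha hb; rw [map_add]; exact add_mem ha hb
      · intro c a _ ha; rw [map_smul]; exact Submodule.smul_mem _ _ ha
    have h2 : inv ρ (Tg n gQ) ≤ Submodule.span F {u} := by
      intro v hv
      have h3 := h1 v (by rw [h]; trivial)
      rw [EE_U hn hv] at h3
      have h4 := Submodule.smul_mem _ ((16 : F)⁻¹) h3
      rwa [smul_smul, inv_mul_cancel₀ (sixteen_ne hC.two), one_smul] at h4
    have hfd := hC.fin
    have h3 := Submodule.finrank_mono h2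
    rw [hC.dim, finrank_span_singleton hu0] at h3
    omega

end all

end Cfsg.Agent.R2.T1.Odd
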