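import Cfsg.Agent.R2.T1.Odd.Scal
import Cfsg.Agent.R2.T1.Odd.Out

/-!
# S5771, ODD5: `(89)(01)` acts as `-1` on `U`, `n = 10` (helper11)
-/

set_option autoImplicit false
set_option maxRecDepth 100000

namespace Cfsg.Agent.R2.T1.Odd

open Cfsg Cfsg.Lie Module Equiv Equiv.Perm
open Cfsg.Agent.H943.E7V.Block (D1 rho)
open Cfsg.Agent.H952.F4 (ev es MaxAlt)
open Cfsg.Agent.R2.T1.Art

universe u v

def l4222 : List (ℕ × ℕ) := [(0, 1), (1, 2), (2, 3), (4, 5), (6, 7), (8, 9)]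

/-- representatives: `1`, `2²`, `2⁴`, `42`, `4222` -/
def rq : List (List (ℕ × ℕ)) := [[], lt, ls, l42, l4222]

def gQq : List (List (ℕ × ℕ)) :=
  [[(0, 1), (2, 3)], [(0, 2), (1, 3)], [(4, 5), (6, 7)], [(4, 6), (5, 7)], [(0, 1), (8, 9)]]

def eQq : List (List ℕ) :=
  [[], [0], [1], [2], [3], [4], [1, 0], [2, 0], [3, 0], [4, 0], [2, 1], [3, 1], [4, 1], [3, 2], [4, 2], [4, 3], [1,
   4], [2, 1, 0], [3, 1, 0], [3, 2, 0], [4, 2, 0], [4, 3, 0], [3, 2, 1], [4, 2, 1], [4, 3, 1], [4, 3, 2], [1, 4,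
   2], [1, 4, 3], [3, 2, 1, 0], [4, 3, 2, 0], [4, 3, 2, 1], [1, 4, 3, 2]]

def dQq : List (ℕ × List (ℕ × ℕ)) :=
  [(0, []), (1, []), (1, [(0, 1), (1, 3), (4, 6), (6, 9), (9, 7), (7, 5)]), (1, [(0, 4), (1, 5), (2, 6), (3, 7)]),
   (1, [(0, 7), (7, 3), (3, 6), (6, 8), (8, 2), (2, 4), (4, 1), (1, 5)]), (1, [(2, 8), (8, 6), (6, 4), (3, 9), (9,
   7), (7, 5)]), (1, [(1, 3), (3, 2)]), (2, []), (2, [(0, 5), (5, 1), (1, 7), (7, 2), (2, 4), (3, 6)]), (1, [(0,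
   2), (2, 8), (8, 6), (6, 4), (1, 3), (3, 9), (9, 7), (7, 5)]), (2, [(0, 3), (3, 2), (4, 6), (6, 5), (5, 7), (8,
   9)]), (2, [(1, 2), (5, 6)]), (3, [(0, 2), (2, 3), (4, 9), (9, 7), (7, 6), (5, 8)]), (1, [(0, 4), (1, 7), (7, 3),
   (3, 6), (6, 2), (2, 5)]), (2, [(2, 4), (4, 6), (6, 8), (3, 5), (5, 7), (7, 9)]), (2, [(0, 5), (5, 1), (1, 7),
   (7, 9), (9, 3), (3, 4), (2, 6), (6, 8)]), (3, [(1, 3), (3, 2), (4, 8), (8, 6), (5, 9), (9, 7)]), (2, [(1, 3),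
   (3, 2)]), (2, [(0, 4), (4, 3), (3, 5), (1, 6), (6, 2), (2, 7)]), (2, [(5, 7), (7, 6)]), (2, [(0, 2), (2, 4), (4,
   6), (6, 8), (1, 3), (3, 5), (5, 7), (7, 9)]), (2, [(0, 7), (7, 3), (3, 4), (4, 9), (9, 1), (1, 5), (5, 8), (2,
   6)]), (2, [(1, 2), (2, 3), (5, 7), (7, 6)]), (4, [(0, 3), (3, 1)]), (4, [(1, 2), (5, 6)]), (2, [(2, 4), (4, 5),
   (5, 6), (6, 8), (3, 7), (7, 9)]), (4, [(1, 3), (3, 2)]), (4, [(0, 2), (2, 3), (3, 1), (4, 9), (9, 6), (6, 7),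
   (7, 5), (5, 8)]), (2, [(1, 3), (3, 2), (5, 7), (7, 6)]), (2, [(0, 2), (2, 4), (4, 5), (5, 6), (6, 8), (1, 3),
   (3, 7), (7, 9)]), (4, [(0, 1), (1, 3), (3, 2), (4, 7), (7, 6), (6, 5)]), (4, [(1, 3), (3, 2), (5, 7), (7, 6)])]

theorem chkG_Qq : chkG 10 gQq eQq = true := by decide +kernel

theorem chkC_Qq : chkC 10 gQq eQq [] rq dQq = true := by decide +kernel

theorem len_Qq : eQq.length = 32 := by decide

theorem cnt_Qq : (List.range 5).map (fun k => (dQq.map Prod.fst).count k) = [1, 8, 15, 2, 6] := by decide +kernel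


section
variable {F : Type u} [Field F] [Finite F] (h2 : (2 : F) ≠ 0) {ψ : ↥(alternatingGroup (Fin 10)) →* Gh F}
  (hψ : ∀ a, ad F (ψ a) = 1 → a = 1)
include h2 hψ

theorem dim_Qq : finrank F ↥(inv (MonoidHom.comp (V F) ψ) (Tg 10 gQq)) = 0 := by
  set ρ : Representation F ↥(alternatingGroup (Fin 10)) (D1 → F) := MonoidHom.comp (V F) ψ with hρ
  obtain ⟨tt, ts, t42, -, tq, -, -⟩ := types (n := 10) (by norm_num) h2 hψ
  have h := dimC (n := 10) le_rfl chkG_Qq chkC_Qq len_Qq (K := 5) rfl (by simpa using two_pow_ne h2 5) cnt_Qq ρ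
  unfold rq at h
  simp only [Finset.sum_range_succ, Finset.sum_range_zero, List.getD_cons_zero, List.getD_cons_succ, P_nil] at h
  have hm : finrank F ↥(inv ρ (Tg 10 gQq)) ≤ finrank F ↥(inv ρ (Tg 10 gQ)) := by
    apply Submodule.finrank_mono
    apply inv_mono
    unfold Tg
    refine Subgroup.closure_mono ?_
    rintro x ⟨g, hg, rfl⟩
    refine ⟨g, ?_, rfl⟩
    revert g
    decide
  have hn : (8 : ℕ) ≤ 10 := by norm_num
  have e0 : om ρ 1 = 56 := by rw [om_one, finrank_V]; norm_num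
  have et : om ρ (P 10 lt) = 8 := by
    rw [om_prime ρ Nat.prime_two (orderOf_P hn (by decide +kernel)), finrank_V, show ev (ρ (P 10 lt)) 1 = 32 from tt]
    norm_num
  have es : om ρ (P 10 ls) = -8 := by
    rw [om_prime ρ Nat.prime_two (orderOf_P hn (by decide +kernel)), finrank_V, show ev (ρ (P 10 ls)) 1 = 24 from ts]
    norm_num
  have e42 : om ρ (P 10 l42) = 0 := by
    rw [om_four ρ (orderOf_P hn (by decide +kernel)), ← P_pwl hn (m := 8) (by decide),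
      ev_P_conj hn ρ (x := pwl l42 2) (c := [(1, 2), (4, 5)]) (r := lt) (by decide) (by decide) (by decide) (by decide),
      show ev (ρ (P 10 lt)) 1 = 32 from tt, show ev (ρ (P 10 l42)) 1 = 16 from t42]
    norm_num
  have e4 : om ρ (P 10 l4222) = 2 * (ev (ρ (P 10 l4222)) 1 : ℚ) - 32 := by
    have h1 : P 10 l4222 ^ 2 = P 10 [(0, 2), (1, 3)] := P_pow_eq (m := 10) le_rfl (by decide) (by decide) (by decide)
    rw [om_four ρ (orderOf_P (m := 10) le_rfl (by decide +kernel)), h1,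
      ev_P_conj hn ρ (x := [(0, 2), (1, 3)]) (c := [(1, 2), (4, 5)]) (r := lt) (by decide) (by decide) (by decide) (by decide),
      show ev (ρ (P 10 lt)) 1 = 32 from tt]
    norm_num
  rw [e0, et, es, e42, e4] at h
  rw [tq] at hm
  generalize finrank F ↥(inv ρ (Tg 10 gQq)) = q at *
  generalize ev (ρ (P 10 l4222)) 1 = a at *
  push_cast at h
  norm_num at h
  have h' : 32 * (q : ℤ) = 56 + 64 - 120 + 6 * (2 * a - 32) := by
    have : (32 * (q : ℚ)) = 56 + 64 - 120 + 6 * (2 * a - 32) := by linear_combination h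
    exact_mod_cast this
  omega

/-- **`(89)(01)` acts as `-1`** -/
theorem act_q {u : D1 → F} (hu : u ∈ inv (MonoidHom.comp (V F) ψ) (Tg 10 gQ)) :
    (MonoidHom.comp (V F) ψ : Representation F ↥(alternatingGroup (Fin 10)) (D1 → F)) (P 10 [(8, 9), (0, 1)]) u = -u := by
  set ρ : Representation F ↥(alternatingGroup (Fin 10)) (D1 → F) := MonoidHom.comp (V F) ψ with hρ
  have hv : vl 10 [(8, 9), (0, 1)] = true := by decide
  have hmem : ρ (P 10 [(8, 9), (0, 1)]) u ∈ inv ρ (Tg 10 gQ) := by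
    rw [mem_U]
    intro g hg
    have key : ∀ g ∈ gQ, vl 10 g = true ∧ ∃ w ∈ eQ, vl 10 (wd gQ w) = true ∧
        cd 10 (g ++ [(8, 9), (0, 1)]) = cd 10 ([(8, 9), (0, 1)] ++ wd gQ w) := by decide +kernel
    obtain ⟨h1, w, hw, h3, h4⟩ := key g hg
    have h5 := (P_eq_iff (n := 10) le_rfl (vl_append h1 hv) (vl_append hv h3)).2 h4
    rw [P_append le_rfl h1 hv, P_append le_rfl hv h3] at h5
    rw [← ρ_mul, h5, ρ_mul, hu _ (P_wd_mem (n := 10) (by norm_num) gQ_vl w)]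
  have h1 : u + ρ (P 10 [(8, 9), (0, 1)]) u ∈ inv ρ (Tg 10 gQq) := by
    rw [mem_U]
    intro g hg
    have h2 : g ∈ gQ ∨ cd 10 g = cd 10 [(8, 9), (0, 1)] ∧ vl 10 g = true := by revert g; decide
    rw [map_add]
    rcases h2 with h2 | ⟨h2, h2'⟩
    · have h3 := hmem
      rw [mem_U] at hu h3
      rw [hu g h2, h3 g h2]
    · have h3 : P 10 g = P 10 [(8, 9), (0, 1)] := (P_eq_iff le_rfl h2' hv).2 h2
      have h4 : P 10 [(8, 9), (0, 1)] ^ 2 = 1 := P_pow_one (m := 10) le_rfl hv (by decide)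
      rw [h3, ← ρ_mul, ← pow_two, h4, ρ_one, add_comm]
  rw [Submodule.finrank_eq_zero.1 (dim_Qq h2 hψ), Submodule.mem_bot] at h1
  exact (neg_eq_of_add_eq_zero_right h1).symm

end

end Cfsg.Agent.R2.T1.Odd
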